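import Mathlib
import Cfsg.Agent.H585.FacFive

/-!
# The counting argument (helper585, for S4384)

`exists_full` : if `G = AB` then `A` or `B` contains an `r`-element acting as an inner automorphism on all components, and
with full order `r^a` on at least one of them.
-/

set_option autoImplicit false
set_option linter.unusedSectionVars false

namespace Cfsg.Agent.H585.FacSix

open Cfsg Subgroup Cfsg.Agent.H459.Rad Cfsg.Agent.H459.Reduce
open Cfsg.Agent.H465.Red (exists_lift)
open Cfsg.Agent.SignalizersComponents.Components Cfsg.Agent.SignalizersComponents.ComponentExists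
open Cfsg.Agent.H585.Good Cfsg.Agent.H585.FacOne Cfsg.Agent.H585.GW Cfsg.Agent.H585.FacTwo Cfsg.Agent.H585.FacThree
open Cfsg.Agent.H585.FacFive

section Arith

theorem not_pow_dvd_factorial {r k : ℕ} (hr : r.Prime) (hk : 0 < k) : ¬ r ^ k ∣ k.factorial := by
  have : Fact r.Prime := ⟨hr⟩
  intro h
  have h1 := sub_one_mul_padicValNat_factorial_lt_of_ne_zero (p := r) (n := k) hk.ne'
  have h2 : k ≤ padicValNat r k.factorial := (padicValNat_dvd_iff_le (Nat.factorial_ne_zero k)).1 h
  have h3 : 1 ≤ r - 1 := by have := hr.two_le; omega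
  have h4 : 1 * padicValNat r k.factorial ≤ (r - 1) * padicValNat r k.factorial := Nat.mul_le_mul_right _ h3
  omega

theorem card_mul_relIndex' {G : Type*} [Group G] {H M : Subgroup G} (hH : H ≤ M) :
    Nat.card H * H.relIndex M = Nat.card M := by
  have h1 := relIndex_mul_relIndex (⊥ : Subgroup G) H M bot_le hH
  rwa [relIndex_bot_left, relIndex_bot_left] at h1

/-- `|H| |K| ≤ |M| |H ∩ K|` -/
theorem card_mul_card_le {G : Type*} [Group G] [Finite G] {H K M : Subgroup G} (hH : H ≤ M) (hK : K ≤ M) :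
    Nat.card H * Nat.card K ≤ Nat.card M * Nat.card (H ⊓ K : Subgroup G) := by
  have h1 := relIndex_inf_le (H := H) (K := K) (L := M)
  have h2 : Nat.card H * H.relIndex M = Nat.card M := card_mul_relIndex' hH
  have h3 : Nat.card K * K.relIndex M = Nat.card M := card_mul_relIndex' hK
  have h4 : Nat.card (H ⊓ K : Subgroup G) * (H ⊓ K).relIndex M = Nat.card M := card_mul_relIndex' (inf_le_left.trans hH)
  have hM : 0 < Nat.card M := Nat.card_pos
  have h5 : Nat.card M * (Nat.card H * Nat.card K) ≤ Nat.card M * (Nat.card M * Nat.card (H ⊓ K : Subgroup G)) := by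
    calc Nat.card M * (Nat.card H * Nat.card K)
        = (Nat.card (H ⊓ K : Subgroup G) * (H ⊓ K).relIndex M) * (Nat.card H * Nat.card K) := by rw [h4]
      _ = (Nat.card (H ⊓ K : Subgroup G) * (Nat.card H * Nat.card K)) * (H ⊓ K).relIndex M := by ring
      _ ≤ (Nat.card (H ⊓ K : Subgroup G) * (Nat.card H * Nat.card K)) * (H.relIndex M * K.relIndex M) :=
          Nat.mul_le_mul_left _ h1
      _ = Nat.card (H ⊓ K : Subgroup G) * (Nat.card H * H.relIndex M) * (Nat.card K * K.relIndex M) := by ring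
      _ = Nat.card M * (Nat.card M * Nat.card (H ⊓ K : Subgroup G)) := by rw [h2, h3]; ring
  exact Nat.le_of_mul_le_mul_left h5 hM

theorem arith {p q m e i a b c a' b' c' : ℕ} (hq : q = m * e) (hp : p = i * q) (h0 : p * c ≤ a * b)
    (h1 : a * q ≤ p * a') (h2 : b * q ≤ p * b') (h3 : a' * b' ≤ m * c') (h4 : c' ≤ c) (hpp : 0 < p) (hcc : 0 < c) :
    e ≤ i := by
  have hm : 0 < m := by
    rcases Nat.eq_zero_or_pos m with h | h
    · subst h; simp at hq; subst hq; simp at hp; omega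
    · exact h
  have hqq : 0 < q := by
    rcases Nat.eq_zero_or_pos q with h | h
    · subst h; simp at hp; omega
    · exact h
  have h5 : (p * c) * (q * q) ≤ (p * p) * (m * c) := by
    calc (p * c) * (q * q) ≤ (a * b) * (q * q) := Nat.mul_le_mul_right _ h0
      _ = (a * q) * (b * q) := by ring
      _ ≤ (p * a') * (p * b') := Nat.mul_le_mul h1 h2
      _ = (p * p) * (a' * b') := by ring
      _ ≤ (p * p) * (m * c') := Nat.mul_le_mul_left _ h3
      _ ≤ (p * p) * (m * c) := Nat.mul_le_mul_left _ (Nat.mul_le_mul_left _ h4)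
  have h6 : q * q ≤ p * m := by
    have h7 : (p * c) * (q * q) ≤ (p * c) * (p * m) := by
      calc (p * c) * (q * q) ≤ (p * p) * (m * c) := h5
        _ = (p * c) * (p * m) := by ring
    exact Nat.le_of_mul_le_mul_left h7 (Nat.mul_pos hpp hcc)
  have h7 : (q * m) * e ≤ (q * m) * i := by
    calc (q * m) * e = q * (m * e) := by ring
      _ = q * q := by rw [← hq]
      _ ≤ p * m := h6
      _ = (q * m) * i := by rw [hp]; ring
  exact Nat.le_of_mul_le_mul_left h7 (Nat.mul_pos hqq hm)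

end Arith

variable {G : Type*} [Group G] [Finite G]

/-- the Sylow part of a subgroup inside a conjugate of it -/
theorem exists_part {r : ℕ} [Fact r.Prime] (P : Sylow r G) (C : Subgroup G) : ∃ (g : G) (C' : Subgroup G) (m : ℕ),
    C' ≤ P ∧ C' ≤ cj g C ∧ Nat.card C = Nat.card C' * m ∧ ¬ r ∣ m := by
  obtain ⟨S⟩ : Nonempty (Sylow r C) := inferInstance
  obtain ⟨v, hv⟩ := IsPGroup.iff_card.1 S.isPGroup'
  have hc : Nat.card ((S : Subgroup C).map C.subtype) = r ^ v := by
    rw [Subgroup.card_map_of_injective C.subtype_injective, hv]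
  obtain ⟨P₁, hP₁⟩ := (IsPGroup.of_card (p := r) (n := v) hc :
    IsPGroup r ((S : Subgroup C).map C.subtype)).exists_le_sylow
  obtain ⟨g, hg⟩ := MulAction.exists_smul_eq G P₁ P
  refine ⟨g, cj g ((S : Subgroup C).map C.subtype), (S : Subgroup C).index, ?_, ?_, ?_, S.not_dvd_index⟩
  · rw [← hg]
    exact Subgroup.map_mono hP₁
  · exact Subgroup.map_mono (map_subtype_le _)
  · have h1 : Nat.card (cj g ((S : Subgroup C).map C.subtype)) = Nat.card (S : Subgroup C) := by
      unfold cj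
      rw [Subgroup.card_map_of_injective (MulAut.conj g).injective,
        Subgroup.card_map_of_injective C.subtype_injective]
    rw [h1, Subgroup.card_mul_index]

/-- `|P| |A' ∩ B'| ≤ |A'| |B'|` -/
theorem sylow_le {r : ℕ} [Fact r.Prime] (P : Sylow r G) {A B A' B' : Subgroup G} (hF : Fac A B)
    (hA' : A' ≤ A) (hB' : B' ≤ B) (hA'P : A' ≤ P) {m n : ℕ} (hA : Nat.card A = Nat.card A' * m)
    (hB : Nat.card B = Nat.card B' * n) (hm : ¬ r ∣ m) (hn : ¬ r ∣ n) :
    Nat.card P * Nat.card (A' ⊓ B' : Subgroup G) ≤ Nat.card A' * Nat.card B' := by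
  have hr : r.Prime := Fact.out
  have h1 : Nat.card P * Nat.card (A' ⊓ B' : Subgroup G) ∣ (Nat.card A' * Nat.card B') * (m * n) := by
    have h2 : Nat.card A * Nat.card B = (Nat.card A' * Nat.card B') * (m * n) := by rw [hA, hB]; ring
    rw [← h2, hF.card]
    exact Nat.mul_dvd_mul (Subgroup.card_subgroup_dvd_card _) (Subgroup.card_dvd_of_le (inf_le_inf hA' hB'))
  obtain ⟨k, hk⟩ := IsPGroup.iff_card.1 P.isPGroup'
  obtain ⟨l, hl⟩ := IsPGroup.iff_card.1 (P.isPGroup'.to_le (inf_le_left.trans hA'P : A' ⊓ B' ≤ (P : Subgroup G)))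
  have h3 : Nat.Coprime (Nat.card P * Nat.card (A' ⊓ B' : Subgroup G)) (m * n) := by
    rw [hk, hl, ← pow_add]
    refine Nat.Coprime.pow_left _ ((Nat.Prime.coprime_iff_not_dvd hr).2 ?_)
    intro h
    rcases (Nat.Prime.dvd_mul hr).1 h with h | h
    · exact hm h
    · exact hn h
  exact Nat.le_of_dvd (Nat.mul_pos Nat.card_pos Nat.card_pos) (h3.dvd_of_dvd_mul_right h1)

/-- the action on the components -/
def permHom (G : Type*) [Group G] [Finite G] : G →* Equiv.Perm {T : Subgroup G // IsComponent T} where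
  toFun g :=
    { toFun := fun T => ⟨cj g T, component_cj T.2 g⟩
      invFun := fun T => ⟨cj g⁻¹ T, component_cj T.2 g⁻¹⟩
      left_inv := fun T => Subtype.ext (by simp only [← cj_mul, inv_mul_cancel, cj_one])
      right_inv := fun T => Subtype.ext (by simp only [← cj_mul, mul_inv_cancel, cj_one]) }
  map_one' := by
    ext1 T
    exact Subtype.ext (cj_one _)
  map_mul' g h := by
    ext1 T
    exact Subtype.ext (cj_mul _ _ _)

theorem eq_one_of_acts (hR : solvableRadical G = ⊥) {g : G} (h : ∀ T : Subgroup G, IsComponent T → Acts T g 1) :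
    g = 1 := by
  by_contra hg
  obtain ⟨T, hT, t, ht, hne⟩ := exists_component hR hg
  exact hne ((h T hT).comm ht)

/-- an `r`-element of `C` acting as an inner automorphism on all components and with full order on one of them -/
def HasFull (r a : ℕ) (C : Subgroup G) : Prop :=
  ∃ T₀ : Subgroup G, IsComponent T₀ ∧ ∃ u₀ ∈ C, u₀ ∈ innK G ∧ (∃ k, orderOf u₀ = r ^ k) ∧
    ∃ s₀ : T₀, orderOf s₀ = r ^ a ∧ Acts T₀ u₀ (MulAut.conj s₀)

theorem HasFull.of_cj {r a : ℕ} {C : Subgroup G} {g : G} (h : HasFull r a (cj g C)) : HasFull r a C := by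
  obtain ⟨T₀, hT₀, u₀, hu, hN, ⟨k, hk⟩, s₀, hs₀, hact⟩ := h
  obtain ⟨s', hs', -, hs⟩ := Acts.transport hact g⁻¹ (T' := cj g⁻¹ T₀) rfl
  refine ⟨_, component_cj hT₀ g⁻¹, _, ?_, innK_normal.conj_mem _ hN g⁻¹, ⟨k, by rw [orderOf_conj', hk]⟩, s',
    by rw [hs', hs₀], hs⟩
  have h1 := mem_cj.1 hu
  rwa [inv_inv]

variable {r a : ℕ}

/-- the image of an `r`-group in a component -/
theorem image_eq (hR : solvableRadical G = ⊥) (hr : r.Prime) {T : Subgroup G} (hT : IsComponent T) {y : T}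
    (hy : GoodW T r a y) {Q : Subgroup G} (hQ : ∀ u ∈ Q, ∃ k, u ^ r ^ k = 1) {z : T} (hz : orderOf z = r ^ a)
    (hzQ : (z : G) ∈ Q) {u : G} (hu : u ∈ Q) {t : T} (ht : Acts T u (MulAut.conj t)) : t ∈ zpowers z := by
  have hrf : Fact r.Prime := ⟨hr⟩
  let V : Subgroup T :=
    { carrier := {t | ∃ u ∈ Q, Acts T u (MulAut.conj t)}
      one_mem' := ⟨1, one_mem _, by rw [map_one]; exact Acts.one⟩
      mul_mem' := by
        rintro s t ⟨u, hu, hs⟩ ⟨u', hu', ht⟩
        exact ⟨u * u', mul_mem hu hu', by rw [map_mul]; exact hs.mul ht⟩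
      inv_mem' := by
        rintro s ⟨u, hu, hs⟩
        exact ⟨u⁻¹, inv_mem hu, by rw [map_inv]; exact hs.inv⟩ }
  have hVp : IsPGroup r V := by
    rintro ⟨t, u, hu, ht⟩
    obtain ⟨k, hk⟩ := hQ u hu
    refine ⟨k, Subtype.ext ?_⟩
    show t ^ r ^ k = 1
    apply conj_injective (center_T hR hT)
    rw [map_pow, map_one]
    refine (ht.pow (r ^ k)).unique ?_
    rw [hk]
    exact Acts.one
  obtain ⟨n, hn⟩ := IsPGroup.iff_card.1 hVp
  have hna : n ≤ a := by
    by_contra hcon
    apply hy.syl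
    refine (pow_dvd_pow r (show a + 1 ≤ n by omega)).trans ?_
    rw [← hn]
    exact Subgroup.card_subgroup_dvd_card _
  have hVs : zpowers z = V := by
    refine Subgroup.eq_of_le_of_card_ge (zpowers_le.2 ⟨z, hzQ, Acts.of_mem z⟩) ?_
    rw [hn, Nat.card_zpowers, hz]
    exact Nat.pow_le_pow_right hr.pos hna
  rw [hVs]
  exact ⟨u, hu, ht⟩

/-- many independent elements of order `r` -/
theorem exists_big (hR : solvableRadical G = ⊥) {E : Subgroup G}
    (x : ∀ T : Subgroup G, IsComponent T → T) (hx : ∀ T hT, orderOf (x T hT) = r)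
    (hxE : ∀ T hT, (x T hT : G) ∈ E) (S : Finset {T : Subgroup G // IsComponent T}) :
    ∃ F : Subgroup G, F ≤ E ∧ r ^ S.card ≤ Nat.card F ∧
      ∀ T : {T : Subgroup G // IsComponent T}, T ∉ S → ∀ f ∈ F, ∀ t ∈ (T : Subgroup G), f * t = t * f := by
  classical
  induction S using Finset.induction_on with
  | empty => exact ⟨⊥, bot_le, by simp, fun T _ f hf t _ => by rw [mem_bot.1 hf]; simp⟩
  | insert T₀ S hT₀ ih =>
    obtain ⟨F, hFE, hFc, hF⟩ := ih
    set z : G := (x T₀.1 T₀.2 : G) with hz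
    have hzo : orderOf z = r := by rw [hz, Subgroup.orderOf_coe, hx]
    have hzT : z ∈ (T₀ : Subgroup G) := (x T₀.1 T₀.2).2
    refine ⟨F ⊔ zpowers z, sup_le hFE (zpowers_le.2 (hxE _ _)), ?_, ?_⟩
    · have h1 := card_mul_card_le (H := F) (K := zpowers z) (M := F ⊔ zpowers z) le_sup_left le_sup_right
      have h2 : F ⊓ zpowers z = ⊥ := by
        rw [eq_bot_iff]
        intro f hf
        have hfT : f ∈ (T₀ : Subgroup G) := zpowers_le.2 hzT (mem_inf.1 hf).2
        have h3 : (⟨f, hfT⟩ : T₀.1) ∈ center T₀.1 := by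
          rw [mem_center_iff]
          intro t
          exact Subtype.ext (hF T₀ hT₀ f (mem_inf.1 hf).1 t t.2).symm
        rw [center_T hR T₀.2, mem_bot] at h3
        rw [mem_bot]
        exact congrArg Subtype.val h3
      rw [h2, Subgroup.card_bot, mul_one, Nat.card_zpowers, hzo] at h1
      rw [Finset.card_insert_of_notMem hT₀, pow_succ]
      exact (Nat.mul_le_mul_right _ hFc).trans h1
    · intro T hT f hf t ht
      rw [Finset.mem_insert, not_or] at hT
      have h1 : F ⊔ zpowers z ≤ centralizer ((T : Subgroup G) : Set G) := by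
        refine sup_le (fun f hf => ?_) (zpowers_le.2 ?_)
        · rw [mem_centralizer_iff]
          intro t ht
          exact (hF T hT.2 f hf t ht).symm
        · rw [mem_centralizer_iff]
          intro t ht
          exact comm_of_ne T.2 T₀.2 (fun h => hT.1 (Subtype.ext h)) ht hzT
      exact (mem_centralizer_iff.1 (h1 hf) t ht).symm

/-- **the counting argument** -/
theorem exists_full (hR : solvableRadical G = ⊥) (hr : r.Prime)
    (hg : ∀ T : Subgroup G, IsComponent T → ∃ y : T, GoodW T r a y) {A B : Subgroup G} (hF : Fac A B)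
    (hex : ∃ T : Subgroup G, IsComponent T) : HasFull r a A ∨ HasFull r a B := by
  classical
  have hrf : Fact r.Prime := ⟨hr⟩
  have hfin : Fintype {T : Subgroup G // IsComponent T} := Fintype.ofFinite _
  by_contra hcon
  rw [not_or] at hcon
  choose z hz using hg
  -- the group generated by the `z T`
  let E₀ : Subgroup G :=
    { carrier := {g | ∀ (T : Subgroup G) (hT : IsComponent T), ∃ t ∈ zpowers (z T hT), Acts T g (MulAut.conj t)}
      one_mem' := fun T hT => ⟨1, one_mem _, by rw [map_one]; exact Acts.one⟩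
      mul_mem' := by
        intro g h hg hh T hT
        obtain ⟨s, hs, hs'⟩ := hg T hT
        obtain ⟨t, ht, ht'⟩ := hh T hT
        exact ⟨s * t, mul_mem hs ht, by rw [map_mul]; exact hs'.mul ht'⟩
      inv_mem' := by
        intro g hg T hT
        obtain ⟨s, hs, hs'⟩ := hg T hT
        exact ⟨s⁻¹, inv_mem hs, by rw [map_inv]; exact hs'.inv⟩ }
  have hzE : ∀ T hT, (z T hT : G) ∈ E₀ := by
    intro T hT T' hT'
    by_cases h : T = T'
    · subst h
      exact ⟨z T hT, mem_zpowers _, Acts.of_mem _⟩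
    · exact ⟨1, one_mem _, by rw [map_one]; exact Acts.of_comm fun t ht => comm_of_ne hT hT' h (z T hT).2 ht⟩
  have hpow : ∀ (T : Subgroup G) (hT : IsComponent T), ∀ t ∈ zpowers (z T hT), t ^ r ^ a = 1 := by
    intro T hT t ht
    obtain ⟨i, rfl⟩ := mem_zpowers_iff.1 ht
    rw [← zpow_natCast, ← zpow_mul, mul_comm, zpow_mul, zpow_natCast, ← (hz T hT).ord, pow_orderOf_eq_one, one_zpow]
  have hE₀p : IsPGroup r E₀ := by
    rintro ⟨g, hg⟩
    refine ⟨a, Subtype.ext ?_⟩
    show g ^ r ^ a = 1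
    refine eq_one_of_acts hR fun T hT => ?_
    obtain ⟨t, ht, ht'⟩ := hg T hT
    have h1 := ht'.pow (r ^ a)
    rwa [← map_pow, hpow T hT t ht, map_one] at h1
  obtain ⟨P, hP⟩ := hE₀p.exists_le_sylow
  set Q : Subgroup G := (P : Subgroup G) ⊓ innK G with hQ
  have hPp : ∀ u ∈ (P : Subgroup G), ∃ k, u ^ r ^ k = 1 := by
    intro u hu
    obtain ⟨k, hk⟩ := P.isPGroup' ⟨u, hu⟩
    exact ⟨k, congrArg Subtype.val hk⟩
  have hPo : ∀ u ∈ (P : Subgroup G), ∃ k, orderOf u = r ^ k := by
    intro u hu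
    obtain ⟨k, hk⟩ := hPp u hu
    obtain ⟨j, -, hj⟩ := (Nat.dvd_prime_pow hr).1 (orderOf_dvd_of_pow_eq_one hk)
    exact ⟨j, hj⟩
  have hE₀N : E₀ ≤ innK G := by
    intro g hg T hT
    obtain ⟨t, -, ht⟩ := hg T hT
    exact ⟨t, ht⟩
  have hE₀Q : E₀ ≤ Q := le_inf hP hE₀N
  have hQE₀ : Q ≤ E₀ := by
    intro g hg T hT
    obtain ⟨t, ht⟩ := (mem_inf.1 hg).2 T hT
    exact ⟨t, image_eq hR hr hT (hz T hT) (Q := Q) (fun u hu => hPp u (mem_inf.1 hu).1) (hz T hT).ord
      (hE₀Q (hzE T hT)) hg ht, ht⟩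
  -- `Q` is abelian
  have hQc : ∀ g ∈ Q, ∀ h ∈ Q, g * h = h * g := by
    intro g hg h hh
    have h1 : g * h * (h * g)⁻¹ = 1 := by
      refine eq_one_of_acts hR fun T hT => ?_
      obtain ⟨s, hs, hs'⟩ := hQE₀ hg T hT
      obtain ⟨t, ht, ht'⟩ := hQE₀ hh T hT
      have h2 := (hs'.mul ht').mul (ht'.mul hs').inv
      rw [← map_mul, ← map_mul] at h2
      have h3 : s * t = t * s := by
        obtain ⟨i, rfl⟩ := mem_zpowers_iff.1 hs
        obtain ⟨j, rfl⟩ := mem_zpowers_iff.1 ht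
        rw [← zpow_add, ← zpow_add, add_comm]
      rwa [h3, mul_inv_cancel] at h2
    exact mul_inv_eq_one.1 h1
  -- the power map
  let φ : Q →* G :=
    { toFun := fun q => (q : G) ^ r ^ (a - 1)
      map_one' := by simp
      map_mul' := fun g h => by
        have h1 : Commute (g : G) (h : G) := hQc g g.2 h h.2
        exact h1.mul_pow _ }
  set M : Subgroup G := φ.ker.map Q.subtype with hM
  have hMc : Nat.card Q = Nat.card M * Nat.card φ.range := by
    rw [hM, Subgroup.card_map_of_injective Q.subtype_injective, ← Subgroup.index_ker, Subgroup.card_mul_index]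
  have hapos : 1 ≤ a := by
    obtain ⟨T, hT⟩ := hex
    exact (hz T hT).pos
  -- non-full subgroups lie in `M`
  have hle : ∀ (C C' : Subgroup G), ¬ HasFull r a C → C' ≤ C → C' ≤ (P : Subgroup G) → C' ⊓ Q ≤ M := by
    intro C C' hC hC'C hC'P u hu
    obtain ⟨huC, huQ⟩ := mem_inf.1 hu
    refine ⟨⟨u, huQ⟩, ?_, rfl⟩
    show u ^ r ^ (a - 1) = 1
    refine eq_one_of_acts hR fun T hT => ?_
    obtain ⟨t, ht, ht'⟩ := hQE₀ huQ T hT
    have h1 := ht'.pow (r ^ (a - 1))
    rw [← map_pow] at h1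
    have h2 : t ^ r ^ (a - 1) = 1 := by
      obtain ⟨j, hj, hjo⟩ := (Nat.dvd_prime_pow hr).1 (orderOf_dvd_of_pow_eq_one (hpow T hT t ht))
      have hja : j ≠ a := by
        rintro rfl
        exact hC ⟨T, hT, u, hC'C huC, (mem_inf.1 huQ).2, hPo u (hC'P huC), t, hjo, ht'⟩
      rw [← orderOf_dvd_iff_pow_eq_one, hjo]
      exact pow_dvd_pow r (by omega)
    rwa [h2, map_one] at h1
  obtain ⟨g, A', m, hA'P, hA'A, hAm, hm⟩ := exists_part P A
  obtain ⟨h, B', n, hB'P, hB'B, hBn, hn⟩ := exists_part P B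
  have hcA : Nat.card (cj g A) = Nat.card A := Subgroup.card_map_of_injective (MulAut.conj g).injective
  have hcB : Nat.card (cj h B) = Nat.card B := Subgroup.card_map_of_injective (MulAut.conj h).injective
  have i0 := sylow_le P (hF.cj g h) hA'A hB'B hA'P (by rw [hcA, hAm]) (by rw [hcB, hBn]) hm hn
  have i1 := card_mul_card_le (H := A') (K := Q) (M := P) hA'P inf_le_left
  have i2 := card_mul_card_le (H := B') (K := Q) (M := P) hB'P inf_le_left
  have i3 := card_mul_card_le (H := A' ⊓ Q) (K := B' ⊓ Q) (M := M)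
    (hle (cj g A) A' (fun h1 => hcon.1 h1.of_cj) hA'A hA'P) (hle (cj h B) B' (fun h1 => hcon.2 h1.of_cj) hB'B hB'P)
  have i4 : Nat.card ((A' ⊓ Q) ⊓ (B' ⊓ Q) : Subgroup G) ≤ Nat.card (A' ⊓ B' : Subgroup G) :=
    Nat.le_of_dvd Nat.card_pos (Subgroup.card_dvd_of_le (inf_le_inf inf_le_left inf_le_left))
  have i5 : Nat.card P = Q.relIndex P * Nat.card Q := by
    rw [mul_comm]
    exact (card_mul_relIndex' inf_le_left).symm
  have i6 := arith hMc i5 i0 i1 i2 i3 i4 Nat.card_pos Nat.card_pos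
  -- the range is large
  obtain ⟨F, hFE, hFc, -⟩ := exists_big (r := r) hR (E := φ.range)
    (fun T hT => z T hT ^ r ^ (a - 1)) (fun T hT => by
      have h1 : r ^ a = r ^ (a - 1) * r := by rw [← pow_succ, Nat.sub_add_cancel hapos]
      have h2 : orderOf (z T hT ^ r ^ (a - 1)) = r ^ a / r ^ (a - 1) := by
        rw [orderOf_pow_of_dvd (pow_ne_zero _ hr.ne_zero) (by rw [(hz T hT).ord]; exact ⟨r, h1⟩), (hz T hT).ord]
      rw [h2, h1, Nat.mul_div_cancel_left _ (pow_pos hr.pos _)])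
    (fun T hT => ⟨⟨z T hT, hE₀Q (hzE T hT)⟩, rfl⟩) Finset.univ
  set k := Nat.card {T : Subgroup G // IsComponent T} with hk
  have hkF : (Finset.univ : Finset {T : Subgroup G // IsComponent T}).card = k := by
    rw [hk, Nat.card_eq_fintype_card]; rfl
  have hkpos : 0 < k := by
    obtain ⟨T, hT⟩ := hex
    have : Nonempty {T : Subgroup G // IsComponent T} := ⟨⟨T, hT⟩⟩
    exact Nat.card_pos
  have i7 : r ^ k ≤ Q.relIndex P := by
    rw [← hkF]
    refine (hFc.trans ?_).trans i6
    exact Nat.le_of_dvd Nat.card_pos (Subgroup.card_dvd_of_le hFE)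
  -- the index divides `k!`
  have hker : ((permHom G).comp (P : Subgroup G).subtype).ker = Q.subgroupOf P := by
    ext p
    rw [mem_subgroupOf, MonoidHom.mem_ker]
    constructor
    · intro hp
      refine mem_inf.2 ⟨p.2, fun T hT => ?_⟩
      have h0 := Equiv.congr_fun hp ⟨T, hT⟩
      have h1 : cj (p : G) T = T := congrArg Subtype.val h0
      obtain ⟨β, hβ⟩ := exists_acts_of_cj h1
      obtain ⟨l, hl⟩ := hPp p p.2
      have h2 : β ^ r ^ l = 1 := (hβ.pow (r ^ l)).unique (by rw [hl]; exact Acts.one)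
      obtain ⟨j, -, hj⟩ := (Nat.dvd_prime_pow hr).1 (orderOf_dvd_of_pow_eq_one h2)
      obtain ⟨t, rfl⟩ := (hz T hT).inn β ⟨j, hj⟩
      exact ⟨t, hβ⟩
    · intro hp
      ext1 T
      exact Subtype.ext (cj_of_innK (mem_inf.1 hp).2 T.2)
  have i8 : Q.relIndex P ∣ k.factorial := by
    show (Q.subgroupOf P).index ∣ _
    rw [← hker, Subgroup.index_ker, hk, ← Nat.card_perm]
    exact Subgroup.card_subgroup_dvd_card _
  obtain ⟨j, hj⟩ : ∃ j, Q.relIndex P = r ^ j := by
    obtain ⟨l, hl⟩ := IsPGroup.iff_card.1 P.isPGroup'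
    obtain ⟨j, -, hj⟩ := (Nat.dvd_prime_pow hr).1 (show Q.relIndex P ∣ r ^ l by rw [← hl]; exact relIndex_dvd_card _ _)
    exact ⟨j, hj⟩
  rw [hj] at i7 i8
  have hkj : k ≤ j := (Nat.pow_le_pow_iff_right hr.one_lt).1 i7
  exact not_pow_dvd_factorial hr hkpos ((pow_dvd_pow r hkj).trans i8)

end Cfsg.Agent.H585.FacSix
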