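import Mathlib
import Cfsg.Agent.H585.FacSix

/-!
# The reduction theorem (helper585, for S4384)

`main` : if every non-abelian finite simple group has a good prime (`HasGoodW`), `G = AB` and elements of coprime prime
power orders of `A` and `B` generate solvable subgroups, then `[A, B]` lies in the solvable radical.
`reduction` : then S4384.
-/

set_option autoImplicit false
set_option linter.unusedSectionVars false

namespace Cfsg.Agent.H585.FacSeven

open Cfsg Subgroup Cfsg.Agent.H459.Rad Cfsg.Agent.H459.Reduce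
open Cfsg.Agent.H465.Red (exists_lift)
open Cfsg.Agent.SignalizersComponents.Components Cfsg.Agent.SignalizersComponents.ComponentExists
open Cfsg.Agent.H585.Good Cfsg.Agent.H585.FacOne Cfsg.Agent.H585.GW Cfsg.Agent.H585.FacTwo Cfsg.Agent.H585.FacThree
open Cfsg.Agent.H585.FacFour Cfsg.Agent.H585.FacFive Cfsg.Agent.H585.FacSix
open scoped commutatorElement

universe u

variable {G : Type u} [Group G] [Finite G]

/-- all components are conjugate if the centraliser of the normal closure of one is trivial -/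
theorem trans_of_centralizer {S : Subgroup G} (hS : IsComponent S)
    (hC : centralizer (normalClosure (S : Set G) : Set G) = ⊥) {T : Subgroup G} (hT : IsComponent T) :
    ∃ g : G, cj g S = T := by
  by_contra hcon
  push Not at hcon
  have h1 : normalClosure (S : Set G) ≤ centralizer (T : Set G) := by
    refine (closure_le _).2 ?_
    intro x hx
    obtain ⟨s, hs, hsx⟩ := Group.mem_conjugatesOfSet_iff.1 hx
    obtain ⟨g, rfl⟩ := isConj_iff.1 hsx
    rw [SetLike.mem_coe, mem_centralizer_iff]
    intro t ht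
    exact (comm_of_ne (component_cj hS g) hT (hcon g) (conj_mem_cj hs) ht).symm
  have h2 : T ≤ centralizer (normalClosure (S : Set G) : Set G) := by
    intro t ht
    rw [mem_centralizer_iff]
    intro x hx
    exact (mem_centralizer_iff.1 (h1 hx) t ht).symm
  rw [hC, le_bot_iff] at h2
  exact component_ne_bot hT h2

theorem solvable_of_two {L N₁ N₂ : Subgroup G} [N₁.Normal] [N₂.Normal] (h : N₁ ⊓ N₂ = ⊥)
    (h1 : Group.IsSolvable (L.map (QuotientGroup.mk' N₁))) (h2 : Group.IsSolvable (L.map (QuotientGroup.mk' N₂))) :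
    Group.IsSolvable L := by
  let f : L →* (L.map (QuotientGroup.mk' N₁)) × (L.map (QuotientGroup.mk' N₂)) :=
    ((QuotientGroup.mk' N₁).subgroupMap L).prod ((QuotientGroup.mk' N₂).subgroupMap L)
  have hf : Function.Injective f := by
    rw [injective_iff_map_eq_one]
    intro l hl
    have e1 : (QuotientGroup.mk' N₁) (l : G) = 1 := congrArg (fun z => (z.1 : G ⧸ N₁)) hl
    have e2 : (QuotientGroup.mk' N₂) (l : G) = 1 := congrArg (fun z => (z.2 : G ⧸ N₂)) hl
    have e3 : (l : G) ∈ N₁ ⊓ N₂ := mem_inf.2 ⟨(QuotientGroup.eq_one_iff _).1 e1, (QuotientGroup.eq_one_iff _).1 e2⟩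
    rw [h, mem_bot] at e3
    exact Subtype.ext e3
  exact Group.isSolvable_of_isSolvable_injective hf

/-- `[A, B]` is normal -/
theorem commutator_normal {A B : Subgroup G} (hF : Fac A B) : (⁅A, B⁆ : Subgroup G).Normal := by
  rw [← normalizer_eq_top_iff, eq_top_iff]
  intro g _
  obtain ⟨a, ha, b, hb, rfl⟩ := hF g
  exact mul_mem (normalizer_commutator_ge_left A B ha) (normalizer_commutator_ge_right A B hb)

/-- the case of a proper factorised subgroup, one half -/
theorem layer_le_of_one (htrans : ∀ T T' : Subgroup G, IsComponent T → IsComponent T' → ∃ g, cj g T = T')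
    {A B A₁ B₁ : Subgroup G} (hF : Fac A B) (hA₁ : A₁ ≤ A) (hB₁ : B₁ ≤ B)
    (hB₁' : B ⊓ (A ⊔ layer G) ≤ B₁) (hcomm : ∀ a ∈ A₁, ∀ b ∈ B₁, a * b = b * a)
    (hdich : ∀ T : Subgroup G, IsComponent T → T ≤ A₁ ∨ T ≤ B₁) {T : Subgroup G} (hT : IsComponent T) (hTA : T ≤ A₁) :
    layer G ≤ A := by
  rw [layer_le_iff]
  intro K hK
  obtain ⟨g, hg⟩ := htrans T K hT hK
  obtain ⟨a, ha, b, hb, rfl⟩ := hF g
  rw [cj_mul] at hg
  have h1 : cj b T ≤ A := by
    rcases hdich _ (component_cj hT b) with h | h
    · exact h.trans hA₁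
    · exfalso
      have h2 : T ≤ B₁ := by
        intro t ht
        refine hB₁' (mem_inf.2 ⟨?_, (le_sup_right : layer G ≤ _) (component_le_layer hT ht)⟩)
        have h3 : b * t * b⁻¹ ∈ B := hB₁ (h (conj_mem_cj ht))
        have e : t = b⁻¹ * (b * t * b⁻¹) * b := by group
        rw [e]
        exact B.mul_mem (B.mul_mem (B.inv_mem hb) h3) hb
      exact quasisimple_not_isMulCommutative hT.2
        ⟨⟨fun s t => Subtype.ext (hcomm s (hTA s.2) t (h2 t.2))⟩⟩
  rw [← hg]
  rintro _ ⟨x, hx, rfl⟩
  exact mul_mem (mul_mem ha (h1 hx)) (inv_mem ha)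

/-- **the reduction** -/
theorem main (hgood : ∀ (K : Type u) [Group K] [Finite K] [IsSimpleGroup K], ¬ IsMulCommutative K → HasGoodW K) :
    ∀ (n : ℕ) (G : Type u) [Group G] [Finite G], Nat.card G = n → ∀ A B : Subgroup G, Fac A B → Dag A B →
      ⁅A, B⁆ ≤ solvableRadical G := by
  intro n
  induction n using Nat.strong_induction_on with
  | _ n ih =>
  intro G _ _ hn A B hF hdag
  -- quotients
  have hquot : ∀ (N : Subgroup G) [N.Normal], N ≠ ⊥ →
      (⁅A, B⁆ : Subgroup G).map (QuotientGroup.mk' N) ≤ solvableRadical (G ⧸ N) := by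
    intro N _ hN
    have hlt : Nat.card (G ⧸ N) < n := by
      rw [← hn]
      have h1 := Subgroup.card_eq_card_quotient_mul_card_subgroup N
      have h2 : 1 < Nat.card N := by
        by_contra h
        have h3 : Nat.card N = 1 := by
          have : 0 < Nat.card N := Nat.card_pos
          omega
        exact hN (Subgroup.card_eq_one.1 h3)
      rw [h1]
      exact lt_mul_of_one_lt_right Nat.card_pos h2
    have h1 := ih _ hlt (G ⧸ N) rfl _ _ (hF.map (QuotientGroup.mk' N) (QuotientGroup.mk'_surjective N)) (hdag.quot N)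
    rwa [← map_commutator] at h1
  by_cases hR : solvableRadical G = ⊥
  swap
  · have := rad_normal G
    have h1 := hquot (solvableRadical G) hR
    rw [rad_quotient, le_bot_iff, Subgroup.map_eq_bot_iff, QuotientGroup.ker_mk'] at h1
    exact h1
  rw [hR, le_bot_iff]
  by_contra hL
  have hLn := commutator_normal hF
  have hLs : ¬ Group.IsSolvable (⁅A, B⁆ : Subgroup G) := by
    intro h
    have h1 := le_rad hLn h
    rw [hR, le_bot_iff] at h1
    exact hL h1
  obtain ⟨S, hS⟩ : ∃ S : Subgroup G, IsComponent S := by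
    obtain ⟨x, hx⟩ := Subgroup.ne_bot_iff_exists_ne_one.1 hL
    obtain ⟨S, hS, -⟩ := exists_component hR (x := (x : G)) (fun h => hx (Subtype.ext h))
    exact ⟨S, hS⟩
  -- transitivity
  have hC : centralizer (normalClosure (S : Set G) : Set G) = ⊥ := by
    by_contra hC
    have hN : normalClosure (S : Set G) ≠ ⊥ := by
      intro h
      apply component_ne_bot hS
      rw [eq_bot_iff, ← h]
      exact subset_normalClosure
    have hsol : ∀ (N : Subgroup G) [N.Normal], N ≠ ⊥ → Group.IsSolvable ((⁅A, B⁆ : Subgroup G).map (QuotientGroup.mk' N)) :=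
      fun N _ hN => solvable_mono (hquot N hN) (rad_solvable _)
    refine hLs (solvable_of_two (N₁ := normalClosure (S : Set G)) (N₂ := centralizer (normalClosure (S : Set G) : Set G))
      ?_ (hsol _ hN) (hsol _ hC))
    have h1 : (normalClosure (S : Set G) ⊓ centralizer (normalClosure (S : Set G) : Set G) : Subgroup G) ≤
        solvableRadical G := by
      refine le_rad inferInstance (Group.isSolvable_of_comm fun a b => Subtype.ext ?_)
      exact mem_centralizer_iff.1 (mem_inf.1 b.2).2 a (mem_inf.1 a.2).1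
    rw [hR, le_bot_iff] at h1
    exact h1
  have htr : ∀ T : Subgroup G, IsComponent T → ∃ g : G, cj g S = T := fun T hT => trans_of_centralizer hS hC hT
  have htrans : ∀ T T' : Subgroup G, IsComponent T → IsComponent T' → ∃ g, cj g T = T' := by
    intro T T' hT hT'
    obtain ⟨g, hg⟩ := htr T hT
    obtain ⟨h, hh⟩ := htr T' hT'
    exact ⟨h * g⁻¹, by rw [cj_mul, cj_inv_eq hg, hh]⟩
  -- the good prime
  obtain ⟨r, a, y, hy⟩ : HasGoodW S := by
    have := component_simple hR hS
    exact hgood S (quasisimple_not_isMulCommutative hS.2)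
  have hr := hy.prime
  have hg : ∀ T : Subgroup G, IsComponent T → ∃ y : T, GoodW T r a y := by
    intro T hT
    obtain ⟨g, rfl⟩ := htr T hT
    exact ⟨_, hy.congr (S.equivMapOfInjective (MulAut.conj g).toMonoidHom (MulAut.conj g).injective)⟩
  -- the end in the presence of full subgroups
  have hend : ∀ D : Subgroup G, Full r a D → D ≤ A ∨ D ≤ B → False := by
    intro D hD hor
    rcases hor with h | h
    · apply hL
      rw [eq_bot_of_full hR hr hg hF hdag h hD, commutator_bot_right]
    · apply hL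
      rw [eq_bot_of_full hR hr hg hF.symm hdag.symm h hD, commutator_bot_left]
  have hNn : (layer G).Normal := layer_normal G
  set X : Subgroup G := (A ⊔ layer G) ⊓ (B ⊔ layer G) with hX
  by_cases hXt : X = ⊤
  · -- both factors are transitive
    have htr' : ∀ C : Subgroup G, X ≤ C ⊔ layer G → ∀ T T' : Subgroup G, IsComponent T → IsComponent T' →
        ∃ g ∈ C, cj g T = T' := by
      intro C hC T T' hT hT'
      obtain ⟨g, hg⟩ := htrans T T' hT hT'
      have h1 : g ∈ C ⊔ layer G := hC (by rw [hXt]; trivial)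
      obtain ⟨c, hc, n, hn, rfl⟩ := mem_sup_of_normal_right.1 h1
      refine ⟨c, hc, ?_⟩
      rw [cj_mul, cj_of_innK (layer_le_innK hn) hT] at hg
      exact hg
    rcases exists_full hR hr hg hF ⟨S, hS⟩ with h | h
    · obtain ⟨T₀, hT₀, u₀, hu, hN, ho, s₀, hs₀, hact⟩ := h
      exact hend _ (full_of_one hR hr hg (htr' A inf_le_left) hT₀ hu hN ho hs₀ hact) (Or.inl inf_le_left)
    · obtain ⟨T₀, hT₀, u₀, hu, hN, ho, s₀, hs₀, hact⟩ := h
      exact hend _ (full_of_one hR hr hg (htr' B inf_le_right) hT₀ hu hN ho hs₀ hact) (Or.inr inf_le_left)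
  · -- a proper factorised subgroup
    set A₁ : Subgroup G := A ⊓ (B ⊔ layer G) with hA₁
    set B₁ : Subgroup G := B ⊓ (A ⊔ layer G) with hB₁
    have hA₁X : A₁ ≤ X := fun g hg => mem_inf.2 ⟨(le_sup_left : A ≤ _) (mem_inf.1 hg).1, (mem_inf.1 hg).2⟩
    have hB₁X : B₁ ≤ X := fun g hg => mem_inf.2 ⟨(mem_inf.1 hg).2, (le_sup_left : B ≤ _) (mem_inf.1 hg).1⟩
    have hfac : ∀ x ∈ X, ∃ a ∈ A₁, ∃ b ∈ B₁, x = a * b := by
      intro x hx
      obtain ⟨a, ha, b, hb, rfl⟩ := hF x
      obtain ⟨h1, h2⟩ := mem_inf.1 hx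
      refine ⟨a, mem_inf.2 ⟨ha, ?_⟩, b, mem_inf.2 ⟨hb, ?_⟩, rfl⟩
      · have h3 := mul_mem h2 (inv_mem ((le_sup_left : B ≤ B ⊔ layer G) hb))
        rwa [mul_inv_cancel_right] at h3
      · have h3 := mul_mem (inv_mem ((le_sup_left : A ≤ A ⊔ layer G) ha)) h1
        rwa [inv_mul_cancel_left] at h3
    have hNX : layer G ≤ X := le_inf le_sup_right le_sup_right
    have hlt : Nat.card X < n := by
      rw [← hn]
      refine lt_of_le_of_ne (Nat.le_of_dvd Nat.card_pos (Subgroup.card_subgroup_dvd_card X)) fun h => hXt ?_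
      exact Subgroup.eq_top_of_card_eq X h
    have hFX : Fac (A₁.subgroupOf X) (B₁.subgroupOf X) := by
      intro x
      obtain ⟨a, ha, b, hb, e⟩ := hfac x x.2
      exact ⟨⟨a, hA₁X ha⟩, mem_subgroupOf.2 ha, ⟨b, hB₁X hb⟩, mem_subgroupOf.2 hb, Subtype.ext e⟩
    have h1 := ih _ hlt X rfl _ _ hFX (hdag.subgroupOf inf_le_left inf_le_left)
    have hRX : solvableRadical X = ⊥ := by
      have h2 : radIn X = ⊥ := by
        rw [eq_bot_iff]
        intro z hz
        rw [mem_bot]
        by_contra hz1
        obtain ⟨T, hT, t, ht, hne⟩ := exists_component hR hz1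
        apply hne
        have h3 : ⁅layer G, radIn X⁆ = ⊥ := by
          refine layer_commutator_solvable ?_ (radIn_solvable X)
          intro g hg
          have hgX := hNX hg
          rw [mem_normalizer_iff]
          intro n
          refine ⟨fun h => radIn_conj_mem hgX h, fun h => ?_⟩
          have h4 := radIn_conj_mem (inv_mem hgX) h
          have e : g⁻¹ * (g * n * g⁻¹) * g⁻¹⁻¹ = n := by group
          rwa [e] at h4
        rw [commutator_eq_bot_iff_le_centralizer] at h3
        exact mem_centralizer_iff.1 (h3 (component_le_layer hT ht)) z hz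
      rw [eq_bot_iff]
      intro z hz
      have h3 := mem_radIn_coe.2 hz
      rw [h2, mem_bot] at h3
      rw [mem_bot]
      exact Subtype.ext h3
    rw [hRX, le_bot_iff, commutator_eq_bot_iff_le_centralizer] at h1
    have hcomm : ∀ a ∈ A₁, ∀ b ∈ B₁, a * b = b * a := by
      intro a ha b hb
      have h2 := mem_centralizer_iff.1 (h1 (show (⟨a, hA₁X ha⟩ : X) ∈ A₁.subgroupOf X from mem_subgroupOf.2 ha))
        ⟨b, hB₁X hb⟩ (mem_subgroupOf.2 hb)
      exact (congrArg Subtype.val h2).symm
    have hnA : X ≤ normalizer (A₁ : Set G) := by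
      intro x hx
      obtain ⟨a, ha, b, hb, rfl⟩ := hfac x hx
      refine mul_mem (le_normalizer ha) ?_
      have h2 : B₁ ≤ centralizer (A₁ : Set G) := fun b hb => mem_centralizer_iff.2 fun a ha => hcomm a ha b hb
      exact Subgroup.centralizer_le_normalizer _ (h2 hb)
    have hnB : X ≤ normalizer (B₁ : Set G) := by
      intro x hx
      obtain ⟨a, ha, b, hb, rfl⟩ := hfac x hx
      refine mul_mem ?_ (le_normalizer hb)
      have h2 : A₁ ≤ centralizer (B₁ : Set G) := fun a ha => mem_centralizer_iff.2 fun b hb => (hcomm a ha b hb).symm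
      exact Subgroup.centralizer_le_normalizer _ (h2 ha)
    have hdich : ∀ T : Subgroup G, IsComponent T → T ≤ A₁ ∨ T ≤ B₁ := by
      intro T hT
      have hTX : T ≤ X := (component_le_layer hT).trans hNX
      rcases component_le_or_commutator_eq_bot_of_le_normalizer hT (hTX.trans hnA) with h2 | h2
      · exact Or.inl h2
      rcases component_le_or_commutator_eq_bot_of_le_normalizer hT (hTX.trans hnB) with h3 | h3
      · exact Or.inr h3
      exfalso
      rw [commutator_eq_bot_iff_le_centralizer] at h2 h3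
      refine quasisimple_not_isMulCommutative hT.2 ⟨⟨fun s t => Subtype.ext ?_⟩⟩
      obtain ⟨a, ha, b, hb, e⟩ := hfac t (hTX t.2)
      have e1 := mem_centralizer_iff.1 (h2 s.2) a ha
      have e2 := mem_centralizer_iff.1 (h3 s.2) b hb
      show (s : G) * t = t * s
      rw [e, ← mul_assoc, ← e1, mul_assoc, ← e2, mul_assoc]
    rcases hdich S hS with h2 | h2
    · exact hend _ (full_layer hR hr hg) (Or.inl (layer_le_of_one htrans hF inf_le_left inf_le_left le_rfl hcomm
        hdich hS h2))
    · exact hend _ (full_layer hR hr hg) (Or.inr (layer_le_of_one htrans hF.symm inf_le_left inf_le_left le_rfl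
        (fun b hb a ha => (hcomm a ha b hb).symm) (fun T hT => (hdich T hT).symm) hS h2))

theorem solvable_of_map {G : Type u} [Group G] {R : Subgroup G} [R.Normal] (hR : Group.IsSolvable R) {S : Subgroup G}
    (h : Group.IsSolvable (S.map (QuotientGroup.mk' R))) : Group.IsSolvable S := by
  have h1 : Group.IsSolvable (R.subgroupOf S) := by
    let f : ↥(R.subgroupOf S) →* ↥R := (S.subtype.comp (R.subgroupOf S).subtype).codRestrict R fun s => s.2
    refine Group.isSolvable_of_isSolvable_injective (f := f) ?_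
    intro s t hst
    have h4 : ((s : S) : G) = ((t : S) : G) := congrArg (fun z : R => (z : G)) hst
    exact Subtype.ext (Subtype.ext h4)
  refine Group.isSolvable_of_ker_le_range (f := (R.subgroupOf S).subtype) (g := (QuotientGroup.mk' R).subgroupMap S) ?_
  intro t ht
  rw [range_subtype, mem_subgroupOf]
  have h2 : (QuotientGroup.mk' R) (t : G) = 1 := congrArg Subtype.val ht
  exact (QuotientGroup.eq_one_iff _).1 h2

/-- `[A, B] ≤ R` gives solvable subgroups -/
theorem solvable_of_comm {G : Type u} [Group G] {R : Subgroup G} [R.Normal] (hR : Group.IsSolvable R)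
    {A B : Subgroup G} (h : ⁅A, B⁆ ≤ R) {a b : G} (ha : a ∈ A) (hb : b ∈ B) :
    Group.IsSolvable (closure ({a, b} : Set G)) := by
  refine solvable_of_map hR ?_
  rw [MonoidHom.map_closure, Set.image_pair]
  have h1 : Commute (QuotientGroup.mk' R a) (QuotientGroup.mk' R b) := by
    have h2 : QuotientGroup.mk' R ⁅a, b⁆ = 1 :=
      (QuotientGroup.eq_one_iff _).2 (h (commutator_mem_commutator ha hb))
    rw [map_commutatorElement] at h2
    exact commutatorElement_eq_one_iff_commute.1 h2
  have hc : ∀ x ∈ ({QuotientGroup.mk' R a, QuotientGroup.mk' R b} : Set (G ⧸ R)),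
      ∀ y ∈ ({QuotientGroup.mk' R a, QuotientGroup.mk' R b} : Set (G ⧸ R)), x * y = y * x := by
    rintro x (rfl | rfl) y (rfl | rfl)
    · rfl
    · exact h1
    · exact h1.symm
    · rfl
  refine Group.isSolvable_of_comm fun x y => ?_
  have h2 : closure ({QuotientGroup.mk' R a, QuotientGroup.mk' R b} : Set (G ⧸ R)) ≤
      centralizer (closure ({QuotientGroup.mk' R a, QuotientGroup.mk' R b} : Set (G ⧸ R)) : Set (G ⧸ R)) := by
    rw [closure_le]
    intro x hx
    rw [SetLike.mem_coe, mem_centralizer_iff]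
    intro y hy
    have h3 : closure ({QuotientGroup.mk' R a, QuotientGroup.mk' R b} : Set (G ⧸ R)) ≤ centralizer ({x} : Set (G ⧸ R)) := by
      rw [closure_le]
      intro z hz
      rw [SetLike.mem_coe, mem_centralizer_iff]
      rintro _ rfl
      exact hc _ hx z hz
    exact (mem_centralizer_iff.1 (h3 hy) x rfl).symm
  exact Subtype.ext (mem_centralizer_iff.1 (h2 y.2) x x.2)

/-- **S4384 from good primes** -/
theorem reduction
    (hgood : ∀ (K : Type u) [Group K] [Finite K] [IsSimpleGroup K], ¬ IsMulCommutative K → HasGoodW K)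
    {G : Type u} [Group G] [Finite G]
    (A B : Subgroup G) (hAB : ∀ g : G, ∃ a ∈ A, ∃ b ∈ B, g = a * b) (R : Subgroup G) [R.Normal]
    (hR : Group.IsSolvable R) (hRmax : ∀ N : Subgroup G, N.Normal → Group.IsSolvable N → N ≤ R) :
    ((∀ a ∈ A, ∀ b ∈ B, Group.IsSolvable (Subgroup.closure ({a, b} : Set G))) ↔ ⁅A, B⁆ ≤ R) ∧
    ((∀ p q : ℕ, p.Prime → q.Prime → p ≠ q → ∀ a ∈ A, ∀ b ∈ B, (∃ i : ℕ, orderOf a = p ^ i) → (∃ j : ℕ, orderOf b = q ^ j) →
        Group.IsSolvable (Subgroup.closure ({a, b} : Set G))) ↔ ⁅A, B⁆ ≤ R) := by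
  have h1 : Dag A B → ⁅A, B⁆ ≤ R := fun h =>
    (main hgood _ G rfl A B hAB h).trans (hRmax _ (rad_normal G) (rad_solvable G))
  refine ⟨⟨fun h => h1 fun p q _ _ _ a ha b hb _ _ => h a ha b hb, fun h a ha b hb => solvable_of_comm hR h ha hb⟩,
    ⟨h1, fun h p q _ _ _ a ha b hb _ _ => solvable_of_comm hR h ha hb⟩⟩

end Cfsg.Agent.H585.FacSeven
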