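import Cfsg.Prelude.Def_CaseTheorems
import Cfsg.Prelude.Def_Transfer
import Cfsg.Agent.Lib.ElemAbGL

/-!
# Elements of odd prime order acting on a normal elementary abelian 2-subgroup with small commutator
-/

set_option autoImplicit false

namespace Cfsg.Agent.H585.ModTwo

open Subgroup
open scoped commutatorElement Pointwise

variable {S : Type*} [Group S]

/-- `M` is a normal elementary abelian 2-subgroup. -/
structure Hyp (M : Subgroup S) : Prop where
  normal : M.Normal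
  comm : ∀ a ∈ M, ∀ b ∈ M, a * b = b * a
  sq : ∀ a ∈ M, a * a = 1

/-- `[M, y]` as a subgroup. -/
def cm {M : Subgroup S} (hM : Hyp M) (y : S) : Subgroup S where
  carrier := {v | ∃ m ∈ M, v = y * m * y⁻¹ * m⁻¹}
  mul_mem' := by
    rintro _ _ ⟨m, hm, rfl⟩ ⟨n, hn, rfl⟩
    refine ⟨m * n, M.mul_mem hm hn, ?_⟩
    have h1 : y * n * y⁻¹ ∈ M := hM.normal.conj_mem n hn y
    have h2 : m⁻¹ * (y * n * y⁻¹ * n⁻¹) = (y * n * y⁻¹ * n⁻¹) * m⁻¹ :=
      hM.comm _ (M.inv_mem hm) _ (M.mul_mem h1 (M.inv_mem hn))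
    calc y * m * y⁻¹ * m⁻¹ * (y * n * y⁻¹ * n⁻¹) = y * m * y⁻¹ * (m⁻¹ * (y * n * y⁻¹ * n⁻¹)) := by group
      _ = y * m * y⁻¹ * ((y * n * y⁻¹ * n⁻¹) * m⁻¹) := by rw [h2]
      _ = y * (m * n) * y⁻¹ * (m * n)⁻¹ := by group
  one_mem' := ⟨1, M.one_mem, by group⟩
  inv_mem' := by
    rintro _ ⟨m, hm, rfl⟩
    refine ⟨m⁻¹, M.inv_mem hm, ?_⟩
    have h1 : y * m⁻¹ * y⁻¹ ∈ M := hM.normal.conj_mem _ (M.inv_mem hm) y
    calc (y * m * y⁻¹ * m⁻¹)⁻¹ = m * (y * m⁻¹ * y⁻¹) := by group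
      _ = (y * m⁻¹ * y⁻¹) * m := hM.comm _ hm _ h1
      _ = y * m⁻¹ * y⁻¹ * m⁻¹⁻¹ := by group

section

variable {M : Subgroup S} (hM : Hyp M)

include hM in
theorem inv_eq {a : S} (ha : a ∈ M) : a⁻¹ = a := inv_eq_of_mul_eq_one_left (hM.sq a ha)

theorem mem_cm {y v : S} : v ∈ cm hM y ↔ ∃ m ∈ M, v = y * m * y⁻¹ * m⁻¹ := Iff.rfl

theorem cm_le (y : S) : cm hM y ≤ M := by
  rintro _ ⟨m, hm, rfl⟩
  exact M.mul_mem (hM.normal.conj_mem m hm y) (M.inv_mem hm)

theorem comm_mem_cm {y m : S} (hm : m ∈ M) : y * m * y⁻¹ * m⁻¹ ∈ cm hM y := ⟨m, hm, rfl⟩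

theorem conj_mem_cm_iff {g y v : S} : g * v * g⁻¹ ∈ cm hM (g * y * g⁻¹) ↔ v ∈ cm hM y := by
  constructor
  · rintro ⟨m, hm, h⟩
    refine ⟨g⁻¹ * m * g, by simpa using hM.normal.conj_mem m hm g⁻¹, ?_⟩
    calc v = g⁻¹ * (g * v * g⁻¹) * g := by group
      _ = g⁻¹ * (g * y * g⁻¹ * m * (g * y * g⁻¹)⁻¹ * m⁻¹) * g := by rw [h]
      _ = _ := by group
  · rintro ⟨m, hm, rfl⟩
    refine ⟨g * m * g⁻¹, hM.normal.conj_mem m hm g, ?_⟩
    group

theorem cm_map_conj (g y : S) : (cm hM y).map (MulAut.conj g).toMonoidHom = cm hM (g * y * g⁻¹) := by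
  ext w
  constructor
  · rintro ⟨v, hv, rfl⟩
    exact (conj_mem_cm_iff hM).mpr hv
  · intro hw
    refine ⟨g⁻¹ * w * g, ?_, ?_⟩
    · show g⁻¹ * w * g ∈ cm hM y
      rw [← conj_mem_cm_iff hM (g := g)]
      have : g * (g⁻¹ * w * g) * g⁻¹ = w := by group
      rw [this]; exact hw
    · show g * (g⁻¹ * w * g) * g⁻¹ = w
      group

theorem cm_congr {y y' : S} (h : y⁻¹ * y' ∈ centralizer (M : Set S)) : cm hM y' = cm hM y := by
  have key : ∀ m ∈ M, y' * m * y'⁻¹ = y * m * y⁻¹ := by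
    intro m hm
    have h1 := mem_centralizer_iff.mp h m hm
    have h2 : y' = y * (y⁻¹ * y') := by group
    calc y' * m * y'⁻¹ = y * ((y⁻¹ * y') * m) * (y⁻¹ * y')⁻¹ * y⁻¹ := by group
      _ = y * (m * (y⁻¹ * y')) * (y⁻¹ * y')⁻¹ * y⁻¹ := by rw [h1]
      _ = y * m * y⁻¹ := by group
  ext v
  constructor
  · rintro ⟨m, hm, rfl⟩
    exact ⟨m, hm, by rw [key m hm]⟩
  · rintro ⟨m, hm, rfl⟩
    exact ⟨m, hm, by rw [key m hm]⟩

/-- Fixed-point-freeness. -/
theorem eq_one_of_commute {y : S} {r : ℕ} (hr : Odd r) (hy : y ^ r ∈ centralizer (M : Set S)) {v : S}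
    (hv : v ∈ cm hM y) (h : y * v * y⁻¹ = v) : v = 1 := by
  obtain ⟨m, hm, hvm⟩ := hv
  have hvM : v ∈ M := by rw [hvm]; exact M.mul_mem (hM.normal.conj_mem m hm y) (M.inv_mem hm)
  have h1 : ∀ n : ℕ, y ^ n * m * (y ^ n)⁻¹ = v ^ n * m := by
    intro n
    induction n with
    | zero => simp
    | succ n ih =>
      have h2 : y * m * y⁻¹ = v * m := by rw [hvm]; group
      have h3 : y * v ^ n * y⁻¹ = v ^ n := by
        rw [← conj_pow, h]
      calc y ^ (n + 1) * m * (y ^ (n + 1))⁻¹ = y * (y ^ n * m * (y ^ n)⁻¹) * y⁻¹ := by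
            rw [pow_succ']; group
        _ = y * (v ^ n * m) * y⁻¹ := by rw [ih]
        _ = (y * v ^ n * y⁻¹) * (y * m * y⁻¹) := by group
        _ = v ^ n * (v * m) := by rw [h2, h3]
        _ = v ^ (n + 1) * m := by rw [pow_succ]; group
  have h2 := h1 r
  have h3 := mem_centralizer_iff.mp hy m hm
  have h4 : y ^ r * m * (y ^ r)⁻¹ = m := by rw [← h3]; group
  rw [h4] at h2
  have h5 : v ^ r = 1 := by
    have := h2.symm
    rwa [mul_eq_right] at this
  obtain ⟨k, hk⟩ := hr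
  rw [hk, pow_add, pow_mul, pow_two, hM.sq v hvM, one_pow, one_mul, pow_one] at h5
  exact h5

theorem commute_of_disjoint {y : S} {U : Subgroup S} (hU : U ≤ M) (hyU : ∀ u ∈ U, y * u * y⁻¹ ∈ U)
    (hd : cm hM y ⊓ U = ⊥) {u : S} (hu : u ∈ U) : y * u * y⁻¹ = u := by
  have h1 : y * u * y⁻¹ * u⁻¹ ∈ cm hM y ⊓ U := ⟨⟨u, hU hu, rfl⟩, U.mul_mem (hyU u hu) (U.inv_mem hu)⟩
  rw [hd, mem_bot, mul_inv_eq_one] at h1
  exact h1

theorem conj_mem_cm_of_comm {y y' : S} (h : ⁅y', y⁆ ∈ centralizer (M : Set S)) {v : S} (hv : v ∈ cm hM y) :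
    y' * v * y'⁻¹ ∈ cm hM y := by
  have h1 := (conj_mem_cm_iff hM (g := y')).mpr hv
  have h2 : cm hM (y' * y * y'⁻¹) = cm hM y := by
    apply cm_congr
    have hn : (centralizer (M : Set S)).Normal := by
      have := hM.normal
      infer_instance
    have h3 := hn.conj_mem _ h y⁻¹
    have h4 : y⁻¹ * ⁅y', y⁆ * y⁻¹⁻¹ = y⁻¹ * (y' * y * y'⁻¹) := by
      rw [commutatorElement_def]; group
    rwa [h4] at h3
  rwa [h2] at h1

/-- A `y`-invariant subgroup of `[M, y]` has order congruent to `1` modulo `r`. -/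
theorem card_modEq [Finite S] {y : S} {r : ℕ} [hrp : Fact r.Prime] (hr2 : r ≠ 2)
    (hy : y ^ r ∈ centralizer (M : Set S)) {U : Subgroup S} (hU : U ≤ cm hM y) (hyU : ∀ u ∈ U, y * u * y⁻¹ ∈ U) :
    r ∣ Nat.card ↥U - 1 := by
  classical
  have hr := hrp.out
  have hodd : Odd r := hr.odd_of_ne_two hr2
  -- `y` acts on `U`; the permutation has order dividing `r` and only one fixed point
  have hyU' : ∀ u ∈ U, y⁻¹ * u * y ∈ U := by
    intro u hu
    have hUM : U ≤ M := hU.trans (cm_le hM y)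
    have h1 : ∀ n : ℕ, y ^ n * u * (y ^ n)⁻¹ ∈ U := by
      intro n
      induction n with
      | zero => simpa using hu
      | succ n ih =>
        have := hyU _ ih
        have e : y * (y ^ n * u * (y ^ n)⁻¹) * y⁻¹ = y ^ (n + 1) * u * (y ^ (n + 1))⁻¹ := by
          rw [pow_succ']; group
        rwa [e] at this
    have h2 := h1 (r - 1)
    have h3 := mem_centralizer_iff.mp hy u (hUM hu)
    have e : y ^ r = y * y ^ (r - 1) := by
      rw [← pow_succ', Nat.sub_add_cancel hr.one_lt.le]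
    have e2 : y ^ (r - 1) * u * (y ^ (r - 1))⁻¹ = y⁻¹ * u * y := by
      have h4 : y ^ r * u * (y ^ r)⁻¹ = u := by rw [← h3]; group
      rw [e] at h4
      calc y ^ (r - 1) * u * (y ^ (r - 1))⁻¹ = y⁻¹ * (y * y ^ (r - 1) * u * (y * y ^ (r - 1))⁻¹) * y := by group
        _ = y⁻¹ * u * y := by rw [h4]
    rwa [e2] at h2
  let σ : Equiv.Perm ↥U :=
    { toFun := fun u => ⟨y * u * y⁻¹, hyU u u.2⟩
      invFun := fun u => ⟨y⁻¹ * u * y, hyU' u u.2⟩
      left_inv := by intro u; apply Subtype.ext; show y⁻¹ * (y * (u : S) * y⁻¹) * y = u; group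
      right_inv := by intro u; apply Subtype.ext; show y * (y⁻¹ * (u : S) * y) * y⁻¹ = u; group }
  have hσ : ∀ n : ℕ, ∀ u : ↥U, (((σ ^ n) u : ↥U) : S) = y ^ n * u * (y ^ n)⁻¹ := by
    intro n
    induction n with
    | zero => intro u; simp
    | succ n ih =>
      intro u
      rw [pow_succ', Equiv.Perm.mul_apply]
      show y * ((σ ^ n) u : S) * y⁻¹ = _
      rw [ih, pow_succ']; group
  have hσr : σ ^ r = 1 := by
    ext u
    rw [hσ]
    have h3 := mem_centralizer_iff.mp hy u (cm_le hM y (hU u.2))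
    show y ^ r * (u : S) * (y ^ r)⁻¹ = u
    rw [← h3]; group
  have hp : IsPGroup r ↥(Subgroup.zpowers σ) := by
    intro g
    obtain ⟨g, hg⟩ := g
    obtain ⟨k, rfl⟩ := Subgroup.mem_zpowers_iff.mp hg
    refine ⟨1, Subtype.ext ?_⟩
    show (σ ^ k) ^ (r ^ 1) = 1
    rw [pow_one, ← zpow_natCast, ← zpow_mul, mul_comm, zpow_mul, zpow_natCast, hσr, one_zpow]
  have hmod := hp.card_modEq_card_fixedPoints ↥U
  have hfix : Nat.card ↥(MulAction.fixedPoints ↥(Subgroup.zpowers σ) ↥U) = 1 := by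
    rw [Nat.card_eq_one_iff_unique]
    constructor
    · constructor
      rintro ⟨a, ha⟩ ⟨b, hb⟩
      have key : ∀ a : ↥U, a ∈ MulAction.fixedPoints ↥(Subgroup.zpowers σ) ↥U → (a : S) = 1 := by
        intro a ha
        have h1 := ha ⟨σ, Subgroup.mem_zpowers σ⟩
        have h2 : y * (a : S) * y⁻¹ = a := congrArg Subtype.val h1
        exact eq_one_of_commute hM hodd hy (hU a.2) h2
      exact Subtype.ext (Subtype.ext ((key a ha).trans (key b hb).symm))
    · refine ⟨⟨1, ?_⟩⟩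
      intro g
      obtain ⟨g, hg⟩ := g
      obtain ⟨k, rfl⟩ := Subgroup.mem_zpowers_iff.mp hg
      show (σ ^ k) 1 = 1
      have h1 : σ 1 = 1 := by
        apply Subtype.ext
        show y * (1 : S) * y⁻¹ = 1
        group
      have h2 : Function.IsFixedPt (σ ^ k) (1 : ↥U) := by
        exact Equiv.Perm.zpow_apply_eq_self_of_apply_eq_self h1 k
      exact h2
  rw [hfix] at hmod
  exact (Nat.modEq_iff_dvd' Nat.card_pos).mp hmod.symm

/-- A nontrivial `y`-invariant subgroup of `[M, y]` is everything if `|[M, y]| = r + 1`. -/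
theorem eq_cm_of_le [Finite S] {y : S} {r : ℕ} [hrp : Fact r.Prime] (hr2 : r ≠ 2)
    (hy : y ^ r ∈ centralizer (M : Set S))
    (hc : Nat.card ↥(cm hM y) = r + 1) {U : Subgroup S} (hU : U ≤ cm hM y) (hyU : ∀ u ∈ U, y * u * y⁻¹ ∈ U)
    (hne : U ≠ ⊥) : U = cm hM y := by
  have h1 : Nat.card ↥U ≤ r + 1 := by
    rw [← hc]; exact Subgroup.card_le_of_le hU
  have h2 : 1 < Nat.card ↥U := (Subgroup.one_lt_card_iff_ne_bot U).mpr hne
  have h3 : r ∣ Nat.card ↥U - 1 := card_modEq hM hr2 hy hU hyU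
  have h4 : Nat.card ↥U = r + 1 := by
    have h5 := Nat.le_of_dvd (by omega) h3
    omega
  exact Subgroup.eq_of_le_of_card_ge hU (by rw [h4, hc])

end

section

variable [Finite S]

theorem relIndex_centralizer_dvd {K U : Subgroup S} (h : K ≤ normalizer (U : Set S)) :
    (centralizer (U : Set S)).relIndex K ∣ Nat.card (MulAut ↥U) := by
  let f : ↥K →* MulAut ↥U := (normalizerMonoidHom U).comp (inclusion h)
  have hker : f.ker = (centralizer (U : Set S)).subgroupOf K := by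
    ext k
    rw [MonoidHom.mem_ker, mem_subgroupOf, mem_centralizer_iff]
    constructor
    · intro hk u hu
      have h2 := congrArg (fun φ : MulAut ↥U => ((φ ⟨u, hu⟩ : ↥U) : S)) hk
      have h3 : (k : S) * u * (k : S)⁻¹ = u := h2
      exact (mul_inv_eq_iff_eq_mul.mp h3).symm
    · intro hk
      ext u
      show (k : S) * (u : S) * (k : S)⁻¹ = u
      rw [← hk u u.2]; group
  rw [Subgroup.relIndex, ← hker, Subgroup.index_ker]
  exact Subgroup.card_subgroup_dvd_card _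

/-- The order of `GL_n(2)`. -/
def gl (n : ℕ) : ℕ := ∏ i : Fin n, (2 ^ n - 2 ^ (i : ℕ))

theorem card_mulAut {U : Subgroup S} (hc : ∀ a ∈ U, ∀ b ∈ U, a * b = b * a) (h2 : ∀ a ∈ U, a * a = 1) {n : ℕ}
    (hn : Nat.card ↥U = 2 ^ n) : Nat.card (MulAut ↥U) = gl n := by
  have : Fact (Nat.Prime 2) := ⟨Nat.prime_two⟩
  let _ : CommGroup ↥U := { (inferInstance : Group ↥U) with mul_comm := fun a b => Subtype.ext (hc a a.2 b b.2) }
  obtain ⟨e⟩ := Cfsg.Agent.Lib.ElemAbGL.mulAut_equiv_GL (V := ↥U) 2 n (fun x => Subtype.ext (by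
    rw [Subgroup.coe_pow, pow_two]; exact h2 x x.2)) hn
  rw [Nat.card_congr e.toEquiv, Matrix.card_GL_field, gl]
  simp only [ZMod.card]

theorem gl_two : gl 2 = 6 := by decide
theorem gl_three : gl 3 = 168 := by decide
theorem gl_vals : gl 0 = 1 ∧ gl 1 = 1 ∧ gl 2 = 6 ∧ gl 3 = 168 ∧ gl 4 = 20160 ∧ gl 5 = 9999360 ∧
    gl 6 = 20158709760 := by decide

variable {M : Subgroup S} (hM : Hyp M)

theorem gen_le_normalizer (y y' : S) :
    closure ({y, y'} : Set S) ≤ normalizer ((cm hM y ⊔ cm hM y' : Subgroup S) : Set S) := by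
  have hle : cm hM y ⊔ cm hM y' ≤ M := sup_le (cm_le hM y) (cm_le hM y')
  have key : ∀ z ∈ ({y, y'} : Set S), ∀ u ∈ cm hM y ⊔ cm hM y', z * u * z⁻¹ ∈ cm hM y ⊔ cm hM y' := by
    intro z hz u hu
    have h1 : z * u * z⁻¹ * u⁻¹ ∈ cm hM y ⊔ cm hM y' := by
      simp only [Set.mem_insert_iff, Set.mem_singleton_iff] at hz
      rcases hz with rfl | rfl
      · exact mem_sup_left (comm_mem_cm hM (hle hu))
      · exact mem_sup_right (comm_mem_cm hM (hle hu))
    have : z * u * z⁻¹ = (z * u * z⁻¹ * u⁻¹) * u := by group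
    rw [this]
    exact mul_mem h1 hu
  rw [closure_le]
  intro z hz
  exact Subgroup.mem_normalizer_fintype (key z hz)

theorem gen_comm_mem {y y' d : S} (hd : d ∈ closure ({y, y'} : Set S)) :
    ∀ m ∈ M, d * m * d⁻¹ * m⁻¹ ∈ cm hM y ⊔ cm hM y' := by
  have hN := gen_le_normalizer hM y y'
  induction hd using Subgroup.closure_induction with
  | mem z hz =>
    intro m hm
    simp only [Set.mem_insert_iff, Set.mem_singleton_iff] at hz
    rcases hz with rfl | rfl
    · exact mem_sup_left (comm_mem_cm hM hm)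
    · exact mem_sup_right (comm_mem_cm hM hm)
  | one => intro m _; simp
  | mul a b ha hb iha ihb =>
    intro m hm
    have h1 := ihb m hm
    have h2 := (mem_normalizer_iff.mp (hN ha) _).mp h1
    have h3 := iha m hm
    have : a * b * m * (a * b)⁻¹ * m⁻¹ = (a * (b * m * b⁻¹ * m⁻¹) * a⁻¹) * (a * m * a⁻¹ * m⁻¹) := by group
    rw [this]
    exact mul_mem h2 h3
  | inv a ha iha =>
    intro m hm
    have h1 := iha (a⁻¹ * m * a) (by simpa using hM.normal.conj_mem m hm a⁻¹)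
    have : a⁻¹ * m * a⁻¹⁻¹ * m⁻¹ = (a * (a⁻¹ * m * a) * a⁻¹ * (a⁻¹ * m * a)⁻¹)⁻¹ := by group
    rw [this]
    exact inv_mem h1

theorem centralizer_inf_le {y y' : S} (hodd : Odd (Nat.card ↥(closure ({y, y'} : Set S)))) {d : S}
    (hd : d ∈ closure ({y, y'} : Set S))
    (hdU : d ∈ centralizer ((cm hM y ⊔ cm hM y' : Subgroup S) : Set S)) : d ∈ centralizer (M : Set S) := by
  rw [mem_centralizer_iff]
  intro m hm
  obtain ⟨u, hu⟩ : ∃ u, u = d * m * d⁻¹ * m⁻¹ := ⟨_, rfl⟩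
  have huU : u ∈ cm hM y ⊔ cm hM y' := by rw [hu]; exact gen_comm_mem hM hd m hm
  have huM : u ∈ M := (sup_le (cm_le hM y) (cm_le hM y') : cm hM y ⊔ cm hM y' ≤ M) huU
  have hdu : d * u * d⁻¹ = u := by
    rw [← mem_centralizer_iff.mp hdU u huU]; group
  have h1 : ∀ n : ℕ, d ^ n * m * (d ^ n)⁻¹ = u ^ n * m := by
    intro n
    induction n with
    | zero => simp
    | succ n ih =>
      have h2 : d * m * d⁻¹ = u * m := by rw [hu]; group
      have h3 : d * u ^ n * d⁻¹ = u ^ n := by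
        rw [← conj_pow, hdu]
      calc d ^ (n + 1) * m * (d ^ (n + 1))⁻¹ = d * (d ^ n * m * (d ^ n)⁻¹) * d⁻¹ := by
            rw [pow_succ']; group
        _ = d * (u ^ n * m) * d⁻¹ := by rw [ih]
        _ = (d * u ^ n * d⁻¹) * (d * m * d⁻¹) := by group
        _ = u ^ n * (u * m) := by rw [h2, h3]
        _ = u ^ (n + 1) * m := by rw [pow_succ]; group
  have h2 := h1 (Nat.card ↥(closure ({y, y'} : Set S)))
  have h3 : d ^ Nat.card ↥(closure ({y, y'} : Set S)) = 1 := by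
    have := pow_card_eq_one' (x := (⟨d, hd⟩ : ↥(closure ({y, y'} : Set S))))
    exact congrArg Subtype.val this
  rw [h3, one_mul, inv_one, mul_one] at h2
  have h5 : u ^ Nat.card ↥(closure ({y, y'} : Set S)) = 1 := by
    have := h2.symm
    rwa [mul_eq_right] at this
  obtain ⟨k, hk⟩ := hodd
  rw [hk, pow_add, pow_mul, pow_two, hM.sq u huM, one_pow, one_mul, pow_one] at h5
  rw [h5] at hu
  have h6 : d * m = m * d := by
    have h7 : d * m * d⁻¹ = m := mul_inv_eq_one.mp hu.symm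
    exact mul_inv_eq_iff_eq_mul.mp h7
  exact h6.symm

theorem card_sup_dvd (y y' : S) : ∃ n : ℕ, Nat.card ↥(cm hM y ⊔ cm hM y') = 2 ^ n ∧
    2 ^ n ≤ Nat.card ↥(cm hM y) * Nat.card ↥(cm hM y') := by
  have hle : cm hM y ⊔ cm hM y' ≤ M := sup_le (cm_le hM y) (cm_le hM y')
  have : Fact (Nat.Prime 2) := ⟨Nat.prime_two⟩
  have hp : IsPGroup 2 ↥(cm hM y ⊔ cm hM y') := by
    intro u
    refine ⟨1, Subtype.ext ?_⟩
    rw [pow_one, pow_two]
    exact hM.sq u (hle u.2)
  obtain ⟨n, hn⟩ := (IsPGroup.iff_card).1 hp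
  refine ⟨n, hn, ?_⟩
  rw [← hn, ← Nat.card_prod]
  have hsurj : Function.Surjective (fun w : ↥(cm hM y) × ↥(cm hM y') =>
      (⟨(w.1 : S) * (w.2 : S), mul_mem (mem_sup_left w.1.2) (mem_sup_right w.2.2)⟩ : ↥(cm hM y ⊔ cm hM y'))) := by
    rintro ⟨u, hu⟩
    have hu' : u ∈ (cm hM y : Subgroup S) ⊔ cm hM y' := hu
    have hn : cm hM y ≤ normalizer ((cm hM y' : Subgroup S) : Set S) := by
      intro a ha
      rw [mem_normalizer_iff]
      intro b
      constructor
      · intro hb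
        have : a * b * a⁻¹ = b := by
          rw [hM.comm a (cm_le hM y ha) b (cm_le hM y' hb)]; group
        rw [this]; exact hb
      · intro hb
        have h1 := hM.comm a (cm_le hM y ha) _ (cm_le hM y' hb)
        have : b = a⁻¹ * (a * b * a⁻¹) * a := by group
        rw [this]
        have h2 : a⁻¹ * (a * b * a⁻¹) * a = a * b * a⁻¹ := by
          rw [mul_assoc, ← h1]; group
        rw [h2]; exact hb
    have h1 : u ∈ ((cm hM y : Set S) * (cm hM y' : Set S)) := by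
      rw [← Subgroup.coe_mul_of_left_le_normalizer_right _ _ hn]
      exact hu'
    obtain ⟨a, ha, b, hb, rfl⟩ := h1
    exact ⟨(⟨a, ha⟩, ⟨b, hb⟩), rfl⟩
  exact Nat.card_le_card_of_surjective _ hsurj

theorem relIndex_dvd_gl {y y' : S} (hodd : Odd (Nat.card ↥(closure ({y, y'} : Set S)))) {n : ℕ}
    (hn : Nat.card ↥(cm hM y ⊔ cm hM y') = 2 ^ n) :
    (centralizer (M : Set S)).relIndex (closure ({y, y'} : Set S)) ∣ gl n := by
  have hle : cm hM y ⊔ cm hM y' ≤ M := sup_le (cm_le hM y) (cm_le hM y')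
  have h1 := relIndex_centralizer_dvd (gen_le_normalizer hM y y')
  rw [card_mulAut (fun a ha b hb => hM.comm a (hle ha) b (hle hb)) (fun a ha => hM.sq a (hle ha)) hn] at h1
  refine dvd_trans ?_ h1
  rw [← Subgroup.inf_relIndex_right (centralizer ((cm hM y ⊔ cm hM y' : Subgroup S) : Set S))]
  apply Subgroup.relIndex_dvd_of_le_left
  rintro d ⟨h2, h3⟩
  exact centralizer_inf_le hM hodd h3 h2

/-- Two elements of an `r`-group (`r = 3`, `d = 2` or `r = 7`, `d = 3`) with commutators of order `2 ^ d` on `M`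
commute modulo `C(M)`. -/
theorem comm_mem_of_pgroup {r d : ℕ} (hrd : (r = 3 ∧ d = 2) ∨ (r = 7 ∧ d = 3)) {y y' : S}
    (hp : IsPGroup r ↥(closure ({y, y'} : Set S)))
    (hy : Nat.card ↥(cm hM y) = 2 ^ d) (hy' : Nat.card ↥(cm hM y') = 2 ^ d) :
    ⁅y, y'⁆ ∈ centralizer (M : Set S) := by
  have hrp : r.Prime := by rcases hrd with ⟨rfl, _⟩ | ⟨rfl, _⟩ <;> norm_num
  have : Fact r.Prime := ⟨hrp⟩
  set D := closure ({y, y'} : Set S) with hD
  obtain ⟨c, hc⟩ := (IsPGroup.iff_card).1 hp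
  have hodd : Odd (Nat.card ↥D) := by
    rw [hc]
    apply Odd.pow
    rcases hrd with ⟨rfl, _⟩ | ⟨rfl, _⟩ <;> decide
  obtain ⟨n, hn, hnle⟩ := card_sup_dvd hM y y'
  rw [hy, hy', ← pow_add] at hnle
  have hn2 : n ≤ d + d := (Nat.pow_le_pow_iff_right (by norm_num)).mp hnle
  have h1 := relIndex_dvd_gl hM hodd hn
  rw [← hD] at h1
  have h2 : ∃ k, (centralizer (M : Set S)).relIndex D = r ^ k := by
    have h3 := Subgroup.relIndex_dvd_card (centralizer (M : Set S)) D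
    rw [hc] at h3
    obtain ⟨k, _, hk⟩ := (Nat.dvd_prime_pow hrp).mp h3
    exact ⟨k, hk⟩
  obtain ⟨k, hk⟩ := h2
  rw [hk] at h1
  have hk2 : k ≤ 2 := by
    by_contra h3
    have h4 : r ^ 3 ∣ gl n := (pow_dvd_pow r (by omega)).trans h1
    obtain ⟨g0, g1, g2, g3, g4, g5, g6⟩ := gl_vals
    rcases hrd with ⟨rfl, rfl⟩ | ⟨rfl, rfl⟩
    · have : n = 0 ∨ n = 1 ∨ n = 2 ∨ n = 3 ∨ n = 4 := by omega
      rcases this with rfl | rfl | rfl | rfl | rfl
      · rw [g0] at h4; revert h4; decide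
      · rw [g1] at h4; revert h4; decide
      · rw [g2] at h4; revert h4; decide
      · rw [g3] at h4; revert h4; decide
      · rw [g4] at h4; revert h4; decide
    · have : n = 0 ∨ n = 1 ∨ n = 2 ∨ n = 3 ∨ n = 4 ∨ n = 5 ∨ n = 6 := by omega
      rcases this with rfl | rfl | rfl | rfl | rfl | rfl | rfl
      · rw [g0] at h4; revert h4; decide
      · rw [g1] at h4; revert h4; decide
      · rw [g2] at h4; revert h4; decide
      · rw [g3] at h4; revert h4; decide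
      · rw [g4] at h4; revert h4; decide
      · rw [g5] at h4; revert h4; decide
      · rw [g6] at h4; revert h4; decide
  -- the quotient `D / C_D(M)` is commutative
  have hMn := hM.normal
  have hCn : (centralizer (M : Set S)).Normal := inferInstance
  have hNn : ((centralizer (M : Set S)).subgroupOf D).Normal := inferInstance
  have hcard : Nat.card (↥D ⧸ (centralizer (M : Set S)).subgroupOf D) = r ^ k := hk
  have hcomm : ∀ a b : ↥D ⧸ (centralizer (M : Set S)).subgroupOf D, a * b = b * a := by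
    have hk3 : k = 0 ∨ k = 1 ∨ k = 2 := by omega
    rcases hk3 with rfl | rfl | rfl
    · rw [pow_zero] at hcard
      have := (Nat.card_eq_one_iff_unique.mp hcard).1
      intro a b
      exact Subsingleton.elim _ _
    · rw [pow_one] at hcard
      have := isCyclic_of_prime_card hcard
      intro a b
      let _ := IsCyclic.commGroup (α := ↥D ⧸ (centralizer (M : Set S)).subgroupOf D)
      exact mul_comm a b
    · have := IsPGroup.isMulCommutative_of_card_eq_prime_sq hcard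
      exact this.is_comm.comm
  have hyD : y ∈ D := subset_closure (by simp)
  have hyD' : y' ∈ D := subset_closure (by simp)
  have h3 := hcomm (QuotientGroup.mk' _ ⟨y, hyD⟩) (QuotientGroup.mk' _ ⟨y', hyD'⟩)
  rw [← commutatorElement_eq_one_iff_mul_comm, ← map_commutatorElement] at h3
  have h4 := (QuotientGroup.eq_one_iff _).mp h3
  exact mem_subgroupOf.mp h4

end

end Cfsg.Agent.H585.ModTwo
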