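import Cfsg.Agent.H585.PCentral
import Cfsg.Agent.Lib.FrattiniPGroup
import Cfsg.Agent.Lib.NormalRankFour

/-!
# An impossible configuration in 3-groups of rank two
-/

set_option autoImplicit false

namespace Cfsg.Agent.H585.TripleC

open Subgroup Cfsg.Agent.H585.PCentral
open scoped commutatorElement Pointwise

universe u v

theorem card_quot_frattini_le {K : Type u} [Group K] [Finite K] (hK : IsPGroup 3 K) (hr : Cfsg.PRankLE 3 2 K)
    (A : Subgroup K) (hA : Cfsg.IsElementaryAbelian 3 A) (hA2 : Nat.card ↥A = 3 ^ 2) :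
    Nat.card (↥(centralizer (A : Set K)) ⧸ frattini ↥(centralizer (A : Set K))) ≤ 9 := by
  have hf3 : Fact (Nat.Prime 3) := ⟨Nat.prime_three⟩
  have hp : IsPGroup 3 ↥(centralizer (A : Set K)) := hK.to_subgroup _
  let _ : CommGroup (↥(centralizer (A : Set K)) ⧸ frattini ↥(centralizer (A : Set K))) :=
    { (inferInstance : Group (↥(centralizer (A : Set K)) ⧸ frattini ↥(centralizer (A : Set K)))) with
      mul_comm := by
        intro a b
        obtain ⟨a, rfl⟩ := QuotientGroup.mk'_surjective _ a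
        obtain ⟨b, rfl⟩ := QuotientGroup.mk'_surjective _ b
        rw [← commutatorElement_eq_one_iff_mul_comm, ← map_commutatorElement]
        exact (QuotientGroup.eq_one_iff _).mpr (Cfsg.Agent.Lib.FrattiniPGroup.commutator_mem_frattini hp a b) }
  exact card_le_of_centralizer (p := 3) (by norm_num) hK hr A hA hA2
    (QuotientGroup.mk' (frattini ↥(centralizer (A : Set K)))) (QuotientGroup.mk'_surjective _)
    (by
      intro t
      obtain ⟨a, rfl⟩ := QuotientGroup.mk'_surjective _ t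
      rw [← map_pow]
      exact (QuotientGroup.eq_one_iff _).mpr (Cfsg.Agent.Lib.FrattiniPGroup.pow_mem_frattini hp a))

theorem tripleK {K : Type u} [Group K] [Finite K] (hK : IsPGroup 3 K) (hr : Cfsg.PRankLE 3 2 K)
    {T : Type v} [CommGroup T] (hT : Nat.card T = 3) (σ : K ≃* K) (hσ : ∀ k, σ (σ (σ k)) = k)
    (χ : K →* T) (x : K) (hx1 : χ x ≠ 1) (hx2 : χ (σ x) = 1) (hx3 : χ (σ (σ x)) = 1)
    (A : Subgroup K) [hAn : A.Normal] (hA : Cfsg.IsElementaryAbelian 3 A) (hA2 : Nat.card ↥A = 3 ^ 2)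
    (hAσ : ∀ k : K, k⁻¹ * σ k ∈ centralizer (A : Set K))
    (E1 : Subgroup K) (hE : Cfsg.IsElementaryAbelian 3 E1) (hE2 : Nat.card ↥E1 = 3 ^ 2)
    (hE1 : ∀ a ∈ E1, σ a = a) (hEχ : ∃ a ∈ E1, χ a ≠ 1) : False := by
  have h3p : Nat.Prime 3 := Nat.prime_three
  have hf3 : Fact (Nat.Prime 3) := ⟨h3p⟩
  have hfinT : Finite T := Nat.finite_of_card_ne_zero (by rw [hT]; norm_num)
  have hT3 : ∀ t : T, t ^ 3 = 1 := fun t => by rw [← hT]; exact pow_card_eq_one'
  have hgen : ∀ t s : T, s ≠ 1 → ∃ i : ℤ, s ^ i = t := fun t s hs =>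
    mem_zpowers_iff.mp (mem_zpowers_of_prime_card hT hs)
  obtain ⟨τ, hτ⟩ : ∃ τ, τ = χ x := ⟨_, rfl⟩
  have hτ1 : τ ≠ 1 := by rw [hτ]; exact hx1
  let Φ : K →* T × T × T := χ.prod ((χ.comp σ.toMonoidHom).prod (χ.comp (σ.toMonoidHom.comp σ.toMonoidHom)))
  have hΦ : ∀ k, Φ k = (χ k, χ (σ k), χ (σ (σ k))) := fun k => rfl
  have hΦx : Φ x = (τ, 1, 1) := by rw [hΦ, hx2, hx3, hτ]
  have hΦσx : Φ (σ x) = (1, 1, τ) := by rw [hΦ, hx2, hx3, hσ, hτ]
  have hΦσσx : Φ (σ (σ x)) = (1, τ, 1) := by rw [hΦ, hx3, hσ, hx2, hτ]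
  have hsurj : Function.Surjective Φ := by
    rintro ⟨t1, t2, t3⟩
    obtain ⟨i, hi⟩ := hgen t1 τ hτ1
    obtain ⟨j, hj⟩ := hgen t2 τ hτ1
    obtain ⟨k, hk⟩ := hgen t3 τ hτ1
    refine ⟨x ^ i * σ (σ x) ^ j * σ x ^ k, ?_⟩
    rw [map_mul, map_mul, map_zpow, map_zpow, map_zpow, hΦx, hΦσx, hΦσσx]
    simp [hi, hj, hk]
  have hcardT : Nat.card (T × T × T) = 27 := by rw [Nat.card_prod, Nat.card_prod, hT]
  -- the centralizer `B` of `A`
  obtain ⟨B, hB⟩ : ∃ B, B = centralizer (A : Set K) := ⟨_, rfl⟩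
  have hBn : B.Normal := by rw [hB]; infer_instance
  have hidx : B.index ∣ 3 := by rw [hB]; exact index_centralizer_dvd hK A hA hA2
  have hcB : Nat.card ↥(B.map Φ) ≤ 9 := by
    subst hB
    let f' : ↥(centralizer (A : Set K)) →* ↥((centralizer (A : Set K)).map Φ) :=
      (Φ.comp (centralizer (A : Set K)).subtype).codRestrict _ (fun x => ⟨x, x.2, rfl⟩)
    have hf' : Function.Surjective f' := by
      rintro ⟨_, ⟨x, hx, rfl⟩⟩
      exact ⟨⟨x, hx⟩, rfl⟩
    have h1 := card_le_of_centralizer (p := 3) (by norm_num) hK hr A hA hA2 f' hf'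
      (fun t => Subtype.ext (by
        obtain ⟨⟨t1, t2, t3⟩, ht⟩ := t
        simp only [SubmonoidClass.mk_pow, Prod.pow_mk, hT3, OneMemClass.coe_one]
        rfl))
    exact h1
  have hmi : Nat.card ↥(B.map Φ) * (B.map Φ).index = 27 := by rw [Subgroup.card_mul_index, hcardT]
  have hid2 : (B.map Φ).index ∣ B.index := Subgroup.index_map_dvd B hsurj
  have hB3 : B.index = 3 ∧ (B.map Φ).index = 3 ∧ Nat.card ↥(B.map Φ) = 9 := by
    have h1 := Nat.le_of_dvd (by norm_num) hidx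
    have h0 : B.index ≠ 0 := Subgroup.index_ne_zero_of_finite
    have h2 := Nat.le_of_dvd (Nat.pos_of_ne_zero h0) hid2
    have h3 : (B.map Φ).index ≤ 3 := h2.trans h1
    have h4 : Nat.card ↥(B.map Φ) * (B.map Φ).index ≤ 9 * (B.map Φ).index := Nat.mul_le_mul_right _ hcB
    have h5 : (B.map Φ).index = 3 := by omega
    rw [h5] at h2 hmi
    exact ⟨by omega, h5, by omega⟩
  obtain ⟨hBi, hBΦi, hBΦc⟩ := hB3
  have hkerB : Φ.ker ≤ B := by
    have h1 : (B ⊔ Φ.ker).index = 3 := by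
      rw [← Subgroup.comap_map_eq, Subgroup.index_comap_of_surjective _ hsurj, hBΦi]
    have h2 : B = B ⊔ Φ.ker := by
      apply Subgroup.eq_of_le_of_card_ge le_sup_left
      have h3 := Subgroup.card_mul_index B
      have h4 := Subgroup.card_mul_index (B ⊔ Φ.ker)
      rw [hBi] at h3
      rw [h1] at h4
      omega
    rw [h2]; exact le_sup_right
  have hσB : ∀ k, k⁻¹ * σ k ∈ B := by rw [hB]; exact hAσ
  have hcomm : ∀ k ∈ B, ∀ a ∈ A, k * a = a * k := by
    intro k hk a ha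
    rw [hB, mem_centralizer_iff] at hk
    exact (hk a ha).symm
  have hxB : x ∉ B := by
    intro hx
    have h1 : σ x ∈ B := by
      have := mul_mem hx (hσB x)
      rwa [mul_inv_cancel_left] at this
    have h2 : σ (σ x) ∈ B := by
      have := mul_mem h1 (hσB (σ x))
      rwa [mul_inv_cancel_left] at this
    have h3 : B.map Φ = ⊤ := by
      rw [eq_top_iff]
      rintro ⟨t1, t2, t3⟩ _
      obtain ⟨i, hi⟩ := hgen t1 τ hτ1
      obtain ⟨j, hj⟩ := hgen t2 τ hτ1
      obtain ⟨k, hk⟩ := hgen t3 τ hτ1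
      refine ⟨x ^ i * σ (σ x) ^ j * σ x ^ k, mul_mem (mul_mem (zpow_mem hx _) (zpow_mem h2 _)) (zpow_mem h1 _), ?_⟩
      rw [map_mul, map_mul, map_zpow, map_zpow, map_zpow, hΦx, hΦσx, hΦσσx]
      simp [hi, hj, hk]
    rw [h3, Subgroup.card_top, hcardT] at hBΦc
    omega
  -- `E1 ≤ B`
  have hprod : x * σ x * σ (σ x) ∈ B := by
    have hq : Nat.card (K ⧸ B) = 3 := hBi
    have e1 : (QuotientGroup.mk (σ x) : K ⧸ B) = QuotientGroup.mk x := (QuotientGroup.eq.mpr (hσB x)).symm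
    have e2 : (QuotientGroup.mk (σ (σ x)) : K ⧸ B) = QuotientGroup.mk (σ x) :=
      (QuotientGroup.eq.mpr (hσB (σ x))).symm
    rw [← QuotientGroup.eq_one_iff]
    have h1 : (QuotientGroup.mk (x * σ x * σ (σ x)) : K ⧸ B) =
        QuotientGroup.mk x * QuotientGroup.mk (σ x) * QuotientGroup.mk (σ (σ x)) := rfl
    have h2 := pow_card_eq_one' (x := (QuotientGroup.mk x : K ⧸ B))
    rw [hq] at h2
    rw [h1, e2, e1, ← pow_two, ← pow_succ]
    exact h2
  have hΦprod : Φ (x * σ x * σ (σ x)) = (τ, τ, τ) := by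
    rw [map_mul, map_mul, hΦx, hΦσx, hΦσσx]; simp
  have hΦE : ∀ a ∈ E1, Φ a = (χ a, χ a, χ a) := by
    intro a ha
    rw [hΦ, hE1 a ha, hE1 a ha]
  have hE1B : E1 ≤ B := by
    intro a ha
    obtain ⟨i, hi⟩ := hgen (χ a) τ hτ1
    have h1 : a * ((x * σ x * σ (σ x)) ^ i)⁻¹ ∈ Φ.ker := by
      rw [MonoidHom.mem_ker, map_mul, map_inv, map_zpow, hΦprod, hΦE a ha, ← hi]
      simp
    have h2 := mul_mem (hkerB h1) (zpow_mem hprod i)
    rwa [inv_mul_cancel_right] at h2
  have hEA : E1 = A := by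
    have h1 : E1 ≤ A := by
      intro a ha
      apply Cfsg.Agent.Omega.Sec.Basic.mem_of_rank hr (Cfsg.Agent.Omega.Sec.Basic.comm_of hA.1) hA.2 hA2.ge
      · exact hcomm a (hE1B ha)
      · exact hE.2 a ha
    exact Subgroup.eq_of_le_of_card_ge h1 (by rw [hA2, hE2])
  subst hEA
  -- the element `a`
  obtain ⟨a, haE, ha⟩ : ∃ a ∈ E1, χ a = τ := by
    obtain ⟨a, ha, ha1⟩ := hEχ
    obtain ⟨i, hi⟩ := hgen τ (χ a) ha1
    exact ⟨a ^ i, zpow_mem ha i, by rw [map_zpow, hi]⟩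
  have ha3 : a ^ 3 = 1 := hE.2 a haE
  have hΦa : Φ a = (τ, τ, τ) := by rw [hΦE a haE, ha]
  -- `x` does not commute with `a`
  have hza : x * a * x⁻¹ ≠ a := by
    intro hcon
    apply hxB
    rw [hB, mem_centralizer_iff]
    let D : Subgroup K := E1 ⊓ Φ.ker
    have hDn : D.Normal := inferInstance
    have hDc : Nat.card ↥D ≤ 3 := by
      have h1 : Φ.ker.relIndex E1 ≠ 1 := by
        intro h
        rw [Subgroup.relIndex_eq_one] at h
        have := h haE
        rw [MonoidHom.mem_ker, hΦa] at this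
        exact hτ1 (congrArg Prod.fst this)
      have h2 : Nat.card ↥D * Φ.ker.relIndex E1 = 3 ^ 2 := by
        rw [← Subgroup.inf_relIndex_left, ← hE2]
        have := Subgroup.relIndex_mul_relIndex ⊥ (E1 ⊓ Φ.ker) E1 bot_le inf_le_left
        rwa [Subgroup.relIndex_bot_left, Subgroup.relIndex_bot_left] at this
      have h3 : Φ.ker.relIndex E1 ∣ 3 ^ 2 := ⟨_, by rw [mul_comm] at h2; exact h2.symm⟩
      obtain ⟨k, hk, hk2⟩ := (Nat.dvd_prime_pow h3p).mp h3
      have hk0 : k ≠ 0 := by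
        rintro rfl
        exact h1 (by rw [hk2, pow_zero])
      rw [hk2] at h2
      have h4 : 3 ^ 1 ≤ 3 ^ k := Nat.pow_le_pow_right (by norm_num) (by omega)
      by_contra h5
      push Not at h5
      have h6 : 4 * 3 ≤ Nat.card ↥D * 3 ^ k := Nat.mul_le_mul h5 (by simpa using h4)
      omega
    have hDz : D ≤ center K := Cfsg.Agent.Lib.NormalRankFour.le_center_of_card_le hK D hDc
    intro w hw
    obtain ⟨i, hi⟩ := hgen (χ w) τ hτ1
    have hc : w * (a ^ i)⁻¹ ∈ D := by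
      refine ⟨E1.mul_mem hw (E1.inv_mem (E1.zpow_mem haE i)), ?_⟩
      show w * (a ^ i)⁻¹ ∈ Φ.ker
      rw [MonoidHom.mem_ker, map_mul, map_inv, map_zpow, hΦa, hΦE w hw, ← hi]
      simp
    have h1 := mem_center_iff.mp (hDz hc) x
    have h2 : x * a ^ i * x⁻¹ = a ^ i := by rw [← conj_zpow, hcon]
    have h3 : x * a ^ i = a ^ i * x := mul_inv_eq_iff_eq_mul.mp h2
    have h4 : w = w * (a ^ i)⁻¹ * a ^ i := by group
    calc w * x = (w * (a ^ i)⁻¹) * (a ^ i * x) := by group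
      _ = (w * (a ^ i)⁻¹) * (x * a ^ i) := by rw [h3]
      _ = ((w * (a ^ i)⁻¹) * x) * a ^ i := by group
      _ = (x * (w * (a ^ i)⁻¹)) * a ^ i := by rw [h1]
      _ = x * w := by group
  -- the element `b`
  obtain ⟨b, hb⟩ : ∃ b, b = x⁻¹ * σ x := ⟨_, rfl⟩
  have hbB : b ∈ B := by rw [hb]; exact hσB x
  have haB : a ∈ B := hE1B haE
  have hab : a * b = b * a := (hcomm b hbB a haE).symm
  have hΦb : Φ b = (τ⁻¹, 1, τ) := by
    rw [hb, map_mul, map_inv, hΦx, hΦσx]; simp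
  have hσb : Φ (σ b) = (1, τ, τ⁻¹) := by
    rw [hb, map_mul, map_inv, map_mul, map_inv, hΦσx, hΦσσx]; simp
  -- `B = ⟨a, b⟩`
  obtain ⟨L, hL⟩ : ∃ L : Subgroup K, L = closure {a, b} := ⟨_, rfl⟩
  have hLB : L ≤ B := by
    rw [hL, closure_le]
    rintro w hw
    simp only [Set.mem_insert_iff, Set.mem_singleton_iff] at hw
    rcases hw with rfl | rfl
    · exact haB
    · exact hbB
  have haL : a ∈ L := by rw [hL]; exact subset_closure (by simp)
  have hbL : b ∈ L := by rw [hL]; exact subset_closure (by simp)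
  have hLmap : L.map Φ = B.map Φ := by
    apply Subgroup.eq_of_le_of_card_ge (Subgroup.map_mono hLB)
    rw [hBΦc]
    by_contra hlt
    push Not at hlt
    have h1 : Nat.card ↥(L.map Φ) ∣ 3 ^ 3 := by
      have := Subgroup.card_subgroup_dvd_card (L.map Φ)
      rwa [hcardT] at this
    obtain ⟨k, hk, hk2⟩ := (Nat.dvd_prime_pow h3p).mp h1
    have hk1 : k ≤ 1 := by
      by_contra h
      have : 3 ^ 2 ≤ 3 ^ k := Nat.pow_le_pow_right (by norm_num) (by omega)
      omega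
    have h2 : Nat.card ↥(L.map Φ) ≤ 3 := by
      rw [hk2]
      calc 3 ^ k ≤ 3 ^ 1 := Nat.pow_le_pow_right (by norm_num) hk1
        _ = 3 := by norm_num
    have h3 : zpowers (Φ a) = L.map Φ := by
      apply Subgroup.eq_of_le_of_card_ge
      · rw [zpowers_le]; exact ⟨a, haL, rfl⟩
      · have : orderOf (Φ a) = 3 := by
          apply orderOf_eq_prime
          · rw [← map_pow, ha3, map_one]
          · rw [hΦa]
            intro h
            exact hτ1 (congrArg Prod.fst h)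
        rw [Nat.card_zpowers, this]; exact h2
    have h4 : Φ b ∈ zpowers (Φ a) := by rw [h3]; exact ⟨b, hbL, rfl⟩
    obtain ⟨i, hi⟩ := mem_zpowers_iff.mp h4
    rw [hΦa, hΦb] at hi
    have h5 : τ ^ i = τ⁻¹ := congrArg Prod.fst hi
    have h6 : τ ^ i = 1 := congrArg (fun w => w.2.1) hi
    rw [h6] at h5
    exact hτ1 (inv_eq_one.mp h5.symm)
  have hBp : IsPGroup 3 ↥B := hK.to_subgroup B
  have hfrat : Φ.ker.subgroupOf B ≤ frattini ↥B := by
    have h1 : frattini ↥B ≤ Φ.ker.subgroupOf B := by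
      apply Cfsg.Agent.Lib.FrattiniPGroup.frattini_le (p := 3)
      · intro u v
        rw [mem_subgroupOf, MonoidHom.mem_ker]
        have : ((⁅u, v⁆ : ↥B) : K) = ⁅(u : K), (v : K)⁆ := rfl
        rw [this, map_commutatorElement, commutatorElement_eq_one_iff_mul_comm]
        exact mul_comm _ _
      · intro u
        rw [mem_subgroupOf, MonoidHom.mem_ker, Subgroup.coe_pow, map_pow, hΦ]
        simp only [Prod.pow_mk, hT3]
        rfl
    have h2 : Nat.card (↥B ⧸ frattini ↥B) ≤ 9 := by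
      subst hB
      exact card_quot_frattini_le hK hr E1 hA hA2
    have h3 := Subgroup.card_eq_card_quotient_mul_card_subgroup (frattini ↥B)
    have h4 := Subgroup.card_mul_index (Φ.ker.subgroupOf B)
    have h5 : (Φ.ker.subgroupOf B).index = 9 := by
      have h6 : (Φ.ker.subgroupOf B) = (Φ.comp B.subtype).ker := by
        ext w
        rfl
      rw [h6, Subgroup.index_ker, MonoidHom.range_comp, Subgroup.range_subtype, hBΦc]
    rw [h5] at h4
    rw [Subgroup.eq_of_le_of_card_ge h1]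
    have h7 : Nat.card ↥B ≤ 9 * Nat.card ↥(frattini ↥B) := by
      rw [h3]; exact Nat.mul_le_mul_right _ h2
    omega
  have hBL : B ≤ L := by
    have h1 : L.subgroupOf B ⊔ frattini ↥B = ⊤ := by
      rw [eq_top_iff]
      rintro ⟨k, hk⟩ _
      have h2 : Φ k ∈ L.map Φ := by rw [hLmap]; exact ⟨k, hk, rfl⟩
      obtain ⟨l, hl, hlk⟩ := h2
      have h3 : l⁻¹ * k ∈ Φ.ker := by rw [MonoidHom.mem_ker, map_mul, map_inv, hlk, inv_mul_cancel]
      have h4 : (⟨k, hk⟩ : ↥B) = ⟨l, hLB hl⟩ * ⟨l⁻¹ * k, hkerB h3⟩ := by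
        apply Subtype.ext
        show k = l * (l⁻¹ * k)
        group
      rw [h4]
      apply mul_mem (mem_sup_left _) (mem_sup_right _)
      · exact mem_subgroupOf.mpr hl
      · exact hfrat (mem_subgroupOf.mpr h3)
    have h2 := frattini_nongenerating h1
    rwa [Subgroup.subgroupOf_eq_top] at h2
  -- normal forms
  have hform : ∀ k ∈ B, ∃ i j : ℤ, k = a ^ i * b ^ j := by
    intro k hk
    have h1 := hBL hk
    rw [hL] at h1
    have hc : Commute a b := hab
    induction h1 using closure_induction with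
    | mem w hw =>
      simp only [Set.mem_insert_iff, Set.mem_singleton_iff] at hw
      rcases hw with rfl | rfl
      · exact ⟨1, 0, by simp⟩
      · exact ⟨0, 1, by simp⟩
    | one => exact ⟨0, 0, by simp⟩
    | mul u v hu hv ihu ihv =>
      obtain ⟨i, j, hij⟩ := ihu (hLB (by rw [hL]; exact hu))
      obtain ⟨i', j', hij'⟩ := ihv (hLB (by rw [hL]; exact hv))
      refine ⟨i + i', j + j', ?_⟩
      rw [hij, hij', zpow_add, zpow_add]
      have := (hc.zpow_zpow i' j).eq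
      calc a ^ i * b ^ j * (a ^ i' * b ^ j') = a ^ i * (b ^ j * a ^ i') * b ^ j' := by group
        _ = a ^ i * (a ^ i' * b ^ j) * b ^ j' := by rw [this]
        _ = _ := by group
    | inv u hu ihu =>
      obtain ⟨i, j, hij⟩ := ihu (hLB (by rw [hL]; exact hu))
      refine ⟨-i, -j, ?_⟩
      rw [hij, mul_inv_rev, ← zpow_neg, ← zpow_neg]
      exact (hc.zpow_zpow (-i) (-j)).eq.symm
  have hordτ : orderOf τ = 3 := orderOf_eq_prime (hT3 τ) hτ1
  have hkerform : ∀ k ∈ Φ.ker, ∃ j : ℤ, k = b ^ (3 * j) := by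
    intro k hk
    obtain ⟨i, j, hij⟩ := hform k (hkerB hk)
    rw [MonoidHom.mem_ker, hij, map_mul, map_zpow, map_zpow, hΦa, hΦb] at hk
    have h2 : τ ^ i * 1 ^ j = 1 := congrArg (fun w => w.2.1) hk
    have h3 : τ ^ i * τ ^ j = 1 := congrArg (fun w => w.2.2) hk
    rw [one_zpow, mul_one] at h2
    rw [h2, one_mul] at h3
    rw [← orderOf_dvd_iff_zpow_eq_one, hordτ] at h2 h3
    obtain ⟨i', rfl⟩ := h2
    obtain ⟨j', rfl⟩ := h3
    refine ⟨j', ?_⟩
    have h4 : a ^ (((3 : ℕ) : ℤ) * i') = 1 := by rw [zpow_mul, zpow_natCast, ha3, one_zpow]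
    rw [hij, h4, one_mul]
    rfl
  obtain ⟨j, hj⟩ := hkerform (x * b * x⁻¹ * b⁻¹) (by
    rw [MonoidHom.mem_ker]
    simp only [map_mul, map_inv]
    rw [mul_comm (Φ x) (Φ b), mul_inv_cancel_right, mul_inv_cancel])
  obtain ⟨i, hi⟩ := hkerform (σ b * (a * b)⁻¹) (by
    rw [MonoidHom.mem_ker]
    simp only [map_mul, map_inv]
    rw [hσb, hΦa, hΦb]
    have h5 : τ * τ * τ = 1 := by
      have := hT3 τ
      rwa [pow_succ, pow_two] at this
    have h6 : τ⁻¹ = τ * τ := (eq_inv_of_mul_eq_one_left h5).symm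
    have h7 : (τ * τ) * (τ * τ)⁻¹ = 1 := mul_inv_cancel _
    ext
    · simp
    · simp
    · have h8 : τ * τ * (τ * τ * (τ * τ)) = (τ * τ * τ) * (τ * τ * τ) := by group
      simp only [Prod.mk_mul_mk, Prod.inv_mk, Prod.snd_one, h6, mul_inv_rev]
      rw [h8, h5, one_mul])
  have hc : Commute a b := hab
  have h1 : x * b * x⁻¹ = b ^ (3 * j + 1) := by
    rw [zpow_add, zpow_one, ← hj]; group
  have h2 : σ b = a * b ^ (3 * i + 1) := by
    have : σ b = b ^ (3 * i) * (a * b) := by rw [← hi]; group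
    rw [this, zpow_add, zpow_one, ← mul_assoc, ← mul_assoc, (hc.zpow_right (3 * i)).eq]
  have h3 : σ x = x * b := by rw [hb]; group
  have h4 : σ (x * b * x⁻¹) = a * b ^ ((3 * i + 1) * (3 * j + 1)) := by
    rw [h1, map_zpow, h2, (hc.zpow_right (3 * i + 1)).mul_zpow, ← zpow_mul]
    congr 1
    rw [zpow_add, zpow_one, zpow_mul]
    have : a ^ (3 : ℤ) = 1 := by exact_mod_cast ha3
    rw [this, one_zpow, one_mul]
  have h5 : σ (x * b * x⁻¹) = (x * a * x⁻¹) * b ^ ((3 * i + 1) * (3 * j + 1)) := by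
    rw [map_mul, map_mul, map_inv, h3, h2]
    have h6 : b * (a * b ^ (3 * i + 1)) * b⁻¹ = a * b ^ (3 * i + 1) := by
      rw [← mul_assoc, ← hc.eq]; group
    calc x * b * (a * b ^ (3 * i + 1)) * (x * b)⁻¹ = x * (b * (a * b ^ (3 * i + 1)) * b⁻¹) * x⁻¹ := by group
      _ = x * (a * b ^ (3 * i + 1)) * x⁻¹ := by rw [h6]
      _ = (x * a * x⁻¹) * (x * b * x⁻¹) ^ (3 * i + 1) := by rw [conj_zpow]; group
      _ = (x * a * x⁻¹) * b ^ ((3 * i + 1) * (3 * j + 1)) := by
        rw [h1, ← zpow_mul, mul_comm (3 * j + 1)]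
  rw [h4] at h5
  exact hza (mul_right_cancel h5).symm

theorem triple {P : Type u} [Group P] [Finite P] (hP : IsPGroup 3 P) (K : Subgroup P) [hKn : K.Normal]
    (hr : Cfsg.PRankLE 3 2 ↥K) {T : Type v} [CommGroup T] (hT : Nat.card T = 3) (e : P) (he : e ^ 3 = 1)
    (χ : ↥K →* T) (x : ↥K) (hx1 : χ x ≠ 1) (hx2 : χ (MulAut.conjNormal e x) = 1)
    (hx3 : χ (MulAut.conjNormal e (MulAut.conjNormal e x)) = 1)
    (E1 : Subgroup ↥K) (hE : Cfsg.IsElementaryAbelian 3 E1) (hE2 : Nat.card ↥E1 = 3 ^ 2)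
    (hE1 : ∀ a ∈ E1, MulAut.conjNormal e a = a) (hEχ : ∃ a ∈ E1, χ a ≠ 1) : False := by
  have hf3 : Fact (Nat.Prime 3) := ⟨Nat.prime_three⟩
  obtain ⟨A, hAK, hAn, hA, hA2⟩ := Cfsg.Agent.S0636.result (p := 3) (by norm_num) hP K (by
    intro hcyc
    have h1 : IsCyclic ↥E1 := inferInstance
    obtain ⟨t, ht⟩ := h1.exists_generator
    have h2 : orderOf t = Nat.card ↥E1 := orderOf_eq_card_of_forall_mem_zpowers ht
    have h3 : orderOf t ∣ 3 := orderOf_dvd_of_pow_eq_one (Subtype.ext (by simpa using hE.2 t t.2))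
    rw [h2, hE2] at h3
    revert h3; decide)
  have hidx := index_centralizer_dvd hP A hA hA2
  have hcomm : ∀ u v : P, ⁅u, v⁆ ∈ centralizer (A : Set P) := by
    intro u v
    have hn : (centralizer (A : Set P)).Normal := inferInstance
    have hq : Nat.card (P ⧸ centralizer (A : Set P)) ∣ 3 := hidx
    have hc : ∀ a b : P ⧸ centralizer (A : Set P), a * b = b * a := by
      rcases (Nat.dvd_prime Nat.prime_three).mp hq with h | h
      · have := (Nat.card_eq_one_iff_unique.mp h).1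
        intro a b
        exact Subsingleton.elim _ _
      · have := isCyclic_of_prime_card h
        intro a b
        let _ := IsCyclic.commGroup (α := P ⧸ centralizer (A : Set P))
        exact mul_comm a b
    have h1 := hc (QuotientGroup.mk' _ u) (QuotientGroup.mk' _ v)
    rw [← commutatorElement_eq_one_iff_mul_comm, ← map_commutatorElement] at h1
    exact (QuotientGroup.eq_one_iff _).mp h1
  have hA2' : Nat.card ↥(A.subgroupOf K) = 3 ^ 2 := by
    rw [← hA2]; exact Nat.card_congr (Subgroup.subgroupOfEquivOfLe hAK).toEquiv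
  apply tripleK (hP.to_subgroup K) hr hT (MulAut.conjNormal e) (by
      intro k
      apply Subtype.ext
      rw [MulAut.conjNormal_apply, MulAut.conjNormal_apply, MulAut.conjNormal_apply]
      calc e * (e * (e * (k : P) * e⁻¹) * e⁻¹) * e⁻¹ = e ^ 3 * k * (e ^ 3)⁻¹ := by
            rw [pow_succ, pow_two]; group
        _ = k := by rw [he]; group) χ x hx1 hx2 hx3 (A.subgroupOf K) ⟨?_, ?_⟩ hA2' ?_ E1 hE hE2 hE1 hEχ
  · constructor
    constructor
    rintro ⟨a, ha⟩ ⟨b, hb⟩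
    apply Subtype.ext
    apply Subtype.ext
    exact Cfsg.Agent.Omega.Sec.Basic.comm_of hA.1 a ha b hb
  · intro a ha
    apply Subtype.ext
    simpa using hA.2 a ha
  · intro k
    rw [mem_centralizer_iff]
    intro a ha
    apply Subtype.ext
    have h1 := hcomm (k : P)⁻¹ e
    have h2 : ((k⁻¹ * MulAut.conjNormal e k : ↥K) : P) = ⁅(k : P)⁻¹, e⁆ := by
      rw [Subgroup.coe_mul, MulAut.conjNormal_apply, Subgroup.coe_inv, commutatorElement_def]
      group
    show (a : P) * ((k⁻¹ * MulAut.conjNormal e k : ↥K) : P) = ((k⁻¹ * MulAut.conjNormal e k : ↥K) : P) * a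
    rw [h2]
    exact mem_centralizer_iff.mp h1 _ ha

end Cfsg.Agent.H585.TripleC
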