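import Cfsg.Agent.H585.RankB
import Cfsg.Agent.H585.TripleC

/-!
# Elements of order three moving a four-group
-/

set_option autoImplicit false

namespace Cfsg.Agent.H585.MoveFour

open Subgroup Cfsg.Agent.H585.ModTwo Cfsg.Agent.H585.PCentral Cfsg.Agent.H585.RankB
open scoped commutatorElement Pointwise

universe u
variable {S : Type u} [Group S] [Finite S]

variable {M : Subgroup S} (hM : Hyp M)

omit [Finite S] in
theorem mem_normalizer_cm {y g : S} : g ∈ normalizer ((cm hM y : Subgroup S) : Set S) ↔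
    cm hM (g * y * g⁻¹) = cm hM y := by
  rw [mem_normalizer_iff]
  constructor
  · intro h
    ext v
    have h1 : v = g * (g⁻¹ * v * g) * g⁻¹ := by group
    rw [h1, conj_mem_cm_iff hM, h]
  · intro h v
    rw [← conj_mem_cm_iff hM (g := g), h]

omit [Finite S] in
theorem card_cm_conj (y g : S) : Nat.card ↥(cm hM (g * y * g⁻¹)) = Nat.card ↥(cm hM y) := by
  rw [← cm_map_conj]
  exact Subgroup.card_map_of_injective (MulEquiv.injective (MulAut.conj g))

include hM in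
/-- The character of an `r`-group acting on `V`. -/
theorem exists_char {r d : ℕ} (hrd : RD r d) {R : Type u} [Group R] [Finite R] (hR : IsPGroup r R) (φ : R →* S)
    {V : Subgroup S} (hV : V ≤ M) (hVc : Nat.card ↥V = 2 ^ d) (hN : φ.range ≤ normalizer (V : Set S))
    (hx : ∃ x, φ x ∉ centralizer (V : Set S)) :
    ∃ χ : R →* Multiplicative (ZMod r), ∀ y, χ y = 1 ↔ φ y ∈ centralizer (V : Set S) := by
  have hrp := hrd.prime
  have : Fact r.Prime := ⟨hrp⟩
  let N : Subgroup R := (centralizer (V : Set S)).comap φ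
  have hNmem : ∀ y, y ∈ N ↔ φ y ∈ centralizer (V : Set S) := fun y => Iff.rfl
  have hNn : N.Normal := by
    constructor
    intro x hx g
    rw [hNmem, mem_centralizer_iff] at hx ⊢
    intro v hv
    have h1 := mem_normalizer_iff.mp (inv_mem (hN ⟨g, rfl⟩))
    have h2 : (φ g)⁻¹ * v * φ g ∈ V := by
      have := (h1 v).mp hv
      simpa using this
    have h3 := hx _ h2
    rw [map_mul, map_mul, map_inv]
    calc v * (φ g * φ x * (φ g)⁻¹) = φ g * (((φ g)⁻¹ * v * φ g) * φ x) * (φ g)⁻¹ := by group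
      _ = φ g * (φ x * ((φ g)⁻¹ * v * φ g)) * (φ g)⁻¹ := by rw [h3]
      _ = _ := by group
  have hcard : Nat.card (R ⧸ N) = r := by
    have h0 : IsPGroup r ↥φ.range := by
      have := hR.of_surjective φ.rangeRestrict φ.rangeRestrict_surjective
      exact this
    have h1 := relIndex_dvd hM hrd h0 hV hVc hN
    have h2 : N.index = (centralizer (V : Set S)).relIndex φ.range := Subgroup.index_comap _ _
    rw [← h2] at h1
    rcases (Nat.dvd_prime hrp).mp h1 with h3 | h3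
    · exfalso
      rw [Subgroup.index_eq_one] at h3
      obtain ⟨x, hx⟩ := hx
      apply hx
      rw [← hNmem, h3]
      exact mem_top _
    · exact h3
  have hc2 : Nat.card (Multiplicative (ZMod r)) = r := by
    rw [Nat.card_congr Multiplicative.toAdd, Nat.card_zmod]
  let e : (R ⧸ N) ≃* Multiplicative (ZMod r) := mulEquivOfPrimeCardEq hcard hc2
  refine ⟨e.toMonoidHom.comp (QuotientGroup.mk' N), ?_⟩
  intro x
  show e (QuotientGroup.mk' N x) = 1 ↔ _
  rw [← hNmem, ← QuotientGroup.eq_one_iff (N := N) x]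
  constructor
  · intro h
    exact e.injective (h.trans e.map_one.symm)
  · intro h
    show e ((x : R ⧸ N)) = 1
    rw [h, map_one]

omit [Finite S] in
theorem zpowers_isPGroup_of_conj {r : ℕ} {t g : S} (h : IsPGroup r ↥(zpowers t)) :
    IsPGroup r ↥(zpowers (g * t * g⁻¹)) := by
  intro w
  obtain ⟨m, hm⟩ := mem_zpowers_iff.mp w.2
  obtain ⟨c, hc⟩ := h ⟨t ^ m, zpow_mem (mem_zpowers _) m⟩
  refine ⟨c, Subtype.ext ?_⟩
  have h3 : (t ^ m) ^ r ^ c = 1 := by simpa using congrArg Subtype.val hc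
  show (w : S) ^ r ^ c = 1
  rw [← hm, conj_zpow, conj_pow, h3]
  group

omit [Finite S] in
theorem zpowers_isPGroup {r : ℕ} {P : Subgroup S} (hP : IsPGroup r ↥P) {t : S} (ht : t ∈ P) :
    IsPGroup r ↥(zpowers t) := by
  apply hP.to_le
  rw [zpowers_le]; exact ht

/-- Four different conjugates. -/
theorem four {r d : ℕ} (hrd : RD r d) (H : Subgroup S) {t : S} (htp : IsPGroup r ↥(zpowers t))
    (htr : t ^ r ∈ centralizer (M : Set S)) (hcard : Nat.card ↥(cm hM t) = 2 ^ d) (htH : t ∈ H)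
    (hcomm : ∀ g ∈ H, ⁅t, g * t * g⁻¹⁆ ∈ centralizer (M : Set S))
    (g : Fin 4 → S) (hg : ∀ i, g i ∈ H) (hg0 : g 0 = 1)
    (hne : ∀ i j, i ≠ j → cm hM (g i * t * (g i)⁻¹) ≠ cm hM (g j * t * (g j)⁻¹)) :
    ∃ F : Subgroup S, F ≤ H ∧ Cfsg.IsElementaryAbelian r F ∧ Nat.card ↥F = r ^ 3 ∧
      ¬ IsCyclic ↥(F ⊓ centralizer ((cm hM t : Subgroup S) : Set S)) := by
  have hMn := hM.normal
  have hCn : (centralizer (M : Set S)).Normal := inferInstance
  have h := RankB.main hM hrd H (fun i => g i * t * (g i)⁻¹)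
    (fun i => mul_mem (mul_mem (hg i) htH) (inv_mem (hg i)))
    (fun i => zpowers_isPGroup_of_conj htp)
    (fun i => by rw [conj_pow]; exact hCn.conj_mem _ htr _)
    (fun i => by rw [card_cm_conj, hcard])
    (fun i j => by
      have h1 := hCn.conj_mem _ (hcomm ((g i)⁻¹ * g j) (mul_mem (inv_mem (hg i)) (hg j))) (g i)
      have h2 : g i * ⁅t, (g i)⁻¹ * g j * t * ((g i)⁻¹ * g j)⁻¹⁆ * (g i)⁻¹ =
          ⁅g i * t * (g i)⁻¹, g j * t * (g j)⁻¹⁆ := by
        rw [commutatorElement_def, commutatorElement_def]; group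
      rwa [h2] at h1)
    hne
  have h0 : g 0 * t * (g 0)⁻¹ = t := by rw [hg0]; group
  have h' := h
  beta_reduce at h'
  rw [h0] at h'
  exact h'

/-- An element of prime order at least five moving `[M, t]`. -/
theorem four_of_large {r d : ℕ} (hrd : RD r d) (H : Subgroup S) {t : S} (htp : IsPGroup r ↥(zpowers t))
    (htr : t ^ r ∈ centralizer (M : Set S)) (hcard : Nat.card ↥(cm hM t) = 2 ^ d) (htH : t ∈ H)
    (hcomm : ∀ g ∈ H, ⁅t, g * t * g⁻¹⁆ ∈ centralizer (M : Set S))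
    {p : ℕ} (hp : p.Prime) (hp5 : 5 ≤ p) {e : S} (heH : e ∈ H) (hep : e ^ p = 1)
    (heN : e ∉ normalizer ((cm hM t : Subgroup S) : Set S)) :
    ∃ F : Subgroup S, F ≤ H ∧ Cfsg.IsElementaryAbelian r F ∧ Nat.card ↥F = r ^ 3 ∧
      ¬ IsCyclic ↥(F ⊓ centralizer ((cm hM t : Subgroup S) : Set S)) := by
  have hkey : ∀ n : ℕ, 0 < n → n < p → e ^ n ∉ normalizer ((cm hM t : Subgroup S) : Set S) := by
    intro n hn0 hn hmem
    apply heN
    have hcop : IsCoprime (n : ℤ) (p : ℤ) := by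
      rw [Nat.isCoprime_iff_coprime]
      exact (Nat.coprime_of_lt_prime (by omega) hn hp).symm
    obtain ⟨α, β, hαβ⟩ := hcop
    have : e = (e ^ n) ^ α := by
      calc e = e ^ (1 : ℤ) := (zpow_one e).symm
        _ = e ^ (α * n + β * p) := by rw [hαβ]
        _ = e ^ ((n : ℤ) * α) * (e ^ (p : ℤ)) ^ β := by rw [zpow_add, mul_comm α, mul_comm β, zpow_mul e (p : ℤ)]
        _ = (e ^ n) ^ α := by rw [zpow_natCast, hep, one_zpow, mul_one, zpow_mul, zpow_natCast]
    rw [this]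
    exact zpow_mem hmem α
  have hlt : ∀ i j : Fin 4, i < j → cm hM (e ^ (i : ℕ) * t * (e ^ (i : ℕ))⁻¹) ≠ cm hM (e ^ (j : ℕ) * t * (e ^ (j : ℕ))⁻¹) := by
    intro i j hij hcon
    have hij' : (i : ℕ) < (j : ℕ) := hij
    have hj4 := j.2
    apply hkey ((j : ℕ) - (i : ℕ)) (by omega) (by omega)
    rw [mem_normalizer_cm]
    have h1 := congrArg (fun W : Subgroup S => W.map (MulAut.conj (e ^ (i : ℕ))⁻¹).toMonoidHom) hcon
    simp only [cm_map_conj] at h1
    have h2 : (e ^ (i : ℕ))⁻¹ * (e ^ (i : ℕ) * t * (e ^ (i : ℕ))⁻¹) * ((e ^ (i : ℕ))⁻¹)⁻¹ = t := by group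
    have h3 : (e ^ (i : ℕ))⁻¹ * (e ^ (j : ℕ) * t * (e ^ (j : ℕ))⁻¹) * ((e ^ (i : ℕ))⁻¹)⁻¹ =
        e ^ ((j : ℕ) - (i : ℕ)) * t * (e ^ ((j : ℕ) - (i : ℕ)))⁻¹ := by
      have h4 : e ^ (j : ℕ) = e ^ (i : ℕ) * e ^ ((j : ℕ) - (i : ℕ)) := by
        rw [← pow_add]; congr 1; omega
      rw [h4]; group
    rw [h2, h3] at h1
    exact h1.symm
  apply four hM hrd H htp htr hcard htH hcomm (fun i => e ^ (i : ℕ)) (fun i => pow_mem heH _) (by simp)
  intro i j hij
  rcases lt_or_gt_of_ne hij with h | h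
  · exact hlt i j h
  · exact (hlt j i h).symm

theorem comm_conj_of_pgroup {r d : ℕ} (hrd : RD r d) {P : Subgroup S} (hP : IsPGroup r ↥P) {t : S} (htP : t ∈ P)
    (hcard : Nat.card ↥(cm hM t) = 2 ^ d) : ∀ g ∈ P, ⁅t, g * t * g⁻¹⁆ ∈ centralizer (M : Set S) := by
  intro g hg
  apply comm_mem_of_pgroup hM hrd (y := t) (y' := g * t * g⁻¹)
  · apply hP.to_le
    rw [closure_le]
    rintro w hw
    simp only [Set.mem_insert_iff, Set.mem_singleton_iff] at hw
    rcases hw with rfl | rfl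
    · exact htP
    · exact mul_mem (mul_mem hg htP) (inv_mem hg)
  · exact hcard
  · rw [card_cm_conj, hcard]

theorem cent_of_ne {r d : ℕ} (hrd : RD r d) {y y' : S} (hy : y ^ r ∈ centralizer (M : Set S))
    (hy' : y' ^ r ∈ centralizer (M : Set S)) (hc : Nat.card ↥(cm hM y) = 2 ^ d)
    (hc' : Nat.card ↥(cm hM y') = 2 ^ d) (h : ⁅y, y'⁆ ∈ centralizer (M : Set S)) (hne : cm hM y ≠ cm hM y') :
    y' ∈ centralizer ((cm hM y : Subgroup S) : Set S) := by
  have h1 := disjoint_of_ne hM hrd hy hy' hc hc' h hne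
  have h' : ⁅y', y⁆ ∈ centralizer (M : Set S) := by
    rw [← commutatorElement_inv]; exact inv_mem h
  rw [mem_centralizer_iff]
  intro v hv
  have h2 := commute_of_disjoint hM (cm_le hM y) (fun u hu => conj_mem_cm_of_comm hM h' hu)
    (by rw [inf_comm]; exact h1) hv
  exact (mul_inv_eq_iff_eq_mul.mp h2).symm

omit [Finite S] in
theorem elem_map {R : Type*} [Group R] {r : ℕ} {F : Subgroup R} (hF : Cfsg.IsElementaryAbelian r F) (φ : R →* S) :
    Cfsg.IsElementaryAbelian r (F.map φ) := by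
  refine ⟨?_, ?_⟩
  · constructor
    constructor
    rintro ⟨_, ⟨a, ha, rfl⟩⟩ ⟨_, ⟨b, hb, rfl⟩⟩
    apply Subtype.ext
    have := hF.1.is_comm.comm ⟨a, ha⟩ ⟨b, hb⟩
    have h2 : a * b = b * a := congrArg Subtype.val this
    show φ a * φ b = φ b * φ a
    rw [← map_mul, ← map_mul, h2]
  · rintro _ ⟨a, ha, rfl⟩
    rw [← map_pow, hF.2 a ha, map_one]

/-- The case `p = 3`. -/
theorem case3 {P : Subgroup S} (hP : IsPGroup 3 ↥P) {x : S} (hxP : x ∈ P)
    (hx3 : x ^ 3 ∈ centralizer (M : Set S)) (hcard : Nat.card ↥(cm hM x) = 4) {E : Subgroup S} (hEP : E ≤ P)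
    (hE : Cfsg.IsElementaryAbelian 3 E) (hE3 : Nat.card ↥E = 3 ^ 3) :
    ∃ F : Subgroup S, Cfsg.IsElementaryAbelian 3 F ∧ Nat.card ↥F = 3 ^ 3 ∧
      ¬ IsCyclic ↥(F ⊓ centralizer ((cm hM x : Subgroup S) : Set S)) := by
  have hf3 : Fact (Nat.Prime 3) := ⟨Nat.prime_three⟩
  have hrd : RD 3 2 := Or.inl ⟨rfl, rfl⟩
  have hcard' : Nat.card ↥(cm hM x) = 2 ^ 2 := hcard
  by_cases hEN : E ≤ normalizer ((cm hM x : Subgroup S) : Set S)
  · exact ⟨E, hE, hE3, noncyclic_of hM hrd hE hE3 (cm_le hM x) hcard' hEN⟩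
  obtain ⟨e, heE, heN⟩ := SetLike.not_le_iff_exists.mp hEN
  have heP : e ∈ P := hEP heE
  have he3 : e ^ 3 = 1 := hE.2 e heE
  have hcomm := comm_conj_of_pgroup hM hrd hP hxP hcard'
  have hMn := hM.normal
  have hCn : (centralizer (M : Set S)).Normal := inferInstance
  have hcomm2 : ∀ g ∈ P, ∀ h ∈ P, ⁅g * x * g⁻¹, h * x * h⁻¹⁆ ∈ centralizer (M : Set S) := by
    intro g hg h hh
    have h1 := hCn.conj_mem _ (hcomm (g⁻¹ * h) (mul_mem (inv_mem hg) hh)) g
    have h2 : g * ⁅x, g⁻¹ * h * x * (g⁻¹ * h)⁻¹⁆ * g⁻¹ = ⁅g * x * g⁻¹, h * x * h⁻¹⁆ := by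
      rw [commutatorElement_def, commutatorElement_def]; group
    rwa [h2] at h1
  -- powers of `e`
  have heN2 : e ^ 2 ∉ normalizer ((cm hM x : Subgroup S) : Set S) := by
    intro h
    apply heN
    have h1 : e = (e ^ 2) ^ 2 := by
      calc e = e ^ 3 * e := by rw [he3, one_mul]
        _ = (e ^ 2) ^ 2 := by group
    rw [h1]
    exact pow_mem h 2
  have hne1 : cm hM (e * x * e⁻¹) ≠ cm hM x := fun h => heN ((mem_normalizer_cm hM).mpr h)
  have hne2 : cm hM (e ^ 2 * x * (e ^ 2)⁻¹) ≠ cm hM x := fun h => heN2 ((mem_normalizer_cm hM).mpr h)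
  have hne3 : cm hM (e ^ 2 * x * (e ^ 2)⁻¹) ≠ cm hM (e * x * e⁻¹) := by
    intro h
    apply hne1
    have h1 := congrArg (fun W : Subgroup S => W.map (MulAut.conj e⁻¹).toMonoidHom) h
    simp only [cm_map_conj] at h1
    have h2 : e⁻¹ * (e ^ 2 * x * (e ^ 2)⁻¹) * e⁻¹⁻¹ = e * x * e⁻¹ := by group
    have h3 : e⁻¹ * (e * x * e⁻¹) * e⁻¹⁻¹ = x := by group
    rwa [h2, h3] at h1
  by_cases hfour : ∃ g ∈ P, cm hM (g * x * g⁻¹) ≠ cm hM x ∧ cm hM (g * x * g⁻¹) ≠ cm hM (e * x * e⁻¹) ∧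
      cm hM (g * x * g⁻¹) ≠ cm hM (e ^ 2 * x * (e ^ 2)⁻¹)
  · obtain ⟨g, hgP, hg0, hg1, hg2⟩ := hfour
    have hxx : (1 : S) * x * (1 : S)⁻¹ = x := by group
    obtain ⟨F, _, hF⟩ := four hM hrd P (zpowers_isPGroup hP hxP) hx3 hcard' hxP hcomm ![1, e, e ^ 2, g]
      (by
        intro i
        fin_cases i
        · exact one_mem _
        · exact heP
        · exact pow_mem heP 2
        · exact hgP)
      rfl
      (by
        intro i j hij
        fin_cases i <;> fin_cases j <;>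
          simp only [Fin.zero_eta, Fin.mk_one, Fin.reduceFinMk, ne_eq, not_true_eq_false] at hij <;>
          simp only [Fin.zero_eta, Fin.mk_one, Fin.reduceFinMk, Matrix.cons_val, Matrix.cons_val_zero,
            Matrix.cons_val_one, hxx]
        · exact hne1.symm
        · exact hne2.symm
        · exact hg0.symm
        · exact hne1
        · exact hne3.symm
        · exact hg1.symm
        · exact hne2
        · exact hne3
        · exact hg2.symm
        · exact hg0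
        · exact hg1
        · exact hg2)
    exact ⟨F, hF⟩
  · push Not at hfour
    have hmap : ∀ g u v : S, cm hM u = cm hM v → cm hM (g * u * g⁻¹) = cm hM (g * v * g⁻¹) := by
      intro g u v h
      rw [← cm_map_conj, ← cm_map_conj, h]
    have hEc : ∀ a ∈ E, ∀ b ∈ E, a * b = b * a := Cfsg.Agent.Omega.Sec.Basic.comm_of hE.1
    have hV4 : (cm hM x : Subgroup S) ≠ ⊥ := by
      intro h
      rw [h, Subgroup.card_bot] at hcard
      omega
    obtain ⟨K, hK⟩ : ∃ K : Subgroup ↥P, K = ⨅ g : ↥P,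
      (normalizer ((cm hM ((g : S) * x * (g : S)⁻¹) : Subgroup S) : Set S)).comap P.subtype := ⟨_, rfl⟩
    have hKmem : ∀ k : ↥P, k ∈ K ↔ ∀ g : ↥P,
        (k : S) ∈ normalizer ((cm hM ((g : S) * x * (g : S)⁻¹) : Subgroup S) : Set S) := by
      intro k
      rw [hK, Subgroup.mem_iInf]
      rfl
    have hKn : K.Normal := by
      constructor
      intro k hk h
      rw [hKmem] at hk ⊢
      intro g
      have h1 := hk (h⁻¹ * g)
      rw [mem_normalizer_cm] at h1 ⊢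
      have h2 := hmap (h : S) _ _ h1
      have e1 : (h : S) * ((k : S) * (((h⁻¹ * g : ↥P) : S) * x * ((h⁻¹ * g : ↥P) : S)⁻¹) * (k : S)⁻¹) * (h : S)⁻¹ =
          ((h * k * h⁻¹ : ↥P) : S) * ((g : S) * x * (g : S)⁻¹) * ((h * k * h⁻¹ : ↥P) : S)⁻¹ := by
        simp only [Subgroup.coe_mul, Subgroup.coe_inv]; group
      have e2 : (h : S) * (((h⁻¹ * g : ↥P) : S) * x * ((h⁻¹ * g : ↥P) : S)⁻¹) * (h : S)⁻¹ = (g : S) * x * (g : S)⁻¹ := by
        simp only [Subgroup.coe_mul, Subgroup.coe_inv]; group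
      rwa [e1, e2] at h2
    let φ : ↥K →* S := P.subtype.comp K.subtype
    have hφ : Function.Injective φ := P.subtype_injective.comp K.subtype_injective
    have hφN : φ.range ≤ normalizer ((cm hM x : Subgroup S) : Set S) := by
      rintro _ ⟨k, rfl⟩
      have h1 := (hKmem k).mp k.2 1
      have h2 : ((1 : ↥P) : S) * x * ((1 : ↥P) : S)⁻¹ = x := by simp
      rwa [h2] at h1
    have hKp : IsPGroup 3 ↥K := hP.to_subgroup K
    by_cases hrank : ∃ F' : Subgroup ↥K, Cfsg.IsElementaryAbelian 3 F' ∧ Nat.card ↥F' = 3 ^ 3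
    · obtain ⟨F', hF', hF'3⟩ := hrank
      have hc3 : Nat.card ↥(F'.map φ) = 3 ^ 3 := by rw [Subgroup.card_map_of_injective hφ, hF'3]
      refine ⟨F'.map φ, elem_map hF' φ, hc3, noncyclic_of hM hrd (elem_map hF' φ) hc3 (cm_le hM x) hcard' ?_⟩
      rintro _ ⟨k, _, rfl⟩
      exact hφN ⟨k, rfl⟩
    have hr := pRankLE_two_of hrank
    -- `x ∈ K`
    have hxK : (⟨x, hxP⟩ : ↥P) ∈ K := by
      rw [hKmem]
      intro g
      apply Subgroup.mem_normalizer_fintype
      intro v hv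
      exact conj_mem_cm_of_comm hM (hcomm g g.2) hv
    have hxcent : x ∉ centralizer ((cm hM x : Subgroup S) : Set S) := by
      intro h
      apply hV4
      rw [eq_bot_iff]
      intro v hv
      rw [mem_bot]
      apply eq_one_of_commute hM (r := 3) (by decide) hx3 hv
      rw [← mem_centralizer_iff.mp h v hv]; group
    obtain ⟨χ, hχ⟩ := exists_char hM hrd hKp φ (cm_le hM x) hcard' hφN ⟨⟨⟨x, hxP⟩, hxK⟩, hxcent⟩
    -- `N0 = E ∩ N(V)` of order `9`
    obtain ⟨N0, hN0⟩ : ∃ N0 : Subgroup S, N0 = E ⊓ normalizer ((cm hM x : Subgroup S) : Set S) := ⟨_, rfl⟩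
    have hN0E : N0 ≤ E := by rw [hN0]; exact inf_le_left
    have hcover : ∀ f ∈ E, ∃ i : Fin 3, (e ^ (i : ℕ))⁻¹ * f ∈ N0 := by
      intro f hf
      have hcases : cm hM (f * x * f⁻¹) = cm hM x ∨ cm hM (f * x * f⁻¹) = cm hM (e * x * e⁻¹) ∨
          cm hM (f * x * f⁻¹) = cm hM (e ^ 2 * x * (e ^ 2)⁻¹) := by
        by_contra hcon
        push Not at hcon
        exact hcon.2.2 (hfour f (hEP hf) hcon.1 hcon.2.1)
      rw [hN0]
      rcases hcases with h | h | h
      · refine ⟨0, E.mul_mem (E.inv_mem (E.pow_mem heE _)) hf, ?_⟩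
        show (e ^ 0)⁻¹ * f ∈ normalizer ((cm hM x : Subgroup S) : Set S)
        rw [mem_normalizer_cm, pow_zero, inv_one, one_mul, h]
      · refine ⟨1, E.mul_mem (E.inv_mem (E.pow_mem heE _)) hf, ?_⟩
        show (e ^ 1)⁻¹ * f ∈ normalizer ((cm hM x : Subgroup S) : Set S)
        rw [mem_normalizer_cm]
        have h1 := hmap (e ^ 1)⁻¹ _ _ h
        have e1 : (e ^ 1)⁻¹ * (f * x * f⁻¹) * (e ^ 1)⁻¹⁻¹ = (e ^ 1)⁻¹ * f * x * ((e ^ 1)⁻¹ * f)⁻¹ := by group
        have e2 : (e ^ 1)⁻¹ * (e * x * e⁻¹) * (e ^ 1)⁻¹⁻¹ = x := by group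
        rwa [e1, e2] at h1
      · refine ⟨2, E.mul_mem (E.inv_mem (E.pow_mem heE _)) hf, ?_⟩
        show (e ^ 2)⁻¹ * f ∈ normalizer ((cm hM x : Subgroup S) : Set S)
        rw [mem_normalizer_cm]
        have h1 := hmap (e ^ 2)⁻¹ _ _ h
        have e1 : (e ^ 2)⁻¹ * (f * x * f⁻¹) * (e ^ 2)⁻¹⁻¹ = (e ^ 2)⁻¹ * f * x * ((e ^ 2)⁻¹ * f)⁻¹ := by group
        have e2 : (e ^ 2)⁻¹ * (e ^ 2 * x * (e ^ 2)⁻¹) * (e ^ 2)⁻¹⁻¹ = x := by group
        rwa [e1, e2] at h1
    have hN0c : Nat.card ↥N0 = 3 ^ 2 := by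
      have h1 : Nat.card ↥E ≤ Nat.card (Fin 3 × ↥N0) := by
        have hs : Function.Surjective (fun w : Fin 3 × ↥N0 =>
            (⟨e ^ (w.1 : ℕ) * (w.2 : S), mul_mem (pow_mem heE _) (hN0E w.2.2)⟩ : ↥E)) := by
          rintro ⟨f, hf⟩
          obtain ⟨i, hi⟩ := hcover f hf
          exact ⟨(i, ⟨_, hi⟩), Subtype.ext (mul_inv_cancel_left _ _)⟩
        exact Nat.card_le_card_of_surjective _ hs
      rw [Nat.card_prod, Nat.card_eq_fintype_card (α := Fin 3), Fintype.card_fin, hE3] at h1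
      have h2 : Nat.card ↥N0 ∣ 3 ^ 3 := by rw [← hE3]; exact Subgroup.card_dvd_of_le hN0E
      obtain ⟨k, hk, hk2⟩ := (Nat.dvd_prime_pow Nat.prime_three).mp h2
      have hk3 : k ≠ 3 := by
        rintro rfl
        have h3 : N0 = E := Subgroup.eq_of_le_of_card_ge hN0E (by rw [hk2, hE3])
        rw [← h3, hN0] at heE
        exact heN heE.2
      have hk4 : k = 2 := by
        by_contra h
        have h5 : 3 ^ k ≤ 3 ^ 1 := Nat.pow_le_pow_right (by norm_num) (by omega)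
        rw [hk2] at h1
        omega
      rw [hk2, hk4]
    have hN0K : ∀ f ∈ N0, ∃ k : ↥K, φ k = f := by
      intro f hf
      have hfE := hN0E hf
      have hfN : f ∈ normalizer ((cm hM x : Subgroup S) : Set S) := by rw [hN0] at hf; exact hf.2
      have hfK : (⟨f, hEP hfE⟩ : ↥P) ∈ K := by
        rw [hKmem]
        intro g
        rw [mem_normalizer_cm] at hfN
        have hEi : ∀ u ∈ E, f ∈ normalizer ((cm hM (u * x * u⁻¹) : Subgroup S) : Set S) := by
          intro u hu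
          rw [mem_normalizer_cm]
          have h1 := hmap u _ _ hfN
          have e1 : u * (f * x * f⁻¹) * u⁻¹ = f * (u * x * u⁻¹) * f⁻¹ := by
            have h2 := hEc u hu f hfE
            calc u * (f * x * f⁻¹) * u⁻¹ = (u * f) * x * (u * f)⁻¹ := by group
              _ = (f * u) * x * (f * u)⁻¹ := by rw [h2]
              _ = _ := by group
          rwa [e1] at h1
        by_cases c0 : cm hM ((g : S) * x * (g : S)⁻¹) = cm hM x
        · rw [c0, mem_normalizer_cm]; exact hfN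
        by_cases c1 : cm hM ((g : S) * x * (g : S)⁻¹) = cm hM (e * x * e⁻¹)
        · rw [c1]; exact hEi e heE
        rw [hfour g g.2 c0 c1]
        exact hEi _ (pow_mem heE 2)
      exact ⟨⟨⟨f, hEP hfE⟩, hfK⟩, rfl⟩
    have hmapN0 : (N0.comap φ).map φ = N0 := by
      ext f
      constructor
      · rintro ⟨k, hk, rfl⟩
        exact hk
      · intro hf
        obtain ⟨k, rfl⟩ := hN0K f hf
        exact ⟨k, hf, rfl⟩
    have hE1c : Nat.card ↥(N0.comap φ) = 3 ^ 2 := by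
      rw [← hN0c]
      conv_rhs => rw [← hmapN0]
      rw [Subgroup.card_map_of_injective hφ]
    by_cases hall : ∀ a ∈ N0.comap φ, χ a = 1
    · refine ⟨E, hE, hE3, ?_⟩
      apply not_isCyclic_of (r := 3) (X := E ⊓ centralizer ((cm hM x : Subgroup S) : Set S)) (fun w hw => hE.2 w hw.1)
      rw [← hN0c]
      apply Subgroup.card_le_of_le
      intro f hf
      refine ⟨hN0E hf, ?_⟩
      obtain ⟨k, rfl⟩ := hN0K f hf
      exact (hχ k).mp (hall k hf)
    push Not at hall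
    exfalso
    have hxe : ∀ u ∈ E, cm hM (u * x * u⁻¹) ≠ cm hM x → u * x * u⁻¹ ∈ centralizer ((cm hM x : Subgroup S) : Set S) := by
      intro u hu hne
      apply cent_of_ne hM hrd hx3 _ hcard' _ (hcomm u (hEP hu)) (fun h => hne h.symm)
      · rw [conj_pow]; exact hCn.conj_mem _ hx3 _
      · rw [card_cm_conj, hcard']
    have hcT : Nat.card (Multiplicative (ZMod 3)) = 3 := by
      rw [Nat.card_congr Multiplicative.toAdd, Nat.card_zmod]
    apply TripleC.triple (P := ↥P) hP K hr hcT ⟨e, heP⟩ (Subtype.ext (by simpa using he3)) χ ⟨⟨x, hxP⟩, hxK⟩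
      (fun h => hxcent ((hχ _).mp h)) ?_ ?_ (N0.comap φ) ⟨?_, ?_⟩ hE1c ?_ hall
    · rw [hχ]
      show ((MulAut.conjNormal (⟨e, heP⟩ : ↥P) (⟨⟨x, hxP⟩, hxK⟩ : ↥K) : ↥P) : S) ∈ _
      rw [MulAut.conjNormal_apply]
      exact hxe e heE hne1
    · rw [hχ]
      show ((MulAut.conjNormal (⟨e, heP⟩ : ↥P) (MulAut.conjNormal (⟨e, heP⟩ : ↥P) (⟨⟨x, hxP⟩, hxK⟩ : ↥K)) : ↥P) : S) ∈ _
      rw [MulAut.conjNormal_apply, MulAut.conjNormal_apply]
      have h1 := hxe (e ^ 2) (pow_mem heE 2) hne2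
      have h2 : e ^ 2 * x * (e ^ 2)⁻¹ = e * (e * x * e⁻¹) * e⁻¹ := by rw [pow_two]; group
      rw [h2] at h1
      exact h1
    · constructor
      constructor
      rintro ⟨a, ha⟩ ⟨b, hb⟩
      apply Subtype.ext
      apply hφ
      show φ (a * b) = φ (b * a)
      rw [map_mul, map_mul]
      exact hEc _ (hN0E ha) _ (hN0E hb)
    · intro a ha
      apply hφ
      rw [map_pow, map_one]
      exact hE.2 _ (hN0E ha)
    · intro a ha
      apply hφ
      show ((MulAut.conjNormal (⟨e, heP⟩ : ↥P) a : ↥P) : S) = φ a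
      rw [MulAut.conjNormal_apply]
      show e * φ a * e⁻¹ = φ a
      rw [hEc e heE _ (hN0E ha)]; group

end Cfsg.Agent.H585.MoveFour
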