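import Cfsg.Prelude.Def_CaseTheorems
import Cfsg.Prelude.Def_Transfer
import Cfsg.Agent.Lib.NormalElementary
import Cfsg.Agent.Omega.Sec.Basic
import Cfsg.Agent.Lib.ElemAbGL
import Cfsg.Agent.S0636

/-!
# Finite `p`-groups (`p` odd) all of whose elements of order `p` are central

* `commutator_pow_eq_one`: if all elements of order `p` are central, `x ^ (p ^ 2) = 1` implies `⁅x, g⁆ ^ p = 1`.
* `card_le_omega` (Thompson): an elementary abelian quotient `T` of `G` satisfies `|T| ≤ |Ω₁(G)|`.
* `exists_rank_three`: a finite `p`-group, `p` odd, with an elementary abelian quotient of order at least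
  `p ^ 4` contains an elementary abelian subgroup of order `p ^ 3`.
-/

set_option autoImplicit false

namespace Cfsg.Agent.H585.PCentral

open Subgroup
open scoped commutatorElement

universe u v

variable {G : Type u} [Group G]

theorem comm_pow_aux [Finite G] {p : ℕ} [Fact p.Prime] (hp : p ≠ 2) (hG : IsPGroup p G)
    (hc : ∀ x : G, x ^ p = 1 → ∀ g : G, Commute x g) :
    ∀ n : ℕ, ∀ x g : G, x ^ (p ^ 2) = 1 → Nat.card (closure ({x, g} : Set G)) ≤ n → ⁅x, g⁆ ^ p = 1 := by
  intro n
  induction n with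
  | zero =>
    intro x g _ h
    have : 0 < Nat.card (closure ({x, g} : Set G)) := Nat.card_pos
    omega
  | succ n ih =>
    intro x g hx hle
    by_cases hcm : Commute x g
    · rw [commutatorElement_eq_one_iff_commute.mpr hcm, one_pow]
    have hlt := Cfsg.Agent.Lib.NormalElementary.card_closure_pair_lt hG hcm
    have h1 := ih x (g * x * g⁻¹) hx (by omega)
    -- `X = x`, `Y = g x⁻¹ g⁻¹`
    have hcl : closure ({x, g * x⁻¹ * g⁻¹} : Set G) ≤ closure ({x, g * x * g⁻¹} : Set G) := by
      rw [closure_le]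
      rintro w (rfl | hw)
      · exact subset_closure (by simp)
      · rw [Set.mem_singleton_iff] at hw
        have : w = (g * x * g⁻¹)⁻¹ := by rw [hw]; group
        rw [this]
        exact inv_mem (subset_closure (by simp))
    have h2 := ih x (g * x⁻¹ * g⁻¹) hx (by
      have := Subgroup.card_le_of_le hcl
      omega)
    set y := g * x⁻¹ * g⁻¹ with hy
    have hcp : (y⁻¹ * x⁻¹ * y * x) ^ p = 1 := by
      have : y⁻¹ * x⁻¹ * y * x = (y⁻¹ * x⁻¹) * ⁅x, y⁆⁻¹ * (y⁻¹ * x⁻¹)⁻¹ := by
        rw [commutatorElement_def]; group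
      rw [this, conj_pow, inv_pow, h2]; group
    have hcc := hc _ hcp
    have h3 := Cfsg.Agent.Lib.NormalElementary.mul_pow_prime_of_swap hp (x := x) (y := y)
      (c := y⁻¹ * x⁻¹ * y * x) (by group) (hcc _) (hcc _) hcp
    have hxp : Commute (x ^ p) g := by
      apply hc
      rw [← pow_mul, ← pow_two]; exact hx
    have h4 : y ^ p = (x ^ p)⁻¹ := by
      rw [hy, conj_pow, inv_pow, ← (hxp.inv_left).eq]; group
    rw [h4, mul_inv_cancel] at h3
    have h5 : ⁅x, g⁆ = x * y := by rw [commutatorElement_def, hy]; group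
    rw [h5, h3]

theorem commutator_pow_eq_one [Finite G] {p : ℕ} [Fact p.Prime] (hp : p ≠ 2) (hG : IsPGroup p G)
    (hc : ∀ x : G, x ^ p = 1 → ∀ g : G, Commute x g) (x g : G) (hx : x ^ (p ^ 2) = 1) : ⁅x, g⁆ ^ p = 1 :=
  comm_pow_aux hp hG hc _ x g hx le_rfl

/-- The subgroup of elements of order dividing `p`, when these are central. -/
def om (G : Type u) [Group G] (p : ℕ) (hc : ∀ x : G, x ^ p = 1 → ∀ g : G, Commute x g) : Subgroup G where
  carrier := {x | x ^ p = 1}
  mul_mem' := by
    intro a b ha hb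
    have h := (hc a ha b).mul_pow p
    rw [Set.mem_ofPred_eq] at ha hb ⊢
    rw [h, ha, hb, one_mul]
  one_mem' := one_pow p
  inv_mem' := by
    intro a ha
    rw [Set.mem_ofPred_eq] at ha ⊢
    rw [inv_pow, ha, inv_one]

theorem mem_om {p : ℕ} {hc : ∀ x : G, x ^ p = 1 → ∀ g : G, Commute x g} {x : G} : x ∈ om G p hc ↔ x ^ p = 1 :=
  Iff.rfl

theorem om_normal {p : ℕ} (hc : ∀ x : G, x ^ p = 1 → ∀ g : G, Commute x g) : (om G p hc).Normal := by
  constructor
  intro x hx g
  have : g * x * g⁻¹ = x := by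
    rw [← (hc x hx g).eq]; simp
  rw [this]; exact hx

theorem exists_hyperplane {p : ℕ} [hpf : Fact p.Prime] {T : Type v} [CommGroup T] [Finite T]
    (hT : ∀ t : T, t ^ p = 1) {t : T} (ht : t ≠ 1) :
    ∃ T₀ : Subgroup T, t ∉ T₀ ∧ T₀ ⊔ zpowers t = ⊤ := by
  classical
  obtain ⟨T₀, _, hT₀⟩ := (Set.toFinite {N : Subgroup T | t ∉ N}).exists_le_maximal
    (a := (⊥ : Subgroup T)) (by
      show t ∉ (⊥ : Subgroup T)
      rw [mem_bot]; exact ht)
  refine ⟨T₀, hT₀.1, ?_⟩
  rw [eq_top_iff]
  intro u _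
  by_cases hu : u ∈ T₀
  · exact mem_sup_left hu
  have h1 : t ∈ T₀ ⊔ zpowers u := by
    by_contra h
    have h2 := hT₀.2 (show t ∉ T₀ ⊔ zpowers u from h) le_sup_left
    exact hu (h2 (mem_sup_right (mem_zpowers u)))
  obtain ⟨a, ha, b, hb, hab⟩ := mem_sup.mp h1
  obtain ⟨k, rfl⟩ := mem_zpowers_iff.mp hb
  have hpp := hpf.out
  have hk : ¬ (p : ℤ) ∣ k := by
    rintro ⟨m, rfl⟩
    have : u ^ ((p : ℤ) * m) = 1 := by rw [zpow_mul, zpow_natCast, hT, one_zpow]
    rw [this, mul_one] at hab
    rw [hab] at ha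
    exact hT₀.1 ha
  have hcop : IsCoprime k (p : ℤ) := by
    rw [Int.isCoprime_iff_gcd_eq_one, Int.gcd_comm]
    exact (Int.isCoprime_iff_gcd_eq_one.mp ((Nat.prime_iff_prime_int.mp hpp).coprime_iff_not_dvd.mpr hk))
  obtain ⟨α, β, hαβ⟩ := hcop
  have hu2 : u = (u ^ k) ^ α := by
    rw [← zpow_mul]
    calc u = u ^ (1 : ℤ) := (zpow_one u).symm
      _ = u ^ (α * k + β * p) := by rw [hαβ]
      _ = u ^ (k * α) * (u ^ (p : ℤ)) ^ β := by rw [zpow_add, mul_comm α k, mul_comm β, zpow_mul u (p : ℤ)]
      _ = u ^ (k * α) := by rw [zpow_natCast, hT, one_zpow, mul_one]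
  rw [hu2]
  apply zpow_mem
  have h3 : u ^ k = a⁻¹ * t := by rw [← hab]; simp
  rw [h3]
  exact mul_mem (inv_mem (mem_sup_left ha)) (mem_sup_right (mem_zpowers t))

theorem card_le_omega_aux {p : ℕ} [hpf : Fact p.Prime] (hp : p ≠ 2) : ∀ n : ℕ, ∀ (G : Type u) [Group G] [Finite G],
    Nat.card G ≤ n → IsPGroup p G → (∀ x : G, x ^ p = 1 → ∀ g : G, Commute x g) →
    ∀ (T : Type v) [CommGroup T] (f : G →* T), Function.Surjective f → (∀ t : T, t ^ p = 1) →
    Nat.card T ≤ Nat.card {x : G // x ^ p = 1} := by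
  intro n
  induction n with
  | zero =>
    intro G _ _ h
    have : 0 < Nat.card G := Nat.card_pos
    omega
  | succ n ih =>
    intro G _ _ hcard hG hc T _ f hf hT
    have hpp := hpf.out
    have : Finite T := Finite.of_surjective f hf
    by_cases hker : ∀ x : G, x ^ p = 1 → f x = 1
    · -- `f` factors through `G / Ω`
      by_cases htriv : ∀ x : G, x ^ p = 1 → x = 1
      · -- no elements of order `p`: trivial group
        have h1 : ∀ x : G, x = 1 := by
          intro x
          obtain ⟨k, hk⟩ := hG x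
          induction k with
          | zero => simpa using hk
          | succ k ihk =>
            apply ihk
            apply htriv
            rw [← pow_mul, ← pow_succ]; exact hk
        have h2 : Subsingleton T := by
          constructor
          intro a b
          obtain ⟨x, rfl⟩ := hf a
          obtain ⟨y, rfl⟩ := hf b
          rw [h1 x, h1 y]
        rw [Nat.card_of_subsingleton (1 : T)]
        have : Nonempty {x : G // x ^ p = 1} := ⟨⟨1, one_pow p⟩⟩
        exact Nat.card_pos
      push Not at htriv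
      obtain ⟨x₀, hx₀, hx₀1⟩ := htriv
      have hn := om_normal (G := G) hc
      have hlt : Nat.card (G ⧸ om G p hc) < Nat.card G := by
        have h1 := Subgroup.card_eq_card_quotient_mul_card_subgroup (om G p hc)
        have h2 : 1 < Nat.card (om G p hc) := by
          rw [Subgroup.one_lt_card_iff_ne_bot]
          intro h
          apply hx₀1
          have h3 : x₀ ∈ om G p hc := mem_om.mpr hx₀
          rwa [h, mem_bot] at h3
        have h3 : 0 < Nat.card (G ⧸ om G p hc) := Nat.card_pos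
        rw [h1]
        exact lt_mul_of_one_lt_right h3 h2
      have hGq : IsPGroup p (G ⧸ om G p hc) := hG.to_quotient _
      have hcq : ∀ x : G ⧸ om G p hc, x ^ p = 1 → ∀ g : G ⧸ om G p hc, Commute x g := by
        intro x hx g
        obtain ⟨x, rfl⟩ := QuotientGroup.mk'_surjective _ x
        obtain ⟨g, rfl⟩ := QuotientGroup.mk'_surjective _ g
        rw [← map_pow] at hx
        have h1 : x ^ p ∈ om G p hc := (QuotientGroup.eq_one_iff _).mp hx
        rw [mem_om, ← pow_mul, ← pow_two] at h1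
        have h2 := commutator_pow_eq_one hp hG hc x g h1
        rw [← commutatorElement_eq_one_iff_commute, ← map_commutatorElement]
        exact (QuotientGroup.eq_one_iff _).mpr (mem_om.mpr h2)
      have hle : om G p hc ≤ f.ker := by
        intro x hx
        exact hker x hx
      have h1 := ih (G ⧸ om G p hc) (by omega) hGq hcq T (QuotientGroup.lift (om G p hc) f hle)
        (by
          intro t
          obtain ⟨x, rfl⟩ := hf t
          exact ⟨QuotientGroup.mk x, rfl⟩) hT
      refine h1.trans ?_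
      -- the power map
      have hpow : ∀ y : {y : G ⧸ om G p hc // y ^ p = 1}, ((Quotient.out y.1 : G) ^ p) ^ p = 1 := by
        rintro ⟨y, hy⟩
        have h2 : (QuotientGroup.mk (Quotient.out y) : G ⧸ om G p hc) = y := QuotientGroup.out_eq' y
        have h3 : (QuotientGroup.mk ((Quotient.out y) ^ p) : G ⧸ om G p hc) = 1 := by
          rw [QuotientGroup.mk_pow, h2, hy]
        exact (QuotientGroup.eq_one_iff _).mp h3
      apply Nat.card_le_card_of_injective (fun y => (⟨(Quotient.out y.1 : G) ^ p, hpow y⟩ : {x : G // x ^ p = 1}))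
      intro y z hyz
      have hyz' : (Quotient.out y.1 : G) ^ p = (Quotient.out z.1 : G) ^ p := congrArg Subtype.val hyz
      have hy2 : (QuotientGroup.mk (Quotient.out y.1) : G ⧸ om G p hc) = y.1 := QuotientGroup.out_eq' y.1
      have hz2 : (QuotientGroup.mk (Quotient.out z.1) : G ⧸ om G p hc) = z.1 := QuotientGroup.out_eq' z.1
      apply Subtype.ext
      rw [← hy2, ← hz2, QuotientGroup.eq, mem_om]
      set a := (Quotient.out y.1 : G) with ha
      set b := (Quotient.out z.1 : G) with hb
      have hap : a ^ (p ^ 2) = 1 := by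
        rw [pow_two, pow_mul]; exact hpow y
      -- commutator of `a⁻¹` and `b`
      have h4 := commutator_pow_eq_one hp hG hc a b hap
      have hcp : (b⁻¹ * a * b * a⁻¹) ^ p = 1 := by
        have : b⁻¹ * a * b * a⁻¹ = b⁻¹ * ⁅a, b⁆ * (b⁻¹)⁻¹ := by
          rw [commutatorElement_def]; group
        rw [this, conj_pow, h4]; group
      have hcc := hc _ hcp
      have h5 := Cfsg.Agent.Lib.NormalElementary.mul_pow_prime_of_swap hp (x := a⁻¹) (y := b)
        (c := b⁻¹ * a * b * a⁻¹) (by group) (hcc _) (hcc _) hcp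
      rw [h5, inv_pow, hyz', inv_mul_cancel]
    · push Not at hker
      obtain ⟨z, hz, hfz⟩ := hker
      obtain ⟨T₀, hT₀, hsup⟩ := exists_hyperplane hT hfz
      let G₀ : Subgroup G := T₀.comap f
      have hzG : z ∉ G₀ := hT₀
      have hlt : Nat.card G₀ < Nat.card G := by
        apply lt_of_le_of_ne (Subgroup.card_le_card_group _)
        intro h
        have : G₀ = ⊤ := Subgroup.eq_top_of_card_eq _ h
        rw [this] at hzG
        exact hzG (mem_top _)
      let f₀ : ↥G₀ →* ↥T₀ := (f.comp G₀.subtype).codRestrict T₀ (fun x => x.2)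
      have hf₀ : Function.Surjective f₀ := by
        rintro ⟨t, ht⟩
        obtain ⟨x, rfl⟩ := hf t
        exact ⟨⟨x, ht⟩, rfl⟩
      have h1 := ih ↥G₀ (by omega) (hG.to_subgroup G₀)
        (by
          intro x hx g
          have hx' : (x : G) ^ p = 1 := by simpa using congrArg Subtype.val hx
          exact Subtype.ext (hc _ hx' g))
        ↥T₀ f₀ hf₀ (fun t => Subtype.ext (by simpa using hT t))
      have h2 : Nat.card T ≤ Nat.card ↥T₀ * p := by
        have h3 := Subgroup.card_mul_index T₀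
        rw [← h3]
        apply Nat.mul_le_mul_left
        rw [← Subgroup.relIndex_top_right, ← hsup, sup_comm, Subgroup.relIndex_sup_right]
        have h4 : Nat.card ↥(zpowers (f z)) = p := by
          rw [Nat.card_zpowers]
          exact orderOf_eq_prime (hT _) hfz
        rw [← h4]
        exact Nat.le_of_dvd Nat.card_pos (Subgroup.relIndex_dvd_card _ _)
      refine h2.trans ((Nat.mul_le_mul_right p h1).trans ?_)
      have h5 : Nat.card ↥(zpowers z) = p := by
        rw [Nat.card_zpowers]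
        exact orderOf_eq_prime hz (fun h => hfz (by rw [h, map_one]))
      nth_rewrite 2 [← h5]
      rw [← Nat.card_prod]
      have hzz : ∀ w ∈ zpowers z, w ^ p = 1 := by
        intro w hw
        obtain ⟨k, rfl⟩ := mem_zpowers_iff.mp hw
        rw [← zpow_natCast, ← zpow_mul, mul_comm, zpow_mul, zpow_natCast, hz, one_zpow]
      apply Nat.card_le_card_of_injective (fun w : {x : ↥G₀ // x ^ p = 1} × ↥(zpowers z) =>
        (⟨((w.1.1 : ↥G₀) : G) * (w.2 : G), by
          have hx' : ((w.1.1 : ↥G₀) : G) ^ p = 1 := by simpa using congrArg Subtype.val w.1.2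
          rw [(hc _ hx' _).mul_pow, hx', hzz _ w.2.2, one_mul]⟩ : {x : G // x ^ p = 1}))
      rintro ⟨⟨a, ha⟩, b⟩ ⟨⟨c, hcc⟩, d⟩ h
      have h' : (a : G) * (b : G) = (c : G) * (d : G) := congrArg Subtype.val h
      have h6 : (c : G)⁻¹ * (a : G) = (d : G) * (b : G)⁻¹ := by
        rw [inv_mul_eq_iff_eq_mul, ← mul_assoc, ← h']; simp
      have h7 : (d : G) * (b : G)⁻¹ ∈ G₀ := by
        rw [← h6]; exact mul_mem (inv_mem c.2) a.2
      have h8 : (d : G) * (b : G)⁻¹ = 1 := by
        by_contra hne
        apply hzG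
        have h9 : (d : G) * (b : G)⁻¹ ∈ zpowers z := mul_mem d.2 (inv_mem b.2)
        have h10 : zpowers ((d : G) * (b : G)⁻¹) = zpowers z := by
          apply Subgroup.eq_of_le_of_card_ge
          · rw [zpowers_le]; exact h9
          · rw [h5, Nat.card_zpowers, orderOf_eq_prime (hzz _ h9) hne]
        have h11 : z ∈ zpowers ((d : G) * (b : G)⁻¹) := by rw [h10]; exact mem_zpowers z
        exact (zpowers_le.mpr h7) h11
      have h9 : (d : G) = b := mul_inv_eq_one.mp h8
      have h10 : (a : G) = c := by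
        rw [h8, inv_mul_eq_one] at h6
        exact h6.symm
      apply Prod.ext
      · exact Subtype.ext (Subtype.ext h10)
      · exact Subtype.ext h9.symm

/-- **Thompson.** `G` a finite `p`-group, `p` odd, all of whose elements of order `p` are central. Then every
elementary abelian quotient of `G` has order at most `|Ω₁(G)|`. -/
theorem card_le_omega {p : ℕ} [hpf : Fact p.Prime] (hp : p ≠ 2) {G : Type u} [Group G] [Finite G]
    (hG : IsPGroup p G) (hc : ∀ x : G, x ^ p = 1 → ∀ g : G, Commute x g)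
    {T : Type v} [CommGroup T] (f : G →* T) (hf : Function.Surjective f) (hT : ∀ t : T, t ^ p = 1) :
    Nat.card T ≤ Nat.card {x : G // x ^ p = 1} :=
  card_le_omega_aux hp _ G le_rfl hG hc T f hf hT

/-- The centralizer of a normal elementary abelian subgroup of order `p ^ 2` of a `p`-group has index
dividing `p`. -/
theorem index_centralizer_dvd {p : ℕ} [hpf : Fact p.Prime] {R : Type u} [Group R] [Finite R] (hR : IsPGroup p R)
    (A : Subgroup R) [A.Normal] (hA : Cfsg.IsElementaryAbelian p A) (hA2 : Nat.card ↥A = p ^ 2) :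
    (centralizer (A : Set R)).index ∣ p := by
  have hpp := hpf.out
  let _ : CommGroup ↥A := { (inferInstance : Group ↥A) with mul_comm := hA.1.is_comm.comm }
  obtain ⟨e⟩ := Cfsg.Agent.Lib.ElemAbGL.mulAut_equiv_GL (V := ↥A) p 2 (fun x => Subtype.ext (by
    rw [Subgroup.coe_pow]; exact hA.2 x x.2)) hA2
  have hker : (MulAut.conjNormal (H := A)).ker = centralizer (A : Set R) := by
    ext g
    rw [MonoidHom.mem_ker, mem_centralizer_iff]
    constructor
    · intro h a ha
      have h2 := congrArg (fun φ : MulAut ↥A => ((φ ⟨a, ha⟩ : ↥A) : R)) h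
      have h3 : g * a * g⁻¹ = a := h2
      exact (mul_inv_eq_iff_eq_mul.mp h3).symm
    · intro h
      ext a
      show g * (a : R) * g⁻¹ = a
      rw [← h a a.2]; simp
  rw [← hker, Subgroup.index_ker]
  have h1 : Nat.card ↥(MulAut.conjNormal (H := A)).range ∣ Nat.card (MulAut ↥A) := Subgroup.card_subgroup_dvd_card _
  rw [Nat.card_congr e.toEquiv, Matrix.card_GL_field, Fin.prod_univ_two] at h1
  simp only [ZMod.card, Fin.val_zero, Fin.val_one, pow_zero, pow_one] at h1
  have h2 : ∃ k, Nat.card ↥(MulAut.conjNormal (H := A)).range = p ^ k := by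
    rw [← Subgroup.index_ker]
    obtain ⟨n, hn⟩ := (IsPGroup.iff_card).1 hR
    have h3 := Subgroup.index_dvd_card (MulAut.conjNormal (H := A)).ker
    rw [hn] at h3
    obtain ⟨k, _, hk⟩ := (Nat.dvd_prime_pow hpp).mp h3
    exact ⟨k, hk⟩
  obtain ⟨k, hk⟩ := h2
  rw [hk] at h1 ⊢
  have h4 : (p ^ 2 - 1) * (p ^ 2 - p) = p * ((p ^ 2 - 1) * (p - 1)) := by
    have : p ^ 2 - p = p * (p - 1) := by rw [pow_two, Nat.mul_sub, mul_one]
    rw [this]; ring
  rw [h4] at h1
  by_contra h5
  have h6 : 2 ≤ k := by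
    by_contra h7
    apply h5
    have : k = 0 ∨ k = 1 := by omega
    rcases this with rfl | rfl
    · simp
    · simp
  have h7 : p * p ∣ p * ((p ^ 2 - 1) * (p - 1)) := by
    rw [← pow_two]; exact (pow_dvd_pow p h6).trans h1
  have h8 : p ∣ (p ^ 2 - 1) * (p - 1) := Nat.dvd_of_mul_dvd_mul_left hpp.pos h7
  have h9 : 1 < p := hpp.one_lt
  rcases hpp.dvd_mul.mp h8 with h | h
  · have h10 : p ∣ p ^ 2 := dvd_pow_self p (by norm_num)
    have h11 : p ∣ 1 := by
      have := (Nat.dvd_sub h10 h)
      have h12 : p ^ 2 - (p ^ 2 - 1) = 1 := by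
        have : 1 ≤ p ^ 2 := Nat.one_le_pow _ _ hpp.pos
        omega
      rwa [h12] at this
    exact hpp.one_lt.ne' (Nat.dvd_one.mp h11)
  · have := Nat.le_of_dvd (by omega) h
    omega

/-- `p`-rank at most two if there is no elementary abelian subgroup of order `p ^ 3`. -/
theorem pRankLE_two_of {p : ℕ} [hpf : Fact p.Prime] {R : Type u} [Group R] [Finite R]
    (h : ¬ ∃ F : Subgroup R, Cfsg.IsElementaryAbelian p F ∧ Nat.card ↥F = p ^ 3) : Cfsg.PRankLE p 2 R := by
  intro A hA hAp
  by_contra hlt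
  push Not at hlt
  apply h
  have hpp := hpf.out
  have hAg : IsPGroup p ↥A := fun a => ⟨1, Subtype.ext (by rw [pow_one]; exact hAp a a.2)⟩
  obtain ⟨n, hn⟩ := (IsPGroup.iff_card).1 hAg
  have h3 : 3 ≤ n := by
    by_contra h4
    have : p ^ n ≤ p ^ 2 := Nat.pow_le_pow_right hpp.pos (by omega)
    omega
  obtain ⟨K, hK⟩ := Sylow.exists_subgroup_card_pow_prime (G := ↥A) p (n := 3) (by rw [hn]; exact pow_dvd_pow p h3)
  refine ⟨K.map A.subtype, ⟨?_, ?_⟩, ?_⟩
  · constructor
    constructor
    rintro ⟨_, ⟨a, _, rfl⟩⟩ ⟨_, ⟨b, _, rfl⟩⟩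
    apply Subtype.ext
    have := hA.is_comm.comm a b
    show (a : R) * b = b * a
    exact congrArg Subtype.val this
  · rintro _ ⟨a, _, rfl⟩
    exact hAp a a.2
  · rw [Subgroup.card_map_of_injective A.subtype_injective, hK]

/-- The key estimate: in a `p`-group of rank at most `2` (`p` odd) let `A` be an elementary abelian subgroup of
order `p ^ 2`; then elementary abelian quotients of `C_R(A)` have order at most `p ^ 2`. -/
theorem card_le_of_centralizer {p : ℕ} [hpf : Fact p.Prime] (hp : p ≠ 2) {R : Type u} [Group R] [Finite R]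
    (hR : IsPGroup p R) (hr : Cfsg.PRankLE p 2 R) (A : Subgroup R) (hA : Cfsg.IsElementaryAbelian p A)
    (hA2 : Nat.card ↥A = p ^ 2) {T : Type v} [CommGroup T] (f : ↥(centralizer (A : Set R)) →* T)
    (hf : Function.Surjective f) (hT : ∀ t : T, t ^ p = 1) : Nat.card T ≤ p ^ 2 := by
  have hAc : ∀ a ∈ A, ∀ b ∈ A, a * b = b * a := Cfsg.Agent.Omega.Sec.Basic.comm_of hA.1
  have hmem : ∀ x : ↥(centralizer (A : Set R)), x ^ p = 1 → (x : R) ∈ A := by
    intro x hx
    apply Cfsg.Agent.Omega.Sec.Basic.mem_of_rank hr hAc hA.2 hA2.ge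
    · intro a ha
      exact (mem_centralizer_iff.mp x.2 a ha).symm
    · simpa using congrArg Subtype.val hx
  have h1 := card_le_omega hp (hR.to_subgroup (centralizer (A : Set R)))
    (by
      intro x hx g
      apply Subtype.ext
      exact mem_centralizer_iff.mp g.2 _ (hmem x hx)) f hf hT
  refine h1.trans ?_
  rw [← hA2]
  exact Nat.card_le_card_of_injective (fun x : {x : ↥(centralizer (A : Set R)) // x ^ p = 1} =>
    (⟨(x.1 : R), hmem x.1 x.2⟩ : ↥A)) (by
      intro x y hxy
      have h3 := congrArg (fun a : ↥A => (a : R)) hxy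
      have h2 : ((x.1 : ↥(centralizer (A : Set R))) : R) = y.1 := h3
      exact Subtype.ext (Subtype.ext h2))

/-- A finite `p`-group, `p` odd, with an elementary abelian quotient of order at least `p ^ 4` contains an
elementary abelian subgroup of order `p ^ 3`. -/
theorem exists_rank_three {p : ℕ} [hpf : Fact p.Prime] (hp : p ≠ 2) {R : Type u} [Group R] [Finite R]
    (hR : IsPGroup p R) {T : Type v} [CommGroup T] (f : R →* T) (hf : Function.Surjective f)
    (hT : ∀ t : T, t ^ p = 1) (hcard : p ^ 4 ≤ Nat.card T) :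
    ∃ F : Subgroup R, Cfsg.IsElementaryAbelian p F ∧ Nat.card ↥F = p ^ 3 := by
  by_contra hcon
  have hpp := hpf.out
  have hr := pRankLE_two_of hcon
  have hncyc : ¬ IsCyclic R := by
    intro hcyc
    have h1 : IsCyclic T := isCyclic_of_surjective f hf
    have : Finite T := Finite.of_surjective f hf
    obtain ⟨t, ht⟩ := h1.exists_generator
    have h2 : orderOf t = Nat.card T := orderOf_eq_card_of_forall_mem_zpowers ht
    have h3 : orderOf t ∣ p := orderOf_dvd_of_pow_eq_one (hT t)
    have h4 : Nat.card T ≤ p := by rw [← h2]; exact Nat.le_of_dvd hpp.pos h3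
    have h5 : p ^ 1 < p ^ 4 := Nat.pow_lt_pow_right hpp.one_lt (by norm_num)
    rw [pow_one] at h5
    omega
  obtain ⟨A, _, hAn, hA, hA2⟩ := Cfsg.Agent.S0636.result hp hR (⊤ : Subgroup R) (by
    intro h
    apply hncyc
    exact isCyclic_of_surjective (Subgroup.topEquiv (G := R)).toMonoidHom (Subgroup.topEquiv (G := R)).surjective)
  have hidx := index_centralizer_dvd hR A hA hA2
  set B := centralizer (A : Set R) with hB
  let T' : Subgroup T := B.map f
  let f' : ↥B →* ↥T' := (f.comp B.subtype).codRestrict T' (fun x => ⟨x, x.2, rfl⟩)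
  have hf' : Function.Surjective f' := by
    rintro ⟨_, ⟨x, hx, rfl⟩⟩
    exact ⟨⟨x, hx⟩, rfl⟩
  have h1 := card_le_of_centralizer hp hR hr A hA hA2 f' hf' (fun t => Subtype.ext (by simpa using hT t))
  have h2 : T'.index ∣ B.index := Subgroup.index_map_dvd B hf
  have h3 : T'.index ≤ p := Nat.le_of_dvd hpp.pos (h2.trans hidx)
  have h4 := Subgroup.card_mul_index T'
  have h5 : Nat.card T ≤ p ^ 2 * p := by
    rw [← h4]; exact Nat.mul_le_mul h1 h3
  have h6 : p ^ 3 < p ^ 4 := Nat.pow_lt_pow_right hpp.one_lt (by norm_num)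
  have h7 : p ^ 2 * p = p ^ 3 := by ring
  omega

end Cfsg.Agent.H585.PCentral
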