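import Cfsg.Agent.H585.ModTwo
import Cfsg.Agent.H585.PCentral

/-!
# Four independent small elements give an elementary abelian subgroup of rank three
-/

set_option autoImplicit false

namespace Cfsg.Agent.H585.RankB

open Subgroup Cfsg.Agent.H585.ModTwo Cfsg.Agent.H585.PCentral
open scoped commutatorElement Pointwise

variable {S : Type*} [Group S] [Finite S]

/-- the two relevant pairs `(3, 2)` and `(7, 3)` -/
def RD (r d : ℕ) : Prop := (r = 3 ∧ d = 2) ∨ (r = 7 ∧ d = 3)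

theorem RD.prime {r d : ℕ} (h : RD r d) : r.Prime := by
  rcases h with ⟨rfl, _⟩ | ⟨rfl, _⟩ <;> norm_num

theorem RD.ne_two {r d : ℕ} (h : RD r d) : r ≠ 2 := by
  rcases h with ⟨rfl, _⟩ | ⟨rfl, _⟩ <;> norm_num

theorem RD.pow {r d : ℕ} (h : RD r d) : 2 ^ d = r + 1 := by
  rcases h with ⟨rfl, rfl⟩ | ⟨rfl, rfl⟩ <;> norm_num

theorem RD.not_sq {r d : ℕ} (h : RD r d) : ¬ r ^ 2 ∣ gl d := by
  obtain ⟨g0, g1, g2, g3, g4, g5, g6⟩ := gl_vals
  rcases h with ⟨rfl, rfl⟩ | ⟨rfl, rfl⟩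
  · rw [g2]; decide
  · rw [g3]; decide

variable {M : Subgroup S} (hM : Hyp M)

include hM in
theorem relIndex_dvd {r d : ℕ} (hrd : RD r d) {K V : Subgroup S} (hK : IsPGroup r ↥K) (hV : V ≤ M)
    (hVc : Nat.card ↥V = 2 ^ d) (hKV : K ≤ normalizer (V : Set S)) : (centralizer (V : Set S)).relIndex K ∣ r := by
  have hrp := hrd.prime
  have : Fact r.Prime := ⟨hrp⟩
  have h1 := relIndex_centralizer_dvd hKV
  rw [card_mulAut (fun a ha b hb => hM.comm a (hV ha) b (hV hb)) (fun a ha => hM.sq a (hV ha)) hVc] at h1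
  obtain ⟨c, hc⟩ := (IsPGroup.iff_card).1 hK
  have h3 := Subgroup.relIndex_dvd_card (centralizer (V : Set S)) K
  rw [hc] at h3
  obtain ⟨k, _, hk⟩ := (Nat.dvd_prime_pow hrp).mp h3
  rw [hk] at h1 ⊢
  have hk2 : k ≤ 1 := by
    by_contra h
    exact hrd.not_sq ((pow_dvd_pow r (by omega)).trans h1)
  exact (pow_dvd_pow r hk2).trans (by rw [pow_one])

omit [Finite S] in
theorem not_isCyclic_of {r : ℕ} [Fact r.Prime] {X : Subgroup S} (hX : ∀ x ∈ X, x ^ r = 1)
    (hc : r ^ 2 ≤ Nat.card ↥X) : ¬ IsCyclic ↥X := by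
  intro h
  have hrp : r.Prime := Fact.out
  have hfin : Finite ↥X := by
    apply Nat.finite_of_card_ne_zero
    have : 0 < r ^ 2 := pow_pos hrp.pos 2
    omega
  obtain ⟨t, ht⟩ := h.exists_generator
  have h2 : orderOf t = Nat.card ↥X := orderOf_eq_card_of_forall_mem_zpowers ht
  have h3 : orderOf t ∣ r := orderOf_dvd_of_pow_eq_one (Subtype.ext (by simpa using hX t t.2))
  have h4 : Nat.card ↥X ≤ r := by rw [← h2]; exact Nat.le_of_dvd hrp.pos h3
  have h5 : r ^ 1 < r ^ 2 := Nat.pow_lt_pow_right hrp.one_lt (by norm_num)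
  rw [pow_one] at h5
  omega

include hM in
theorem noncyclic_of {r d : ℕ} (hrd : RD r d) {F V : Subgroup S} (hF : Cfsg.IsElementaryAbelian r F)
    (hFc : Nat.card ↥F = r ^ 3) (hV : V ≤ M) (hVc : Nat.card ↥V = 2 ^ d)
    (hFV : F ≤ normalizer (V : Set S)) : ¬ IsCyclic ↥(F ⊓ centralizer (V : Set S)) := by
  have hrp := hrd.prime
  have : Fact r.Prime := ⟨hrp⟩
  have hFp : IsPGroup r ↥F := IsPGroup.of_card hFc
  have h1 := relIndex_dvd hM hrd hFp hV hVc hFV
  apply not_isCyclic_of (r := r) (X := F ⊓ centralizer (V : Set S)) (fun x hx => hF.2 x hx.1)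
  have h2 : Nat.card ↥(F ⊓ centralizer (V : Set S)) * (centralizer (V : Set S)).relIndex F = r ^ 3 := by
    rw [← Subgroup.inf_relIndex_left, ← hFc]
    have := Subgroup.relIndex_mul_relIndex ⊥ (F ⊓ centralizer (V : Set S)) F bot_le inf_le_left
    rwa [Subgroup.relIndex_bot_left, Subgroup.relIndex_bot_left] at this
  have h3 : (centralizer (V : Set S)).relIndex F ≤ r := Nat.le_of_dvd hrp.pos h1
  by_contra h4
  push Not at h4
  have h5 : Nat.card ↥(F ⊓ centralizer (V : Set S)) * (centralizer (V : Set S)).relIndex F < r ^ 2 * r := by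
    calc Nat.card ↥(F ⊓ centralizer (V : Set S)) * (centralizer (V : Set S)).relIndex F
        ≤ Nat.card ↥(F ⊓ centralizer (V : Set S)) * r := Nat.mul_le_mul_left _ h3
      _ < r ^ 2 * r := Nat.mul_lt_mul_of_pos_right h4 hrp.pos
  rw [h2, ← pow_succ] at h5
  exact lt_irrefl _ h5

theorem disjoint_of_ne {r d : ℕ} (hrd : RD r d) {y y' : S} (hy : y ^ r ∈ centralizer (M : Set S))
    (hy' : y' ^ r ∈ centralizer (M : Set S)) (hc : Nat.card ↥(cm hM y) = 2 ^ d)
    (hc' : Nat.card ↥(cm hM y') = 2 ^ d) (h : ⁅y, y'⁆ ∈ centralizer (M : Set S)) (hne : cm hM y ≠ cm hM y') :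
    cm hM y ⊓ cm hM y' = ⊥ := by
  have : Fact r.Prime := ⟨hrd.prime⟩
  by_contra hcon
  apply hne
  have h' : ⁅y', y⁆ ∈ centralizer (M : Set S) := by
    rw [← commutatorElement_inv]; exact inv_mem h
  have h1 := eq_cm_of_le hM (y := y) hrd.ne_two hy (by rw [hc, hrd.pow]) (U := cm hM y ⊓ cm hM y') inf_le_left
    (fun u hu => ⟨conj_mem_cm_of_comm hM (y := y) (y' := y) (by rw [commutatorElement_self]; exact one_mem _) hu.1,
      conj_mem_cm_of_comm hM h hu.2⟩) hcon
  have h2 := eq_cm_of_le hM (y := y') hrd.ne_two hy' (by rw [hc', hrd.pow]) (U := cm hM y ⊓ cm hM y') inf_le_right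
    (fun u hu => ⟨conj_mem_cm_of_comm hM h' hu.1,
      conj_mem_cm_of_comm hM (y := y') (y' := y') (by rw [commutatorElement_self]; exact one_mem _) hu.2⟩) hcon
  exact h1.symm.trans h2

theorem exists_pi_surj {r : ℕ} [hrp : Fact r.Prime] {R : Type*} [Group R] (χ : Fin 4 → (R →* Multiplicative (ZMod r)))
    (s : Fin 4 → R) (h0 : ∀ i j, i ≠ j → χ i (s j) = 1) (h1 : ∀ i, χ i (s i) ≠ 1) :
    Function.Surjective (MonoidHom.pi χ : R →* (Fin 4 → Multiplicative (ZMod r))) := by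
  intro x
  have hcard : Nat.card (Multiplicative (ZMod r)) = r := by
    rw [Nat.card_congr Multiplicative.toAdd, Nat.card_zmod]
  have hz : ∀ i, x i ∈ zpowers (χ i (s i)) := fun i => mem_zpowers_of_prime_card hcard (h1 i)
  choose a ha using fun i => mem_zpowers_iff.mp (hz i)
  refine ⟨s 0 ^ a 0 * s 1 ^ a 1 * s 2 ^ a 2 * s 3 ^ a 3, ?_⟩
  funext i
  show χ i _ = x i
  rw [map_mul, map_mul, map_mul, map_zpow, map_zpow, map_zpow, map_zpow]
  have hi : i = 0 ∨ i = 1 ∨ i = 2 ∨ i = 3 := by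
    revert i; decide
  rcases hi with rfl | rfl | rfl | rfl
  · rw [h0 0 1 (by decide), h0 0 2 (by decide), h0 0 3 (by decide), ha]; simp
  · rw [h0 1 0 (by decide), h0 1 2 (by decide), h0 1 3 (by decide), ha]; simp
  · rw [h0 2 0 (by decide), h0 2 1 (by decide), h0 2 3 (by decide), ha]; simp
  · rw [h0 3 0 (by decide), h0 3 1 (by decide), h0 3 2 (by decide), ha]; simp

/-- An element of prime-power order of a finite group `K` is conjugate into a given Sylow subgroup. -/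
theorem exists_conj_mem_sylow {K : Type*} [Group K] [Finite K] {p : ℕ} [Fact p.Prime] (R : Sylow p K) {t : K}
    (ht : IsPGroup p ↥(zpowers t)) : ∃ k : K, k * t * k⁻¹ ∈ (R : Subgroup K) := by
  obtain ⟨Q, hQ⟩ := ht.exists_le_sylow
  obtain ⟨g, hg⟩ := MulAction.exists_smul_eq K Q R
  refine ⟨g, ?_⟩
  have h1 : t ∈ (Q : Subgroup K) := hQ (mem_zpowers t)
  rw [← hg]
  show g * t * g⁻¹ ∈ ((g • Q : Sylow p K) : Subgroup K)
  rw [Sylow.coe_subgroup_smul]
  exact Subgroup.smul_mem_pointwise_smul t (MulAut.conj g) _ h1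

theorem main {r d : ℕ} (hrd : RD r d) (H : Subgroup S) (t : Fin 4 → S) (htH : ∀ i, t i ∈ H)
    (htp : ∀ i, IsPGroup r ↥(zpowers (t i))) (htr : ∀ i, t i ^ r ∈ centralizer (M : Set S))
    (hcard : ∀ i, Nat.card ↥(cm hM (t i)) = 2 ^ d) (hcomm : ∀ i j, ⁅t i, t j⁆ ∈ centralizer (M : Set S))
    (hne : ∀ i j, i ≠ j → cm hM (t i) ≠ cm hM (t j)) :
    ∃ F : Subgroup S, F ≤ H ∧ Cfsg.IsElementaryAbelian r F ∧ Nat.card ↥F = r ^ 3 ∧
      ¬ IsCyclic ↥(F ⊓ centralizer ((cm hM (t 0) : Subgroup S) : Set S)) := by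
  classical
  have hrp := hrd.prime
  have : Fact r.Prime := ⟨hrp⟩
  let K : Subgroup S := H ⊓ ⨅ i : Fin 4, normalizer ((cm hM (t i) : Subgroup S) : Set S)
  have hKN : ∀ i, K ≤ normalizer ((cm hM (t i) : Subgroup S) : Set S) :=
    fun i => inf_le_right.trans (iInf_le _ i)
  have htK : ∀ i, t i ∈ K := by
    intro i
    refine ⟨htH i, ?_⟩
    show t i ∈ ⨅ i : Fin 4, normalizer ((cm hM (t i) : Subgroup S) : Set S)
    rw [Subgroup.mem_iInf]
    intro j
    exact Subgroup.mem_normalizer_fintype (fun v hv => conj_mem_cm_of_comm hM (hcomm i j) hv)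
  obtain ⟨R⟩ : Nonempty (Sylow r ↥K) := inferInstance
  have hconj : ∀ i, ∃ k : ↥K, k * ⟨t i, htK i⟩ * k⁻¹ ∈ (R : Subgroup ↥K) := by
    intro i
    apply exists_conj_mem_sylow
    intro g
    obtain ⟨m, hm⟩ := mem_zpowers_iff.mp g.2
    obtain ⟨c, hc⟩ := htp i ⟨t i ^ m, zpow_mem (mem_zpowers _) m⟩
    refine ⟨c, Subtype.ext (Subtype.ext ?_)⟩
    have h2 : ((g : ↥K) : S) = t i ^ m := by rw [← hm]; simp
    have h3 : (t i ^ m) ^ r ^ c = 1 := by simpa using congrArg Subtype.val hc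
    show ((g : ↥K) : S) ^ r ^ c = 1
    rw [h2, h3]
  choose κ hκ using hconj
  -- the elements of `R`
  let s : Fin 4 → ↥(R : Subgroup ↥K) := fun i => ⟨κ i * ⟨t i, htK i⟩ * (κ i)⁻¹, hκ i⟩
  have hs : ∀ i, ((s i : ↥K) : S) = (κ i : S) * t i * (κ i : S)⁻¹ := fun i => rfl
  have hcms : ∀ i, cm hM ((s i : ↥K) : S) = cm hM (t i) := by
    intro i
    rw [hs, ← cm_map_conj]
    ext v
    have h1 := mem_normalizer_iff.mp (hKN i (κ i).2)
    constructor
    · rintro ⟨w, hw, rfl⟩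
      exact (h1 w).mp hw
    · intro hv
      refine ⟨(κ i : S)⁻¹ * v * κ i, ?_, ?_⟩
      · show (κ i : S)⁻¹ * v * κ i ∈ cm hM (t i)
        rw [h1]
        have : (κ i : S) * ((κ i : S)⁻¹ * v * κ i) * (κ i : S)⁻¹ = v := by group
        rw [this]; exact hv
      · show (κ i : S) * ((κ i : S)⁻¹ * v * κ i) * (κ i : S)⁻¹ = v
        group
  have hMn := hM.normal
  have hCn : (centralizer (M : Set S)).Normal := inferInstance
  have hsr : ∀ i, ((s i : ↥K) : S) ^ r ∈ centralizer (M : Set S) := by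
    intro i
    rw [hs, conj_pow]
    exact hCn.conj_mem _ (htr i) _
  have hdisj : ∀ i j, i ≠ j → cm hM (t i) ⊓ cm hM (t j) = ⊥ := fun i j hij =>
    disjoint_of_ne hM hrd (htr i) (htr j) (hcard i) (hcard j) (hcomm i j) (hne i j hij)
  -- the image of `R` in `S`
  let Rs : Subgroup S := (R : Subgroup ↥K).map K.subtype
  have hRsp : IsPGroup r ↥Rs := R.isPGroup'.map _
  have hRsK : Rs ≤ K := map_subtype_le _
  -- characters
  let N : Fin 4 → Subgroup ↥(R : Subgroup ↥K) := fun i =>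
    ((centralizer ((cm hM (t i) : Subgroup S) : Set S)).comap K.subtype).comap (R : Subgroup ↥K).subtype
  have hNmem : ∀ i x, x ∈ N i ↔ ((x : ↥K) : S) ∈ centralizer ((cm hM (t i) : Subgroup S) : Set S) := fun i x => Iff.rfl
  have hNn : ∀ i, (N i).Normal := by
    intro i
    constructor
    intro x hx g
    rw [hNmem, mem_centralizer_iff] at hx ⊢
    intro v hv
    have h1 := mem_normalizer_iff.mp (inv_mem (hKN i (g : ↥K).2))
    have h2 : ((g : ↥K) : S)⁻¹ * v * ((g : ↥K) : S) ∈ cm hM (t i) := by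
      have := (h1 v).mp hv
      simpa using this
    have h3 := hx _ h2
    show v * (((g : ↥K) : S) * ((x : ↥K) : S) * ((g : ↥K) : S)⁻¹) = (((g : ↥K) : S) * ((x : ↥K) : S) * ((g : ↥K) : S)⁻¹) * v
    calc v * (((g : ↥K) : S) * ((x : ↥K) : S) * ((g : ↥K) : S)⁻¹)
        = ((g : ↥K) : S) * ((((g : ↥K) : S)⁻¹ * v * ((g : ↥K) : S)) * ((x : ↥K) : S)) * ((g : ↥K) : S)⁻¹ := by group
      _ = ((g : ↥K) : S) * (((x : ↥K) : S) * (((g : ↥K) : S)⁻¹ * v * ((g : ↥K) : S))) * ((g : ↥K) : S)⁻¹ := by rw [h3]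
      _ = _ := by group
  have hsN : ∀ i j, i ≠ j → s j ∈ N i := by
    intro i j hij
    rw [hNmem, mem_centralizer_iff]
    intro v hv
    have h1 : cm hM ((s j : ↥K) : S) ⊓ cm hM (t i) = ⊥ := by
      rw [hcms]; exact hdisj j i hij.symm
    have h2 := commute_of_disjoint hM (cm_le hM (t i))
      (fun u hu => (mem_normalizer_iff.mp (hKN i (s j : ↥K).2) u).mp hu) h1 hv
    exact (mul_inv_eq_iff_eq_mul.mp h2).symm
  have hsN' : ∀ i, s i ∉ N i := by
    intro i hi
    rw [hNmem, mem_centralizer_iff] at hi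
    have h1 : cm hM (t i) = ⊥ := by
      rw [eq_bot_iff]
      intro v hv
      rw [mem_bot]
      apply eq_one_of_commute hM (y := ((s i : ↥K) : S)) (hrp.odd_of_ne_two hrd.ne_two) (hsr i)
      · rw [hcms]; exact hv
      · rw [← hi v hv]; group
    have h2 := hcard i
    rw [h1, Subgroup.card_bot, hrd.pow] at h2
    have := hrp.pos
    omega
  have hNi : ∀ i, Nat.card (↥(R : Subgroup ↥K) ⧸ N i) = r := by
    intro i
    have h1 := relIndex_dvd hM hrd hRsp (cm_le hM (t i)) (hcard i) (hRsK.trans (hKN i))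
    have h2 : (N i).index = (centralizer ((cm hM (t i) : Subgroup S) : Set S)).relIndex Rs := by
      have e1 : N i = (centralizer ((cm hM (t i) : Subgroup S) : Set S)).comap (K.subtype.comp (R : Subgroup ↥K).subtype) := by
        rw [← Subgroup.comap_comap]
      rw [e1, Subgroup.index_comap]
      congr 1
      rw [MonoidHom.range_comp, Subgroup.range_subtype]
    rw [← h2] at h1
    rcases (Nat.dvd_prime hrp).mp h1 with h3 | h3
    · exfalso
      rw [Subgroup.index_eq_one] at h3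
      exact hsN' i (by rw [h3]; trivial)
    · exact h3
  have hχ : ∀ i, ∃ χ : ↥(R : Subgroup ↥K) →* Multiplicative (ZMod r), χ.ker = N i := by
    intro i
    have hn := hNn i
    have hc2 : Nat.card (Multiplicative (ZMod r)) = r := by
      rw [Nat.card_congr Multiplicative.toAdd, Nat.card_zmod]
    let e : (↥(R : Subgroup ↥K) ⧸ N i) ≃* Multiplicative (ZMod r) := mulEquivOfPrimeCardEq (hNi i) hc2
    refine ⟨e.toMonoidHom.comp (QuotientGroup.mk' (N i)), ?_⟩
    ext x
    rw [MonoidHom.mem_ker]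
    show e (QuotientGroup.mk' (N i) x) = 1 ↔ _
    rw [← QuotientGroup.eq_one_iff (N := N i) x]
    constructor
    · intro h
      exact e.injective (h.trans e.map_one.symm)
    · intro h
      show e ((x : ↥(R : Subgroup ↥K) ⧸ N i)) = 1
      rw [h, map_one]
  choose χ hχk using hχ
  have hsurj := exists_pi_surj χ s
    (fun i j hij => by
      have := hsN i j hij
      rw [← hχk i] at this
      exact this)
    (fun i h => by
      apply hsN' i
      rw [← hχk i]
      exact h)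
  obtain ⟨F', hF'e, hF'c⟩ := exists_rank_three (p := r) hrd.ne_two (R := ↥(R : Subgroup ↥K)) R.isPGroup'
    (MonoidHom.pi χ : ↥(R : Subgroup ↥K) →* (Fin 4 → Multiplicative (ZMod r))) hsurj
    (by
      intro x
      funext i
      show (x i) ^ r = 1
      have hc2 : Nat.card (Multiplicative (ZMod r)) = r := by
        rw [Nat.card_congr Multiplicative.toAdd, Nat.card_zmod]
      have := pow_card_eq_one' (x := x i)
      rwa [hc2] at this)
    (by
      have hc2 : Nat.card (Multiplicative (ZMod r)) = r := by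
        rw [Nat.card_congr Multiplicative.toAdd, Nat.card_zmod]
      rw [Nat.card_fun, hc2, Nat.card_eq_fintype_card, Fintype.card_fin])
  let φ : ↥(R : Subgroup ↥K) →* S := K.subtype.comp (R : Subgroup ↥K).subtype
  have hφ : Function.Injective φ := K.subtype_injective.comp (R : Subgroup ↥K).subtype_injective
  refine ⟨F'.map φ, ?_, ?_, ?_, ?_⟩
  · rintro _ ⟨x, _, rfl⟩
    exact (x : ↥K).2.1
  · refine ⟨?_, ?_⟩
    · constructor
      constructor
      rintro ⟨_, ⟨a, ha, rfl⟩⟩ ⟨_, ⟨b, hb, rfl⟩⟩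
      apply Subtype.ext
      have := hF'e.1.is_comm.comm ⟨a, ha⟩ ⟨b, hb⟩
      have h2 : a * b = b * a := congrArg Subtype.val this
      show φ a * φ b = φ b * φ a
      rw [← map_mul, ← map_mul, h2]
    · rintro _ ⟨a, ha, rfl⟩
      rw [← map_pow, hF'e.2 a ha, map_one]
  · rw [Subgroup.card_map_of_injective hφ, hF'c]
  · apply noncyclic_of hM hrd (F := F'.map φ)
    · refine ⟨?_, ?_⟩
      · constructor
        constructor
        rintro ⟨_, ⟨a, ha, rfl⟩⟩ ⟨_, ⟨b, hb, rfl⟩⟩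
        apply Subtype.ext
        have := hF'e.1.is_comm.comm ⟨a, ha⟩ ⟨b, hb⟩
        have h2 : a * b = b * a := congrArg Subtype.val this
        show φ a * φ b = φ b * φ a
        rw [← map_mul, ← map_mul, h2]
      · rintro _ ⟨a, ha, rfl⟩
        rw [← map_pow, hF'e.2 a ha, map_one]
    · rw [Subgroup.card_map_of_injective hφ, hF'c]
    · exact cm_le hM (t 0)
    · exact hcard 0
    · rintro _ ⟨x, _, rfl⟩
      exact hKN 0 (x : ↥K).2

end Cfsg.Agent.H585.RankB
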